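import Mathlib
import Cfsg.Agent.Lib.Sour.Cyc

/-! Products of `SL`-conjugates of an endomorphism: basic notions. -/

set_option autoImplicit false
open Module
open scoped Pointwise

namespace H64.Lev
open H64.Sour
variable {K : Type*} [Field K]
variable {V W : Type*} [AddCommGroup V] [Module K V] [AddCommGroup W] [Module K W]

/-- conjugate by an element of determinant one -/
def SC (x y : End K V) : Prop :=
  ∃ h : V ≃ₗ[K] V, LinearMap.det (h : End K V) = 1 ∧ ∀ v, h (x v) = y (h v)

/-- the `SL`-class -/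
def cls (x : End K V) : Set (End K V) := {y | SC x y}

theorem SC.refl (x : End K V) : SC x x := ⟨LinearEquiv.refl K V, by simp, fun _ => rfl⟩

theorem self_mem_cls (x : End K V) : x ∈ cls x := SC.refl x

theorem SC.similar {x y : End K V} (h : SC x y) : H65.Similar x y := by
  obtain ⟨e, -, he⟩ := h
  exact ⟨e, he⟩

theorem SC.symm {x y : End K V} (h : SC x y) : SC y x := by
  obtain ⟨e, h1, he⟩ := h
  refine ⟨e.symm, ?_, fun w => e.injective (by simp [he])⟩
  have := LinearEquiv.det_symm_mul_det e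
  rwa [h1, mul_one] at this

theorem SC.trans {x y z : End K V} (h : SC x y) (h' : SC y z) : SC x z := by
  obtain ⟨e, h1, he⟩ := h
  obtain ⟨e', h1', he'⟩ := h'
  refine ⟨e.trans e', ?_, fun v => by simp [he, he']⟩
  rw [LinearEquiv.coe_trans, LinearMap.det_comp, h1, h1', mul_one]

theorem SC.smul {x y : End K V} (h : SC x y) (c : K) : SC (c • x) (c • y) := by
  obtain ⟨e, h1, he⟩ := h
  exact ⟨e, h1, fun v => by simp [he]⟩

theorem map_mem_pow {M N : Type*} [Monoid M] [Monoid N] (Φ : M →* N) {S : Set M} {T : Set N}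
    (h : ∀ s ∈ S, Φ s ∈ T) (k : ℕ) : ∀ P ∈ S ^ k, Φ P ∈ T ^ k := by
  induction k with
  | zero =>
    intro P hP
    rw [pow_zero, Set.mem_one] at hP ⊢
    rw [hP, map_one]
  | succ k ih =>
    intro P hP
    rw [pow_succ] at hP ⊢
    obtain ⟨a, ha, b, hb, rfl⟩ := hP
    exact ⟨_, ih a ha, _, h b hb, (map_mul Φ a b).symm⟩

/-- conjugation as a monoid hom -/
def cj (e : V ≃ₗ[K] W) : End K V →* End K W := (e.conjRingEquiv : End K V ≃+* End K W)

theorem cj_apply (e : V ≃ₗ[K] W) (x : End K V) (v : V) : cj e x (e v) = e (x v) := by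
  simp [cj, LinearEquiv.conj_apply]

theorem cj_apply' (e : V ≃ₗ[K] W) (x : End K V) (w : W) : cj e x w = e (x (e.symm w)) := by
  rw [← cj_apply, e.apply_symm_apply]

theorem eq_cj {e : V ≃ₗ[K] W} {x : End K V} {y : End K W} (he : ∀ v, e (x v) = y (e v)) :
    y = cj e x := LinearMap.ext fun w => by rw [cj_apply', he, e.apply_symm_apply]

theorem similar_cj (e : V ≃ₗ[K] W) (x : End K V) : H65.Similar x (cj e x) :=
  ⟨e, fun v => (cj_apply e x v).symm⟩

theorem SC.cj {x y : End K V} (h : SC x y) (e : V ≃ₗ[K] W) : SC (cj e x) (cj e y) := by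
  obtain ⟨h, h1, he⟩ := h
  refine ⟨(e.symm.trans h).trans e, ?_, fun w => by simp [cj_apply', he]⟩
  rw [← h1, ← LinearMap.det_conj (h : End K V) e]
  rfl

theorem cj_mem_pow {x : End K V} {y : End K W} {e : V ≃ₗ[K] W} (he : ∀ v, e (x v) = y (e v))
    {k : ℕ} {P : End K V} (hP : P ∈ cls x ^ k) : cj e P ∈ cls y ^ k :=
  map_mem_pow (cj e) (fun s hs => by rw [eq_cj he]; exact SC.cj hs e) k P hP

theorem SC.mem_pow {x P Q : End K V} {k : ℕ} (h : SC P Q) (hP : P ∈ cls x ^ k) :
    Q ∈ cls x ^ k := by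
  obtain ⟨e, h1, he⟩ := h
  rw [eq_cj he]
  exact map_mem_pow (Lev.cj e)
    (fun s hs => SC.trans hs ⟨e, h1, fun v => (cj_apply e s v).symm⟩) k P hP

theorem det_of_mem_pow {x P : End K V} {k : ℕ} (hP : P ∈ cls x ^ k) :
    LinearMap.det P = LinearMap.det x ^ k := by
  have := map_mem_pow LinearMap.det (S := cls x) (T := {LinearMap.det x})
    (fun s hs => (SC.similar hs).det_eq.symm) k P hP
  rwa [Set.singleton_pow, Set.mem_singleton_iff] at this

theorem smul_mem_pow {x : End K V} (c : K) (k : ℕ) :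
    ∀ P ∈ cls x ^ k, c ^ k • P ∈ cls (c • x) ^ k := by
  induction k with
  | zero => intro P hP; simpa using hP
  | succ k ih =>
    intro P hP
    rw [pow_succ] at hP
    obtain ⟨a, ha, b, hb, rfl⟩ := hP
    rw [pow_succ (cls _)]
    exact ⟨_, ih a ha, _, SC.smul hb c, by simp [pow_succ, mul_smul, smul_comm c]⟩

theorem mul_mem_pow {x P Q : End K V} {k l : ℕ} (hP : P ∈ cls x ^ k) (hQ : Q ∈ cls x ^ l) :
    P * Q ∈ cls x ^ (k + l) := by
  rw [pow_add]
  exact Set.mul_mem_mul hP hQ

theorem mem_pow_one {x y : End K V} (h : SC x y) : y ∈ cls x ^ 1 := by rwa [pow_one]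

/-- the centraliser realises all determinants -/
def Full (x : End K V) : Prop :=
  ∀ t : K, t ≠ 0 → ∃ c : End K V, LinearMap.det c = t ∧ ∀ v, c (x v) = x (c v)

theorem full_of_eig [FiniteDimensional K V] {x : End K V} {e : V} {ψ : Dual K V} {l : K}
    (h1 : ψ e = 1) (h2 : x e = l • e) (h3 : ∀ v, ψ (x v) = l * ψ v) : Full x := by
  intro t _
  refine ⟨LinearMap.transvection ψ ((t - 1) • e), by simp [h1], fun v => ?_⟩
  simp only [LinearMap.transvection.apply, map_add, map_smul, h2, h3]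
  module

variable [FiniteDimensional K V] [FiniteDimensional K W]

/-- an endomorphism of nonzero determinant as an equivalence -/
noncomputable def eqv (c : End K V) (h : LinearMap.det c ≠ 0) : V ≃ₗ[K] V :=
  LinearMap.equivOfIsUnitDet (isUnit_iff_ne_zero.2 h)

@[simp] theorem eqv_apply (c : End K V) (h : LinearMap.det c ≠ 0) (v : V) : eqv c h v = c v :=
  LinearMap.equivOfIsUnitDet_apply _ v

@[simp] theorem coe_eqv (c : End K V) (h : LinearMap.det c ≠ 0) :
    ((eqv c h : V ≃ₗ[K] V) : V →ₗ[K] V) = c := LinearMap.ext (eqv_apply c h)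

theorem inj_of_det {c : End K V} (h : LinearMap.det c ≠ 0) : Function.Injective c := by
  rw [← coe_eqv c h]; exact (eqv c h).injective

theorem surj_of_det {c : End K V} (h : LinearMap.det c ≠ 0) : Function.Surjective c := by
  rw [← coe_eqv c h]; exact (eqv c h).surjective

theorem det_of_inj {c : End K V} (h : Function.Injective c) : LinearMap.det c ≠ 0 := fun h0 => by
  obtain ⟨v, h1, h2⟩ := Submodule.exists_mem_ne_zero_of_ne_bot
    ((LinearMap.det_eq_zero_iff_ker_ne_bot).1 h0)
  exact h2 (h (by simpa using h1))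

theorem det_equiv_ne (e : V ≃ₗ[K] V) : LinearMap.det (e : End K V) ≠ 0 := det_of_inj e.injective

theorem Full.sc {x y : End K V} (hx : Full x) (h : H65.Similar x y) : SC x y := by
  obtain ⟨e, he⟩ := h
  obtain ⟨c, h1, h2⟩ := hx _ (inv_ne_zero (det_equiv_ne e))
  have h3 : LinearMap.det c ≠ 0 := h1 ▸ inv_ne_zero (det_equiv_ne e)
  refine ⟨(eqv c h3).trans e, ?_, fun v => by simp [h2, he]⟩
  rw [LinearEquiv.coe_trans, LinearMap.det_comp, coe_eqv, h1, mul_inv_cancel₀ (det_equiv_ne e)]

theorem Full.of_similar {x : End K V} {y : End K W} (hx : Full x) (h : H65.Similar x y) :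
    Full y := by
  obtain ⟨e, he⟩ := h
  intro t ht
  obtain ⟨c, h1, h2⟩ := hx t ht
  exact ⟨cj e c, (similar_cj e c).det_eq.symm.trans h1, fun w => by
    rw [eq_cj he]; simp [cj_apply', h2]⟩

omit [FiniteDimensional K V] [FiniteDimensional K W] in
theorem Cyc.of_equiv {x : End K V} {y : End K W} {e : V ≃ₗ[K] W} (he : ∀ v, e (x v) = y (e v))
    {w : V} (h : Cyc x w) : Cyc y (e w) := by
  intro p h1 h2
  have := h (p.comap (e : V →ₗ[K] W)) h1 (fun v hv => by
    simpa [he] using h2 _ hv)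
  refine Submodule.eq_top_iff'.2 fun u => ?_
  have h3 : e.symm u ∈ p.comap (e : V →ₗ[K] W) := this ▸ Submodule.mem_top
  simpa using h3

omit [FiniteDimensional K V] [FiniteDimensional K W] in
theorem NS.of_similar {x : End K V} {y : End K W} (h : NS x) (hs : H65.Similar x y) : NS y := by
  obtain ⟨e, he⟩ := hs
  intro μ
  obtain ⟨v, hv⟩ := h μ
  exact ⟨e v, fun h1 => hv (e.injective (by rw [he, h1, map_smul]))⟩

end H64.Lev
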