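import Mathlib
import Cfsg.Agent.Lib.Lev.Basic

/-! Linear algebra helpers: flags, Krylov sequences, extension of equivalences. -/

set_option autoImplicit false
open Module

namespace H64.Lev
open H64.Sour
variable {K : Type*} [Field K]
variable {V W : Type*} [AddCommGroup V] [Module K V] [AddCommGroup W] [Module K W]

theorem avoid2_in {X p q : Submodule K V} (hp : ¬ X ≤ p) (hq : ¬ X ≤ q) :
    ∃ w ∈ X, w ∉ p ∧ w ∉ q := by
  obtain ⟨w, h1, h2⟩ := avoid2 (p := p.comap X.subtype) (q := q.comap X.subtype)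
    (fun h => hp (Submodule.comap_subtype_eq_top.1 h))
    (fun h => hq (Submodule.comap_subtype_eq_top.1 h))
  exact ⟨w, w.2, h1, h2⟩

variable (K) in
/-- span of the first `j` terms -/
def Fl (e : ℕ → V) (j : ℕ) : Submodule K V := Submodule.span K (Set.range fun i : Fin j => e i)

theorem mem_Fl (e : ℕ → V) {i j : ℕ} (h : i < j) : e i ∈ Fl K e j :=
  Submodule.subset_span ⟨⟨i, h⟩, rfl⟩

theorem Fl_le {e : ℕ → V} {j : ℕ} {p : Submodule K V} : Fl K e j ≤ p ↔ ∀ i < j, e i ∈ p := by
  refine ⟨fun h i hi => h (mem_Fl e hi), fun h => Submodule.span_le.2 ?_⟩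
  rintro _ ⟨i, rfl⟩
  exact h i i.2

theorem Fl_zero (e : ℕ → V) : Fl K e 0 = ⊥ := le_bot_iff.1 (Fl_le.2 fun _ h => by omega)

theorem Fl_mono (e : ℕ → V) {i j : ℕ} (h : i ≤ j) : Fl K e i ≤ Fl K e j :=
  Fl_le.2 fun _ hk => mem_Fl e (by omega)

theorem Fl_succ (e : ℕ → V) (j : ℕ) : Fl K e (j + 1) = Fl K e j ⊔ K ∙ e j := by
  refine le_antisymm (Fl_le.2 fun i hi => ?_) (sup_le (Fl_mono e (by omega)) ?_)
  · rcases Nat.lt_succ_iff_lt_or_eq.1 hi with h | rfl
    · exact Submodule.mem_sup_left (mem_Fl e h)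
    · exact Submodule.mem_sup_right (Submodule.mem_span_singleton_self _)
  · exact (Submodule.span_singleton_le_iff_mem _ _).2 (mem_Fl e (by omega))

theorem Fl_congr {e f : ℕ → V} {j : ℕ} (h : ∀ i < j, e i = f i) : Fl K e j = Fl K f j :=
  le_antisymm (Fl_le.2 fun i hi => h i hi ▸ mem_Fl f hi)
    (Fl_le.2 fun i hi => (h i hi).symm ▸ mem_Fl e hi)

theorem Fl_map (e : ℕ → V) (j : ℕ) (f : V →ₗ[K] W) :
    (Fl K e j).map f = Fl K (fun i => f (e i)) j := by
  rw [Fl, Submodule.map_span, ← Set.range_comp]; rfl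

theorem Fl_ind {e : ℕ → V} {j : ℕ} {f g : V →ₗ[K] W} (h : ∀ i < j, f (e i) = g (e i)) :
    ∀ v ∈ Fl K e j, f v = g v := fun v hv => by
  have : Fl K e j ≤ LinearMap.eqLocus f g := Fl_le.2 h
  exact this hv

theorem finrank_Fl_le (e : ℕ → V) (j : ℕ) : finrank K (Fl K e j) ≤ j :=
  (finrank_range_le_card _).trans (by simp)

theorem indep_of_notMem {e : ℕ → V} {j : ℕ} (h : ∀ i < j, e i ∉ Fl K e i) :
    LinearIndependent K fun i : Fin j => e i := by
  induction j with
  | zero => exact linearIndependent_empty_type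
  | succ j ih =>
    rw [linearIndependent_finSucc']
    exact ⟨ih fun i hi => h i (by omega), h j (by omega)⟩

theorem finrank_Fl {e : ℕ → V} {j : ℕ} (h : LinearIndependent K fun i : Fin j => e i) :
    finrank K (Fl K e j) = j := (finrank_span_eq_card h).trans (by simp)

theorem kry_inv {T : End K V} {w : V} {j : ℕ} (h : (T ^ j) w ∈ Fl K (fun i => (T ^ i) w) j) :
    ∀ v ∈ Fl K (fun i => (T ^ i) w) j, T v ∈ Fl K (fun i => (T ^ i) w) j := by
  have : Fl K (fun i => (T ^ i) w) j ≤ (Fl K (fun i => (T ^ i) w) j).comap T :=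
    Fl_le.2 fun i hi => by
      have h1 : T ((T ^ i) w) = (T ^ (i + 1)) w := by rw [pow_succ']; rfl
      rw [Submodule.mem_comap, h1]
      rcases Nat.lt_or_eq_of_le (Nat.succ_le_of_lt hi) with h2 | h2
      · exact mem_Fl (fun i => (T ^ i) w) h2
      · exact h2 ▸ h
  exact this

/-- `w` generates `H` under `T` -/
def Gen (T : End K V) (w : V) (H : Submodule K V) : Prop :=
  ∀ p : Submodule K V, w ∈ p → (∀ v ∈ p, T v ∈ p) → H ≤ p

theorem Cyc.gen {T : End K V} {w : V} (h : Cyc T w) : Gen T w ⊤ := fun p h1 h2 => (h p h1 h2).ge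

theorem Gen.cyc {T : End K V} {w : V} (h : Gen T w ⊤) : Cyc T w :=
  fun p h1 h2 => top_le_iff.1 (h p h1 h2)

theorem Gen.indep [FiniteDimensional K V] {T : End K V} {w : V} {H : Submodule K V}
    (h : Gen T w H) {j : ℕ} (hj : j ≤ finrank K H) :
    LinearIndependent K fun i : Fin j => (T ^ (i : ℕ)) w := by
  refine indep_of_notMem (e := fun i => (T ^ i) w) fun i hi h1 => ?_
  have h2 : w ∈ Fl K (fun i => (T ^ i) w) i := by
    rcases Nat.eq_zero_or_pos i with rfl | h0
    · exact h1
    · exact mem_Fl (fun i => (T ^ i) w) h0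
  have := (Submodule.finrank_mono (h _ h2 (kry_inv h1))).trans (finrank_Fl_le _ _)
  omega

theorem exists_equiv [FiniteDimensional K V] [FiniteDimensional K W] {ι : Type*}
    (hd : finrank K V = finrank K W) {f : ι → V} {g : ι → W} (hf : LinearIndependent K f)
    (hg : LinearIndependent K g) : ∃ k : V ≃ₗ[K] W, ∀ i, k (f i) = g i := by
  obtain ⟨e⟩ := FiniteDimensional.nonempty_linearEquiv_of_finrank_eq hd
  have hf' : LinearIndependent K (e ∘ f) := hf.map' (e : V →ₗ[K] W) e.ker
  obtain ⟨k, hk⟩ := Submodule.exists_linearEquiv_restrict_eq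
    ((Basis.span hf').equiv (Basis.span hg) (Equiv.refl ι))
  refine ⟨e.trans k, fun i => ?_⟩
  have := hk (Basis.span hf' i)
  rw [Basis.equiv_apply, Basis.span_apply, Basis.span_apply] at this
  exact this.symm

theorem det_update {ι : Type*} [DecidableEq ι] (D : V [⋀^ι]→ₗ[K] K) (f : ι → V) (i : ι) (c : K)
    {y : V} (hy : y ∈ Submodule.span K (f '' {j | j ≠ i})) :
    D (Function.update f i (c • f i + y)) = c * D f := by
  have h0 : D (Function.update f i y) = 0 := by
    induction hy using Submodule.span_induction with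
    | mem x hx =>
      obtain ⟨j, hj, rfl⟩ := hx
      exact D.map_update_self f (Ne.symm hj)
    | zero => simp
    | add a b _ _ ha hb => rw [D.map_update_add, ha, hb, add_zero]
    | smul t a _ ha => rw [D.map_update_smul, ha, smul_zero]
  rw [D.map_update_add, h0, add_zero, D.map_update_smul, Function.update_eq_self, smul_eq_mul]

theorem det_constr {ι : Type*} [Fintype ι] [DecidableEq ι] (a : Basis ι K V) (f : ι → V) :
    LinearMap.det (a.constr K f) = a.det f := by
  have := a.det_comp (a.constr K f) a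
  rw [a.det_self, mul_one] at this
  rw [← this]
  congr 1
  ext i
  simp

theorem exists_one {θ : Dual K V} (h : θ ≠ 0) : ∃ e, θ e = 1 := by
  obtain ⟨v, hv⟩ : ∃ v, θ v ≠ 0 := by
    by_contra! h1
    exact h (LinearMap.ext h1)
  exact ⟨(θ v)⁻¹ • v, by simp [hv]⟩

/-- an endomorphism fixing a hyperplane pointwise -/
theorem fix_hyp [FiniteDimensional K V] {E : End K V} {θ : Dual K V}
    (h : ∀ v, θ v = 0 → E v = v) (v : V) : θ (E v) = LinearMap.det E * θ v := by
  by_cases h0 : θ = 0
  · simp [h0]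
  obtain ⟨e, he⟩ := exists_one h0
  have h1 : E = LinearMap.transvection θ (E e - e) := LinearMap.ext fun u => by
    have := h (u - θ u • e) (by simp [he])
    rw [map_sub, map_smul] at this
    rw [LinearMap.transvection.apply]
    linear_combination (norm := module) this
  have h2 : LinearMap.det E = θ (E e) := by
    conv_lhs => rw [h1]
    simp [he]
  rw [h2]
  conv_lhs => rw [h1]
  simp only [LinearMap.transvection.apply, map_add, map_smul, map_sub, he, smul_eq_mul]
  ring

theorem finrank_inf_ker [FiniteDimensional K V] {X : Submodule K V} {φ : Dual K V} {a : V}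
    (ha : a ∈ X) (h : φ a ≠ 0) :
    finrank K (X ⊓ LinearMap.ker φ : Submodule K V) + 1 = finrank K X := by
  have h1 := finrank_ker_add_one (K := K) (V := X) ((φ a)⁻¹ • ⟨a, ha⟩) (φ ∘ₗ X.subtype)
    (by simp [h])
  rw [← h1, LinearMap.ker_comp, ← Submodule.finrank_map_subtype_eq, Submodule.map_comap_subtype]

theorem finrank_ker_dual [FiniteDimensional K V] {φ : Dual K V} (h : φ ≠ 0) :
    finrank K (LinearMap.ker φ) + 1 = finrank K V := by
  obtain ⟨e, he⟩ := exists_one h
  exact finrank_ker_add_one e φ he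

theorem finrank_map_of_inj [FiniteDimensional K V] {X : Submodule K V} {f : V →ₗ[K] W}
    (h : ∀ v ∈ X, f v = 0 → v = 0) : finrank K (X.map f) = finrank K X := by
  have : Function.Injective (f ∘ₗ X.subtype) := by
    rw [injective_iff_map_eq_zero]
    exact fun v hv => Subtype.ext (h v v.2 hv)
  rw [← LinearMap.finrank_range_of_inj this, LinearMap.range_comp, Submodule.range_subtype]

theorem not_le_of_finrank [FiniteDimensional K V] {X Y : Submodule K V}
    (h : finrank K Y < finrank K X) : ¬ X ≤ Y := fun h1 =>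
  absurd (Submodule.finrank_mono h1) (by omega)

theorem finrank_span_singleton_le (v : V) : finrank K (K ∙ v) ≤ 1 := by
  by_cases h : v = 0
  · rw [h, Submodule.span_zero_singleton, finrank_bot]; omega
  · exact (finrank_span_singleton h).le

theorem finrank_span_pair_le [FiniteDimensional K V] (v w : V) :
    finrank K ((K ∙ v) ⊔ (K ∙ w) : Submodule K V) ≤ 2 :=
  (Submodule.finrank_add_le_finrank_add_finrank _ _).trans
    (add_le_add (finrank_span_singleton_le v) (finrank_span_singleton_le w))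

end H64.Lev
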