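import Mathlib
import Cfsg.Agent.Lib.Lev.Lin

/-! The pencil lemma: a map which is a "shift" with respect to two projections at once. -/

set_option autoImplicit false
open Module

namespace H64.Lev
open H64.Sour
variable {K : Type*} [Field K]
variable {V W : Type*} [AddCommGroup V] [Module K V] [AddCommGroup W] [Module K W]

/-- no nonzero `Z ≤ X` has `S Z ≤ α Z` -/
def NI (S α : V →ₗ[K] W) (X : Submodule K V) : Prop :=
  ∀ Z ≤ X, (∀ z ∈ Z, ∃ z₂ ∈ Z, S z = α z₂) → Z = ⊥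

theorem finrank_map_add_one [FiniteDimensional K V] {X : Submodule K V} {α : V →ₗ[K] W} {a : V}
    (ha : a ∈ X) (ha0 : a ≠ 0) (h1 : α a = 0) (h2 : ∀ v ∈ X, α v = 0 → v ∈ K ∙ a) :
    finrank K (X.map α) + 1 = finrank K X := by
  obtain ⟨φ, hφ⟩ := exists_dual_one (K := K) ha0
  have h3 : X.map α = (X ⊓ LinearMap.ker φ).map α := by
    refine le_antisymm ?_ (Submodule.map_mono inf_le_left)
    rintro _ ⟨v, hv, rfl⟩
    exact ⟨v - φ v • a, ⟨X.sub_mem hv (X.smul_mem _ ha), by simp [hφ]⟩, by simp [h1]⟩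
  rw [h3, finrank_map_of_inj, finrank_inf_ker ha (by simp [hφ])]
  rintro v ⟨hv, hv2⟩ hv3
  obtain ⟨t, rfl⟩ := Submodule.mem_span_singleton.1 (h2 v hv hv3)
  have : t = 0 := by simpa [hφ] using hv2
  simp [this]

theorem exists_kill {p q : Submodule K W} (h : ¬ p ≤ q) :
    ∃ ψ : Dual K W, (∀ w ∈ q, ψ w = 0) ∧ ∃ w ∈ p, ψ w = 1 := by
  obtain ⟨w, h1, h2⟩ := SetLike.not_le_iff_exists.1 h
  obtain ⟨ψ, h3, h4⟩ := exists_dual_notMem h2
  exact ⟨ψ, h4, w, h1, h3⟩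

variable [FiniteDimensional K V] [FiniteDimensional K W]

theorem pencil_one {X : Submodule K V} {Y : Submodule K W} {α β : V →ₗ[K] W} {a b : V}
    (hX : finrank K X = 1) (hY : finrank K Y = 1) (ha : a ∈ X) (hb : b ∈ X) (ha0 : a ≠ 0)
    (hb0 : b ≠ 0) (hαa : α a = 0) (hβb : β b = 0) :
    ∃ S : V →ₗ[K] W, (∀ v ∈ X, S v ∈ Y) ∧ (∀ v ∈ X, S v = 0 → v = 0) ∧ NI S α X ∧ NI S β X ∧
      S b ∉ X.map α := by
  have key : ∀ c ∈ X, c ≠ 0 → ∀ v ∈ X, ∃ t : K, t • c = v := fun c hc hc0 v hv => by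
    have : (K ∙ c) = X := Submodule.eq_of_le_of_finrank_eq
      ((Submodule.span_singleton_le_iff_mem _ _).2 hc) (by rw [finrank_span_singleton hc0, hX])
    exact Submodule.mem_span_singleton.1 (this ▸ hv)
  obtain ⟨y, hy, hy0⟩ := Submodule.exists_mem_ne_zero_of_ne_bot (p := Y)
    (fun h => by rw [h, finrank_bot] at hY; omega)
  obtain ⟨φ, hφ⟩ := exists_dual_one (K := K) ha0
  have hinj : ∀ v ∈ X, φ.smulRight y v = 0 → v = 0 := fun v hv h => by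
    obtain ⟨t, rfl⟩ := key a ha ha0 v hv
    have : t = 0 := by simpa [hφ, hy0] using h
    simp [this]
  have hα : ∀ v ∈ X, α v = 0 := fun v hv => by
    obtain ⟨t, rfl⟩ := key a ha ha0 v hv
    simp [hαa]
  have hβ : ∀ v ∈ X, β v = 0 := fun v hv => by
    obtain ⟨t, rfl⟩ := key b hb hb0 v hv
    simp [hβb]
  refine ⟨φ.smulRight y, fun v _ => Y.smul_mem _ hy, hinj, fun Z hZ h => ?_, fun Z hZ h => ?_, ?_⟩
  · refine (Submodule.eq_bot_iff _).2 fun z hz => ?_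
    obtain ⟨z₂, h1, h2⟩ := h z hz
    exact hinj z (hZ hz) (h2.trans (hα _ (hZ h1)))
  · refine (Submodule.eq_bot_iff _).2 fun z hz => ?_
    obtain ⟨z₂, h1, h2⟩ := h z hz
    exact hinj z (hZ hz) (h2.trans (hβ _ (hZ h1)))
  · rintro ⟨v, hv, h⟩
    exact hb0 (hinj b hb (h.symm.trans (hα v hv)))

/-- the choices in the inductive step -/
theorem pencil_choice {p : ℕ} {X : Submodule K V} {α β : V →ₗ[K] W} {a b : V}
    (hX : finrank K X = p + 2) (ha : a ∈ X) (hb : b ∈ X) (ha0 : a ≠ 0)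
    (hb0 : b ≠ 0) (hαa : α a = 0) (hβb : β b = 0) (kα : ∀ v ∈ X, α v = 0 → v ∈ K ∙ a)
    (kβ : ∀ v ∈ X, β v = 0 → v ∈ K ∙ b) (hab : a ∉ K ∙ b) (hne : X.map α ≠ X.map β) :
    ∃ (φ : Dual K V) (ψ : Dual K W) (a' : V), φ a = 1 ∧ φ b = 0 ∧ (∀ v ∈ X, ψ (β v) = 0) ∧
      a' ∈ X ∧ φ a' = 0 ∧ ψ (α a') = 1 ∧ (1 ≤ p → a' ∉ (K ∙ b) ∧
        ∃ x ∈ X, φ x = 0 ∧ β x ∉ X.map α) := by
  have d1 := finrank_map_add_one ha ha0 hαa kα
  have d2 := finrank_map_add_one hb hb0 hβb kβ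
  have n1 : ¬ X.map α ≤ X.map β := fun h =>
    hne (Submodule.eq_of_le_of_finrank_eq h (by omega))
  have n2 : ¬ X.map β ≤ X.map α := fun h =>
    hne (Submodule.eq_of_le_of_finrank_eq h (by omega)).symm
  obtain ⟨ψ, hψ, _, ⟨a₀, ha₀, rfl⟩, hψ2⟩ := exists_kill n1
  obtain ⟨x, hx, hx1, hx2⟩ : ∃ x ∈ X, a ∉ (K ∙ b) ⊔ (K ∙ x) ∧ (1 ≤ p → β x ∉ X.map α) := by
    by_cases hp : 1 ≤ p
    · obtain ⟨x, h1, h2, h3⟩ := avoid2_in (X := X) (p := (X.map α).comap β)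
        (q := (K ∙ a) ⊔ (K ∙ b)) (fun h => n2 (Submodule.map_le_iff_le_comap.2 h))
        (not_le_of_finrank (lt_of_le_of_lt (finrank_span_pair_le a b) (by omega)))
      refine ⟨x, h1, fun h4 => ?_, fun _ => h2⟩
      obtain ⟨_, h5, _, h6, h7⟩ := Submodule.mem_sup.1 h4
      obtain ⟨s, rfl⟩ := Submodule.mem_span_singleton.1 h5
      obtain ⟨t, rfl⟩ := Submodule.mem_span_singleton.1 h6
      by_cases ht : t = 0
      · exact hab (Submodule.mem_span_singleton.2 ⟨s, by simpa [ht] using h7⟩)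
      · refine h3 (((K ∙ a) ⊔ (K ∙ b)).smul_mem_iff ht |>.1 ?_)
        rw [show t • x = a - s • b by rw [← h7]; abel]
        exact Submodule.sub_mem _ (Submodule.mem_sup_left (Submodule.mem_span_singleton_self _))
          (Submodule.mem_sup_right h5)
    · exact ⟨0, X.zero_mem, by simpa using hab, fun h => absurd h hp⟩
  obtain ⟨φ, hφ, hφ2⟩ := exists_dual_notMem hx1
  have hφb : φ b = 0 := hφ2 _ (Submodule.mem_sup_left (Submodule.mem_span_singleton_self _))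
  have hφx : φ x = 0 := hφ2 _ (Submodule.mem_sup_right (Submodule.mem_span_singleton_self _))
  have d3 := finrank_inf_ker (φ := φ) ha (by simp [hφ])
  have n3 : ¬ X ⊓ LinearMap.ker φ ≤ LinearMap.ker (ψ ∘ₗ α) := fun h => by
    have := h (x := a₀ - φ a₀ • a) ⟨X.sub_mem ha₀ (X.smul_mem _ ha), by simp [hφ]⟩
    simp [hαa, hψ2] at this
  obtain ⟨a₁, ⟨k1, k2⟩, k3, k4⟩ : ∃ a₁ ∈ X ⊓ LinearMap.ker φ, ψ (α a₁) ≠ 0 ∧
      (1 ≤ p → a₁ ∉ K ∙ b) := by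
    by_cases hp : 1 ≤ p
    · obtain ⟨w, h1, h2, h3⟩ := avoid2_in n3 (q := K ∙ b)
        (not_le_of_finrank (lt_of_le_of_lt (finrank_span_singleton_le b) (by omega)))
      exact ⟨w, h1, h2, fun _ => h3⟩
    · obtain ⟨w, h1, h2⟩ := SetLike.not_le_iff_exists.1 n3
      exact ⟨w, h1, h2, fun h => absurd h hp⟩
  refine ⟨φ, ψ, (ψ (α a₁))⁻¹ • a₁, hφ, hφb, fun v hv => hψ _ ⟨v, hv, rfl⟩, X.smul_mem _ k1,
    by rw [map_smul, LinearMap.mem_ker.1 k2, smul_zero], by simp [k3], fun hp =>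
    ⟨fun h => k4 hp (((K ∙ b).smul_mem_iff (inv_ne_zero k3)).1 h), x, hx, hφx, hx2 hp⟩⟩

theorem pencil (p : ℕ) : ∀ (X : Submodule K V) (Y : Submodule K W) (α β : V →ₗ[K] W) (a b : V),
    finrank K X = p + 1 → finrank K Y = p + 1 → a ∈ X → b ∈ X → a ≠ 0 → b ≠ 0 →
    (∀ v ∈ X, α v ∈ Y) → (∀ v ∈ X, β v ∈ Y) → α a = 0 → β b = 0 →
    (∀ v ∈ X, α v = 0 → v ∈ K ∙ a) → (∀ v ∈ X, β v = 0 → v ∈ K ∙ b) →
    (1 ≤ p → a ∉ (K ∙ b) ∧ X.map α ≠ X.map β) →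
    ∃ S : V →ₗ[K] W, (∀ v ∈ X, S v ∈ Y) ∧ (∀ v ∈ X, S v = 0 → v = 0) ∧ NI S α X ∧ NI S β X ∧
      S b ∉ X.map α := by
  induction p with
  | zero =>
    intro X Y α β a b hX hY ha hb ha0 hb0 _ _ hαa hβb _ _ _
    exact pencil_one hX hY ha hb ha0 hb0 hαa hβb
  | succ p ih =>
    intro X Y α β a b hX hY ha hb ha0 hb0 hαY hβY hαa hβb kα kβ hp
    obtain ⟨hab, hne⟩ := hp (by omega)
    obtain ⟨φ, ψ, a', hφa, hφb, hψβ, ha'X, hφa', hψa', hp'⟩ :=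
      pencil_choice hX ha hb ha0 hb0 hαa hβb kα kβ hab hne
    set c := α a' with hc
    set α' : V →ₗ[K] W := α - (ψ ∘ₗ α).smulRight c with hα'
    have eα : ∀ v, α' v = α v - ψ (α v) • c := fun v => rfl
    have d1 := finrank_inf_ker (φ := φ) ha (by simp [hφa])
    have d2 := finrank_inf_ker (φ := ψ) (hαY a' ha'X) (by rw [hψa']; exact one_ne_zero)
    have mem : ∀ v ∈ X, v - φ v • a ∈ X ⊓ LinearMap.ker φ := fun v hv =>
      ⟨X.sub_mem hv (X.smul_mem _ ha), by simp [hφa]⟩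
    obtain ⟨S', s1, s2, s3, s4, s5⟩ := ih (X ⊓ LinearMap.ker φ) (Y ⊓ LinearMap.ker ψ) α' β a' b
      (by omega) (by omega) ⟨ha'X, hφa'⟩ ⟨hb, hφb⟩
      (fun h => by simp [hc, h] at hψa') hb0
      (fun v hv => ⟨Y.sub_mem (hαY v hv.1) (Y.smul_mem _ (hαY a' ha'X)), by simp [eα, hψa']⟩)
      (fun v hv => ⟨hβY v hv.1, hψβ v hv.1⟩) (by rw [eα, ← hc, hψa', one_smul, sub_self]) hβb
      (fun v hv h => by
        obtain ⟨t, ht⟩ := Submodule.mem_span_singleton.1 (kα (v - ψ (α v) • a')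
          (X.sub_mem hv.1 (X.smul_mem _ ha'X)) (by rw [map_sub, map_smul, ← eα, h]))
        have h0 : t = 0 := by
          have := congrArg φ ht
          simpa [hφa, hφa', LinearMap.mem_ker.1 hv.2] using this
        rw [h0, zero_smul, eq_comm, sub_eq_zero] at ht
        exact Submodule.mem_span_singleton.2 ⟨_, ht.symm⟩)
      (fun v hv h => kβ v hv.1 h)
      (fun h => by
        obtain ⟨h1, x, h2, h3, h4⟩ := hp' h
        refine ⟨h1, fun h5 => h4 ?_⟩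
        obtain ⟨v, hv, h6⟩ : β x ∈ (X ⊓ LinearMap.ker φ).map α' := h5 ▸ ⟨x, ⟨h2, h3⟩, rfl⟩
        exact ⟨v - ψ (α v) • a', X.sub_mem hv.1 (X.smul_mem _ ha'X), by
          rw [map_sub, map_smul, ← eα, h6]⟩)
    set S : V →ₗ[K] W := φ.smulRight c + S' ∘ₗ (LinearMap.id - φ.smulRight a) with hS
    have eS : ∀ v, S v = φ v • c + S' (v - φ v • a) := fun v => rfl
    have hψS : ∀ v ∈ X, ψ (S v) = φ v := fun v hv => by
      rw [eS, map_add, map_smul, hψa', LinearMap.mem_ker.1 (s1 _ (mem v hv)).2]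
      simp
    have eS' : ∀ v, φ v = 0 → S v = S' v := fun v hv => by simp [eS, hv]
    have hinj : ∀ v ∈ X, S v = 0 → v = 0 := fun v hv h => by
      have h1 : φ v = 0 := by rw [← hψS v hv, h, map_zero]
      exact s2 v ⟨hv, h1⟩ (by rw [← eS' v h1, h])
    have key : ∀ v ∈ X, ∀ u, S v = α u → S' (v - φ v • a) = α' (u - φ u • a) := fun v hv u h => by
      have h1 : α (u - φ u • a) = S v := by rw [map_sub, map_smul, hαa, smul_zero, sub_zero, h]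
      rw [eα, h1, hψS v hv, eS]
      abel
    refine ⟨S, fun v hv => Y.add_mem (Y.smul_mem _ (hαY a' ha'X)) (s1 _ (mem v hv)).1, hinj,
      fun Z hZ h => ?_, fun Z hZ h => ?_, ?_⟩
    · have h1 := s3 (Z.map (LinearMap.id - φ.smulRight a)) (by
        rintro _ ⟨z, hz, rfl⟩
        exact mem z (hZ hz)) (by
        rintro _ ⟨z, hz, rfl⟩
        obtain ⟨z₂, h1, h2⟩ := h z hz
        exact ⟨_, ⟨z₂, h1, rfl⟩, key z (hZ hz) z₂ h2⟩)
      refine (Submodule.eq_bot_iff _).2 fun z hz => ?_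
      obtain ⟨z₂, h2, h3⟩ := h z hz
      have h4 : z₂ - φ z₂ • a = 0 := (Submodule.eq_bot_iff _).1 h1 _ ⟨z₂, h2, rfl⟩
      refine hinj z (hZ hz) ?_
      rw [h3, sub_eq_zero.1 h4, map_smul, hαa, smul_zero]
    · have h1 : ∀ z ∈ Z, φ z = 0 := fun z hz => by
        obtain ⟨z₂, h1, h2⟩ := h z hz
        rw [← hψS z (hZ hz), h2, hψβ _ (hZ h1)]
      refine s4 Z (fun z hz => ⟨hZ hz, h1 z hz⟩) fun z hz => ?_
      rw [← eS' z (h1 z hz)]
      exact h z hz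
    · rintro ⟨v, hv, h⟩
      refine s5 ⟨_, mem v hv, ?_⟩
      rw [← key b hb v h.symm, hφb, zero_smul, sub_zero]

end H64.Lev
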