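import Mathlib
import Cfsg.Agent.Lib.Lev.Pencil

/-! Two simultaneous shifts `S` and `g S` on a subspace of codimension two. -/

set_option autoImplicit false
open Module

namespace H64.Lev
open H64.Sour
variable {K : Type*} [Field K]
variable {V : Type*} [AddCommGroup V] [Module K V]

/-- no nonzero invariant subspace inside `X` -/
def NI' (S : End K V) (X : Submodule K V) : Prop := ∀ Z ≤ X, (∀ z ∈ Z, S z ∈ Z) → Z = ⊥

/-- the output of the two-shift construction -/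
def Shift (g : End K V) (θ η : Dual K V) (S : End K V) : Prop :=
  (∃ w, θ w = 0 ∧ η w = 1) ∧
  (∀ v, θ v = 0 → η v = 0 → θ (S v) = 0 ∧ θ (g (S v)) = 0) ∧
  NI' S (LinearMap.ker θ ⊓ LinearMap.ker η) ∧
  ∀ t : K, t ≠ 0 → ∃ St : End K V,
    (∀ v, θ v = 0 → η v = 0 → θ (St v) = 0 ∧ θ (g (St v)) = 0 ∧ η (St v) = t * η (S v) ∧
      (η (S v) = 0 → St v = S v)) ∧ NI' (g * St) (LinearMap.ker θ ⊓ LinearMap.ker η)

variable [FiniteDimensional K V]

theorem shift_choice {p : ℕ} (hn : finrank K V = p + 3) (g : V ≃ₗ[K] V) {θ : Dual K V} {v₀ : V}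
    (h0 : θ v₀ = 0) (h1 : θ (g v₀) = 1)
    (hw : p = 0 ∨ ∃ w, θ w = 0 ∧ θ (g w) = 0 ∧ g w ∉ K ∙ w) :
    ∃ (η : Dual K V) (a b : V), (∃ w, θ w = 0 ∧ η w = 1) ∧ θ a = 0 ∧ η a = 0 ∧ θ b = 0 ∧ η b = 0 ∧
      θ (g a) = 1 ∧ θ (g.symm b) = 1 ∧ (1 ≤ p → a ∉ (K ∙ b) ∧
        ∃ w, θ w = 0 ∧ η w = 1 ∧ θ (g w) = 0 ∧ η (g w) = 0) := by
  have hθ : θ ≠ 0 := fun h => by simp [h] at h1
  have dH := finrank_ker_dual hθ
  have n1 : ¬ LinearMap.ker θ ≤ LinearMap.ker (θ ∘ₗ (g : End K V)) := fun h => by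
    have := h (x := v₀) h0
    simp [h1] at this
  have n2 : ¬ LinearMap.ker θ ≤ LinearMap.ker (θ ∘ₗ (g.symm : End K V)) := fun h => by
    have h2 : LinearMap.ker θ = LinearMap.ker (θ ∘ₗ (g.symm : End K V)) :=
      Submodule.eq_of_le_of_finrank_eq h (by
        have := finrank_ker_dual (φ := θ ∘ₗ (g.symm : End K V)) (fun h3 => by
          have := LinearMap.congr_fun h3 (g (g v₀))
          simp [h1] at this)
        omega)
    have : g v₀ ∈ LinearMap.ker θ := by rw [h2]; simpa using h0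
    simp [h1] at this
  by_cases hp : p = 0
  · obtain ⟨a, k1, k2, k3⟩ := avoid2_in n1 n2
    obtain ⟨w, k4, k5⟩ := SetLike.not_le_iff_exists.1 (not_le_of_finrank
      (X := LinearMap.ker θ) (lt_of_le_of_lt (finrank_span_singleton_le a) (by omega)))
    obtain ⟨η, k6, k7⟩ := exists_dual_notMem k5
    have k8 := k7 a (Submodule.mem_span_singleton_self a)
    have k2' : θ (g a) ≠ 0 := k2
    have k3' : θ (g.symm a) ≠ 0 := k3
    have k1' : θ a = 0 := k1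
    exact ⟨η, (θ (g a))⁻¹ • a, (θ (g.symm a))⁻¹ • a, ⟨w, k4, k6⟩, by simp [k1'], by simp [k8],
      by simp [k1'], by simp [k8], by simp [k2'], by simp [k3'], fun h => by omega⟩
  obtain ⟨w, w1, w2, w3⟩ := hw.resolve_left hp
  obtain ⟨b, k1, k2, k3⟩ := avoid2_in n2 (q := (K ∙ w) ⊔ (K ∙ g w))
    (not_le_of_finrank (lt_of_le_of_lt (finrank_span_pair_le _ _) (by omega)))
  have k2' : θ (g.symm b) ≠ 0 := k2
  have k1' : θ b = 0 := k1
  have k4 : w ∉ (K ∙ g w) ⊔ (K ∙ b) := fun h => by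
    obtain ⟨_, h5, _, h6, h7⟩ := Submodule.mem_sup.1 h
    obtain ⟨s, rfl⟩ := Submodule.mem_span_singleton.1 h5
    obtain ⟨t, rfl⟩ := Submodule.mem_span_singleton.1 h6
    by_cases ht : t = 0
    · rw [ht, zero_smul, add_zero] at h7
      have hs : s ≠ 0 := by
        rintro rfl
        rw [zero_smul] at h7
        exact w3 (by simp [← h7])
      exact w3 (((K ∙ w).smul_mem_iff hs).1 (h7.symm ▸ Submodule.mem_span_singleton_self w))
    · refine k3 (((K ∙ w) ⊔ (K ∙ g w)).smul_mem_iff ht |>.1 ?_)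
      rw [show t • b = w - s • g w by rw [eq_sub_iff_add_eq', h7]]
      exact Submodule.sub_mem _ (Submodule.mem_sup_left (Submodule.mem_span_singleton_self _))
        (Submodule.mem_sup_right h5)
  obtain ⟨η, k5, k6⟩ := exists_dual_notMem k4
  have k7 := k6 _ (Submodule.mem_sup_left (Submodule.mem_span_singleton_self _))
  have k8 := k6 _ (Submodule.mem_sup_right (Submodule.mem_span_singleton_self _))
  have dX := finrank_inf_ker (X := LinearMap.ker θ) (φ := η) (a := w) w1 (by simp [k5])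
  obtain ⟨a, ⟨a1, a2⟩, a3, a4⟩ := avoid2_in (X := LinearMap.ker θ ⊓ LinearMap.ker η)
    (p := LinearMap.ker (θ ∘ₗ (g : End K V))) (q := K ∙ b) (fun h => by
      have := h (x := v₀ - η v₀ • w) ⟨by simp [h0, w1], by simp [k5]⟩
      simp [h1, w2] at this)
    (not_le_of_finrank (lt_of_le_of_lt (finrank_span_singleton_le _) (by omega)))
  have a1' : θ a = 0 := a1
  have a2' : η a = 0 := a2
  have a3' : θ (g a) ≠ 0 := a3
  refine ⟨η, (θ (g a))⁻¹ • a, (θ (g.symm b))⁻¹ • b, ⟨w, w1, k5⟩, by simp [a1'], by simp [a2'],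
    by simp [k1'], by simp [k8], by simp [a3'], by simp [k2'], fun _ => ⟨fun h => a4 ?_,
      w, w1, k5, w2, k7⟩⟩
  rw [Submodule.span_singleton_smul_eq (IsUnit.mk0 _ (inv_ne_zero k2'))] at h
  exact ((K ∙ b).smul_mem_iff (inv_ne_zero a3')).1 h

theorem shift_core {p : ℕ} (hn : finrank K V = p + 3) (g : V ≃ₗ[K] V) {θ : Dual K V} {v₀ : V}
    (h0 : θ v₀ = 0) (h1 : θ (g v₀) = 1)
    (hw : p = 0 ∨ ∃ w, θ w = 0 ∧ θ (g w) = 0 ∧ g w ∉ K ∙ w) :
    ∃ (η : Dual K V) (S : End K V), Shift (g : End K V) θ η S := by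
  obtain ⟨η, a, b, ⟨w₁, w1, w2⟩, a1, a2, b1, b2, a3, b3, hp⟩ := shift_choice hn g h0 h1 hw
  have hθ : θ ≠ 0 := fun h => by simp [h] at h1
  have dH := finrank_ker_dual hθ
  set X := LinearMap.ker θ ⊓ LinearMap.ker η with hX
  set Y := LinearMap.ker θ ⊓ LinearMap.ker (θ ∘ₗ (g : End K V)) with hY
  have dX := finrank_inf_ker (X := LinearMap.ker θ) (φ := η) (a := w₁) w1 (by simp [w2])
  have dY := finrank_inf_ker (X := LinearMap.ker θ) (φ := θ ∘ₗ (g : End K V)) (a := v₀) h0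
    (by simp [h1])
  set α : End K V := LinearMap.id - (θ ∘ₗ (g : End K V)).smulRight a with hα
  set β : End K V := (g.symm : End K V) ∘ₗ
    (LinearMap.id - (θ ∘ₗ (g.symm : End K V)).smulRight b) with hβ
  have eα : ∀ v, α v = v - θ (g v) • a := fun v => rfl
  have eβ : ∀ v, β v = g.symm (v - θ (g.symm v) • b) := fun v => rfl
  have mX : ∀ v, v ∈ X ↔ θ v = 0 ∧ η v = 0 := fun v => Iff.rfl
  have mY : ∀ v, v ∈ Y ↔ θ v = 0 ∧ θ (g v) = 0 := fun v => Iff.rfl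
  rw [← hX] at dX
  rw [← hY] at dY
  obtain ⟨S, s1, s2, s3, s4, s5⟩ := pencil p X Y α β a b (by omega) (by omega) ⟨a1, a2⟩ ⟨b1, b2⟩
    (fun h => by simp [h] at a3) (fun h => by simp [h] at b3)
    (fun v hv => (mY _).2 ⟨by simp [eα, a1, ((mX v).1 hv).1], by simp [eα, a3]⟩)
    (fun v hv => (mY _).2 ⟨by simp [eβ, b3], by simp [eβ, b1, ((mX v).1 hv).1]⟩)
    (by simp [eα, a3]) (by simp [eβ, b3])
    (fun v _ h => Submodule.mem_span_singleton.2 ⟨_, (sub_eq_zero.1 h).symm⟩)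
    (fun v _ h => Submodule.mem_span_singleton.2
      ⟨_, (sub_eq_zero.1 (g.symm.map_eq_zero_iff.1 h)).symm⟩)
    (fun h => by
      obtain ⟨k1, w, k2, k3, k4, k5⟩ := hp h
      refine ⟨k1, fun k6 => ?_⟩
      obtain ⟨v, hv, k7⟩ : w ∈ X.map α := k6 ▸ ⟨g w, ⟨k4, k5⟩, by simp [eβ, k2]⟩
      rw [← k7, eα] at k3
      simp [a2, ((mX v).1 hv).2] at k3)
  have hSb : η (S b) ≠ 0 := fun h => s5 ⟨S b, ⟨(s1 b ⟨b1, b2⟩).1, h⟩, by
    rw [eα, ((mY _).1 (s1 b ⟨b1, b2⟩)).2, zero_smul, sub_zero]⟩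
  refine ⟨η, S, ⟨w₁, w1, w2⟩, fun v k1 k2 => s1 v ⟨k1, k2⟩, fun Z hZ h => s3 Z hZ fun z hz =>
    ⟨S z, h z hz, by rw [eα, ((mY _).1 (s1 z (hZ hz))).2, zero_smul, sub_zero]⟩, fun t ht => ?_⟩
  set D : End K V := LinearMap.id + (((t - 1) * (η (S b))⁻¹) • (η ∘ₗ S)).smulRight b with hD
  have eD : ∀ v, D v = v + ((t - 1) * (η (S b))⁻¹ * η (S v)) • b := fun v => rfl
  have DX : ∀ v ∈ X, D v ∈ X := fun v hv => X.add_mem hv (X.smul_mem _ ⟨b1, b2⟩)
  have eη : ∀ v, η (S (D v)) = t * η (S v) := fun v => by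
    rw [eD, map_add, map_smul, map_add, map_smul, smul_eq_mul]
    field_simp
    ring
  refine ⟨S * D, fun v k1 k2 => ⟨(s1 _ (DX v ⟨k1, k2⟩)).1, (s1 _ (DX v ⟨k1, k2⟩)).2, eη v,
    fun h => by simp [eD, h]⟩, fun Z hZ h => ?_⟩
  have k1 := s4 (Z.map D) (by
    rintro _ ⟨z, hz, rfl⟩
    exact DX z (hZ hz)) (by
    rintro _ ⟨z, hz, rfl⟩
    refine ⟨_, ⟨_, h z hz, rfl⟩, ?_⟩
    have k2 : θ (S (D z)) = 0 := (s1 _ (DX z (hZ hz))).1
    have k3 : β b = 0 := by simp [eβ, b3]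
    rw [eD ((g * (S * D) : End K V) z), map_add, map_smul, k3, smul_zero, add_zero, eβ]
    simp [k2])
  refine (Submodule.eq_bot_iff _).2 fun z hz => ?_
  have k2 : D z = 0 := (Submodule.eq_bot_iff _).1 k1 _ ⟨z, hz, rfl⟩
  have k3 : η (S z) = 0 := by
    have := eη z
    rw [k2, map_zero, map_zero] at this
    exact (mul_eq_zero.1 this.symm).resolve_left ht
  simpa [eD, k3] using k2

theorem shift {p : ℕ} (hn : finrank K V = p + 3) (g : V ≃ₗ[K] V) {θ : Dual K V} {v₀ : V}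
    (h0 : θ v₀ = 0) (h1 : θ (g v₀) = 1) :
    ∃ (η : Dual K V) (S : End K V), Shift (g : End K V) θ η S := by
  by_cases hw : p = 0 ∨ ∃ w, θ w = 0 ∧ θ (g w) = 0 ∧ g w ∉ K ∙ w
  · exact shift_core hn g h0 h1 hw
  push Not at hw
  obtain ⟨-, hw⟩ := hw
  have hθ : θ ≠ 0 := fun h => by simp [h] at h1
  have dH := finrank_ker_dual hθ
  have dY := finrank_inf_ker (X := LinearMap.ker θ) (φ := θ ∘ₗ (g : End K V)) (a := v₀) h0
    (by simp [h1])
  obtain ⟨w, ⟨w1, w2⟩, w0⟩ := Submodule.exists_mem_ne_zero_of_ne_bot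
    (p := LinearMap.ker θ ⊓ LinearMap.ker (θ ∘ₗ (g : End K V)))
    (fun h => by rw [h, finrank_bot] at dY; omega)
  have w1' : θ w = 0 := w1
  have w2' : θ (g w) = 0 := w2
  obtain ⟨ψ, hψ⟩ := exists_dual_one (K := K) w0
  have d2 := finrank_inf_ker (X := LinearMap.ker θ) (φ := ψ) (a := w) w1 (by simp [hψ])
  obtain ⟨c, ⟨c1, c2⟩, c0⟩ := Submodule.exists_mem_ne_zero_of_ne_bot
    (p := LinearMap.ker θ ⊓ LinearMap.ker ψ) (fun h => by rw [h, finrank_bot] at d2; omega)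
  have c1' : θ c = 0 := c1
  have c2' : ψ c = 0 := c2
  obtain ⟨μ, hμ⟩ := Submodule.mem_span_singleton.1 (hw w w1' w2')
  have hμ0 : μ ≠ 0 := by
    rintro rfl
    exact w0 (g.map_eq_zero_iff.1 (by simpa using hμ.symm))
  set g' := g.trans (LinearEquiv.transvection c2') with hg'
  have eg : ∀ v, θ (g' v) = θ (g v) := fun v => by
    simp [hg', LinearMap.transvection.apply, c1']
  obtain ⟨η, S, k1, k2, k3, k4⟩ := shift_core hn g' h0 (by rw [eg, h1]) (Or.inr ⟨w, w1',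
    by rw [eg, w2'], fun h => by
      obtain ⟨s, hs⟩ := Submodule.mem_span_singleton.1 h
      simp only [hg', LinearEquiv.trans_apply, LinearEquiv.transvection.apply, ← hμ, map_smul,
        hψ] at hs
      have h2 : s = μ := by simpa [hψ, c2'] using congrArg ψ hs
      rw [h2, smul_add, left_eq_add] at hs
      simp [hμ0, c0] at hs⟩)
  refine ⟨η, S, k1, fun v a b => by simpa [eg] using k2 v a b, k3, fun t ht => ?_⟩
  obtain ⟨St, k5, -⟩ := k4 t ht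
  refine ⟨St, fun v a b => by simpa [eg] using k5 v a b, fun Z hZ h => k3 Z hZ fun z hz => ?_⟩
  obtain ⟨m1, m2, m3, m4⟩ := k5 z (hZ hz).1 (hZ hz).2
  obtain ⟨s, hs⟩ := Submodule.mem_span_singleton.1 (hw (St z) m1 (by simpa [eg] using m2))
  have m5 : St z ∈ Z := by
    by_cases hs0 : s = 0
    · rw [hs0, zero_smul, eq_comm, g.map_eq_zero_iff] at hs
      exact hs ▸ Z.zero_mem
    · exact (Z.smul_mem_iff hs0).1 (hs ▸ h z hz)
  have m6 : η (S z) = 0 := (mul_eq_zero.1 (m3 ▸ (hZ m5).2)).resolve_left ht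
  exact m4 m6 ▸ m5

end H64.Lev
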