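import Mathlib
import Cfsg.Agent.Lib.Lev.Shift

/-! Lev's theorem: a nonscalar element times a conjugate of a cyclic one. -/

set_option autoImplicit false
open Module

namespace H64.Lev
open H64.Sour
variable {K : Type*} [Field K]
variable {V W : Type*} [AddCommGroup V] [Module K V] [AddCommGroup W] [Module K W]

/-- an invariant cyclic hyperplane -/
def HC (B : End K V) (θ : Dual K V) (w : V) (β : K) : Prop :=
  θ ≠ 0 ∧ (∀ v, θ (B v) = β * θ v) ∧ θ w = 0 ∧ Gen B w (LinearMap.ker θ)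

theorem pow_succ_apply (T : End K V) (i : ℕ) (w : V) : (T ^ (i + 1)) w = T ((T ^ i) w) := by
  rw [pow_succ']; rfl

variable [FiniteDimensional K V] [FiniteDimensional K W]

theorem Fl_eq {e : ℕ → V} {j : ℕ} (h : LinearIndependent K fun i : Fin j => e i)
    {H : Submodule K V} (h1 : ∀ i < j, e i ∈ H) (h2 : finrank K H = j) : Fl K e j = H :=
  Submodule.eq_of_le_of_finrank_eq (Fl_le.2 h1) (by rw [finrank_Fl h, h2])

omit [FiniteDimensional K V] in
theorem indep_mono {e : ℕ → V} {i j : ℕ} (h : LinearIndependent K fun i : Fin j => e i)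
    (hij : i ≤ j) : LinearIndependent K fun k : Fin i => e k :=
  h.comp (Fin.castLE hij) (Fin.castLE_injective hij)

theorem NS.exists_noneig {g : End K V} (h : NS g) : ∃ v, g v ∉ K ∙ v := by
  obtain ⟨p, q, h1, h2, h3⟩ := h.exists_two
  obtain ⟨v, h4, h5⟩ := avoid2 h1 h2
  refine ⟨v, fun h6 => ?_⟩
  obtain ⟨a, ha⟩ := Submodule.mem_span_singleton.1 h6
  exact h3 v h4 h5 a ha.symm

theorem chain {p : ℕ} {θ η : Dual K V} (hH : finrank K (LinearMap.ker θ) = p + 2) {T : End K V}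
    (hT : ∀ v, θ v = 0 → η v = 0 → θ (T v) = 0)
    (hN : NI' T (LinearMap.ker θ ⊓ LinearMap.ker η)) :
    ∃ w, (∀ i < p + 2, θ ((T ^ i) w) = 0) ∧ (∀ i < p + 1, η ((T ^ i) w) = 0) ∧
      LinearIndependent K fun i : Fin (p + 2) => (T ^ (i : ℕ)) w := by
  obtain ⟨w, h1, h0⟩ := Submodule.exists_mem_ne_zero_of_ne_bot (LinearMap.ker_ne_bot_of_finrank_lt
    (f := (LinearMap.pi fun i : Fin (p + 1) => η ∘ₗ (T ^ (i : ℕ))) ∘ₗ (LinearMap.ker θ).subtype)
    (by simp [hH]))
  have h2 : ∀ i < p + 1, η ((T ^ i) w) = 0 := fun i hi => congrFun h1 ⟨i, hi⟩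
  have h3 : ∀ i < p + 2, θ ((T ^ i) w) = 0 := by
    intro i
    induction i with
    | zero => exact fun _ => w.2
    | succ i ih =>
      intro hi
      rw [pow_succ_apply]
      exact hT _ (ih (by omega)) (h2 i (by omega))
  refine ⟨w, h3, h2, indep_of_notMem (e := fun i => (T ^ i) (w : V)) fun i hi h4 => ?_⟩
  have h5 := hN _ (Fl_le.2 fun j hj => ⟨h3 j (by omega), h2 j (by omega)⟩) (kry_inv h4)
  refine h0 (Subtype.ext ((Submodule.eq_bot_iff _).1 h5 _ ?_))
  rcases Nat.eq_zero_or_pos i with rfl | h6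
  · exact h4
  · exact mem_Fl (fun i => (T ^ i) (w : V)) h6

theorem HC.ne_zero {B : End K V} {θ : Dual K V} {w : V} {β : K} (h : HC B θ w β)
    (hB : LinearMap.det B ≠ 0) : β ≠ 0 := by
  rintro rfl
  refine h.1 (LinearMap.ext fun v => ?_)
  obtain ⟨u, rfl⟩ := surj_of_det hB v
  simp [h.2.1]

theorem HC.pow {B : End K V} {θ : Dual K V} {w : V} {β : K} (h : HC B θ w β) (i : ℕ) :
    θ ((B ^ i) w) = 0 := by
  induction i with
  | zero => exact h.2.2.1
  | succ i ih => rw [pow_succ_apply, h.2.1, ih, mul_zero]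

/-- the determinant computation -/
theorem det_two_updates {p : ℕ} (a : Basis (Fin (p + 3)) K V) (e e' : ℕ → V) (y y' : V) (s t : K)
    (h1 : y' - s • y ∈ Fl K e (p + 2)) (h2 : ∀ i < p + 1, e' i = e i)
    (h3 : e' (p + 1) - t • e (p + 1) ∈ Fl K e (p + 1)) :
    a.det (Fin.cons y' fun i : Fin (p + 2) => e' i) =
      t * (s * a.det (Fin.cons y fun i : Fin (p + 2) => e i)) := by
  set U : Fin (p + 3) → V := Fin.cons y fun i : Fin (p + 2) => e i with hU
  have m1 : Fl K e (p + 2) ≤ Submodule.span K (U '' {j | j ≠ 0}) := Fl_le.2 fun i hi =>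
    Submodule.subset_span ⟨Fin.succ ⟨i, hi⟩, Fin.succ_ne_zero _, by rw [hU, Fin.cons_succ]⟩
  have k1 := det_update a.det U 0 s (m1 h1)
  set U' := Function.update U 0 (s • U 0 + (y' - s • y)) with hU'
  have m2 : Fl K e (p + 1) ≤ Submodule.span K (U' '' {j | j ≠ Fin.last _}) := Fl_le.2 fun i hi =>
    Submodule.subset_span ⟨Fin.succ ⟨i, by omega⟩,
      fun h => by simp [Fin.ext_iff] at h; omega, by
        rw [hU', Function.update_of_ne (Fin.succ_ne_zero _), hU, Fin.cons_succ]⟩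
  have k2 := det_update a.det U' (Fin.last _) t (m2 h3)
  rw [← k1, ← k2]
  congr 1
  ext i
  refine Fin.cases ?_ (fun i => ?_) i
  · rw [Function.update_of_ne (Fin.last_pos.ne)]
    simp [hU', hU]
  · refine Fin.lastCases ?_ (fun i => ?_) i
    · rw [Fin.succ_last, Function.update_self, hU', Function.update_of_ne (Fin.last_pos.ne'),
        ← Fin.succ_last, hU]
      simp
    · rw [Function.update_of_ne (fun h => by simp [Fin.ext_iff] at h; omega)]
      simp [hU', hU, h2 i i.2]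

/-- the Krylov basis -/
theorem Cyc.exists_basis {A : End K V} {x : V} (h : Cyc A x) {n : ℕ} (hn : finrank K V = n) :
    ∃ a : Basis (Fin n) K V, ∀ i, a i = (A ^ (i : ℕ)) x := by
  have h1 := (Cyc.gen h).indep (j := n) (by rw [finrank_top, hn])
  exact ⟨Basis.mk h1 (Fl_eq (e := fun i => (A ^ i) x) h1 (H := ⊤) (fun _ _ => Submodule.mem_top)
    (by rw [finrank_top, hn])).ge, fun i => Basis.mk_apply _ _ _⟩

theorem T0_aux {p : ℕ} (hn : finrank K V = p + 3) (hn0 : finrank K W = p + 3) (g : V ≃ₗ[K] V)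
    (hg : NS (g : End K V)) (a : Basis (Fin (p + 3)) K V) {B₀ : End K W} {θ₀ : Dual K W} {w₀ : W}
    {β : K} (hB : HC B₀ θ₀ w₀ β) (dB : LinearMap.det B₀ ≠ 0) (d : K) (hd : d ≠ 0) :
    ∃ (k : W ≃ₗ[K] V) (u : V), (∀ i < p + 2,
      θ₀ (k.symm ((((g.symm : End K V) * cj k B₀) ^ i) u)) = 0) ∧
      a.det (fun i => (((g.symm : End K V) * cj k B₀) ^ (i : ℕ)) u) =
        d * LinearMap.det ((g.symm : End K V) * cj k B₀) := by
  obtain ⟨v₀, hv₀⟩ := NS.exists_noneig hg
  obtain ⟨θ, h1, h0⟩ := exists_dual_notMem hv₀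
  replace h0 := h0 v₀ (Submodule.mem_span_singleton_self _)
  have hθ : θ ≠ 0 := fun h => by simp [h] at h1
  have dH : finrank K (LinearMap.ker θ) = p + 2 := by have := finrank_ker_dual hθ; omega
  have dH0 : finrank K (LinearMap.ker θ₀) = p + 2 := by have := finrank_ker_dual hB.1; omega
  obtain ⟨η, S, ⟨w₁, w1, w2⟩, s1, s2, s3⟩ := shift hn g h0 h1
  have dX : finrank K (LinearMap.ker θ ⊓ LinearMap.ker η : Submodule K V) = p + 1 := by
    have := finrank_inf_ker (X := LinearMap.ker θ) (φ := η) (a := w₁) w1 (by simp [w2])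
    omega
  obtain ⟨u, u1, u2, u3⟩ := chain dH (fun v a b => (s1 v a b).1) s2
  have uH := Fl_eq (e := fun i => (S ^ i) u) u3 u1 dH
  have uX := Fl_eq (e := fun i => (S ^ i) u) (indep_mono (e := fun i => (S ^ i) u) u3
    (Nat.le_succ _)) (H := LinearMap.ker θ ⊓ LinearMap.ker η)
    (fun i hi => ⟨u1 i (by omega), u2 i hi⟩) dX
  have hgu : θ (g u) ≠ 0 := fun h => by
    have : Fl K (fun i => (S ^ i) u) (p + 2) ≤ LinearMap.ker (θ ∘ₗ (g : End K V)) :=
      Fl_le.2 fun i hi => by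
        rcases i with _ | i
        · exact h
        · rw [pow_succ_apply]
          exact (s1 _ (u1 i (by omega)) (u2 i (by omega))).2
    have := this (uH.ge (show v₀ ∈ LinearMap.ker θ from h0))
    rw [LinearMap.mem_ker, LinearMap.comp_apply, h1] at this
    exact one_ne_zero this
  set D := a.det (Fin.cons (g u) fun i : Fin (p + 2) => (S ^ (i : ℕ)) u) with hD
  have hD0 : D ≠ 0 := by
    have : LinearIndependent K (Fin.cons (g u) fun i : Fin (p + 2) => (S ^ (i : ℕ)) u :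
        Fin (p + 3) → V) := linearIndependent_finCons.2 ⟨u3, fun h => hgu (uH.le h)⟩
    exact (a.is_basis_iff_det.1 ⟨this, this.span_eq_top_of_card_eq_finrank' (by simp [hn])⟩).ne_zero
  have hβ := hB.ne_zero dB
  obtain ⟨St, t1, t2⟩ := s3 (d * β * D⁻¹) (by simp [hd, hβ, hD0])
  obtain ⟨w, x1, x2, x3⟩ := chain dH (T := (g : End K V) * St) (fun v a b => (t1 v a b).2.1) t2
  have wH := Fl_eq (e := fun i => (((g : End K V) * St) ^ i) w) x3 x1 dH
  have wX := Fl_eq (e := fun i => (((g : End K V) * St) ^ i) w) (indep_mono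
    (e := fun i => (((g : End K V) * St) ^ i) w) x3 (Nat.le_succ _))
    (H := LinearMap.ker θ ⊓ LinearMap.ker η) (fun i hi => ⟨x1 i (by omega), x2 i hi⟩) dX
  have b3 := hB.2.2.2.indep dH0.ge
  have bH := Fl_eq (e := fun i => (B₀ ^ i) w₀) b3 (fun i _ => hB.pow i) dH0
  obtain ⟨k, hk⟩ := exists_equiv (hn0.trans hn.symm) b3 x3
  have hk' : ∀ i < p + 2, k ((B₀ ^ i) w₀) = (((g : End K V) * St) ^ i) w := fun i hi => hk ⟨i, hi⟩
  have kH : (LinearMap.ker θ₀).map (k : W →ₗ[K] V) = LinearMap.ker θ := by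
    rw [← bH, ← wH, Fl_map]
    exact Fl_congr hk'
  have kH1 : ∀ v, θ v = 0 → θ₀ (k.symm v) = 0 := fun v hv => by
    obtain ⟨v', h2, rfl⟩ := kH.ge (show v ∈ LinearMap.ker θ from hv)
    simpa using h2
  have kH2 : ∀ v, θ₀ (k.symm v) = 0 → θ v = 0 := fun v hv =>
    kH.le ⟨k.symm v, hv, by simp⟩
  set R : End K V := (g.symm : End K V) * cj k B₀ with hR
  have eR : ∀ v, θ v = 0 → η v = 0 → R v = St v := fun v a b => by
    refine Fl_ind (fun i hi => ?_) v (wX.ge ⟨a, b⟩)
    have := pow_succ_apply ((g : End K V) * St) i w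
    rw [hR, ← hk' i (by omega), End.mul_apply, cj_apply, ← pow_succ_apply, hk' _ (by omega), this,
      hk' i (by omega)]
    simp
  have r1 : ∀ i < p + 1, (R ^ i) u = (S ^ i) u := by
    intro i
    induction i with
    | zero => exact fun _ => rfl
    | succ i ih =>
      intro hi
      have a := u1 i (by omega)
      have b := u2 i (by omega)
      rw [pow_succ_apply, ih (by omega), eR _ a b, (t1 _ a b).2.2.2 (by
        rw [← pow_succ_apply]; exact u2 _ hi), pow_succ_apply]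
  have r2 : (R ^ (p + 1)) u = St ((S ^ p) u) := by
    rw [pow_succ_apply, r1 p (by omega), eR _ (u1 p (by omega)) (u2 p (by omega))]
  obtain ⟨r3, -, r4, -⟩ := t1 _ (u1 p (by omega)) (u2 p (by omega))
  obtain ⟨y, hy⟩ := surj_of_det ((similar_cj k B₀).det_eq ▸ dB) (g u)
  have hy2 : R y = u := by simp [hR, hy]
  refine ⟨k, u, fun i hi => kH1 _ ?_, ?_⟩
  · rcases Nat.lt_succ_iff_lt_or_eq.1 hi with h | rfl
    · rw [r1 i h]; exact u1 i hi
    · rw [r2, r3]
  have e1 := det_two_updates a (fun i => (S ^ i) u) (fun i => (R ^ i) u) (g u) y β⁻¹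
    (d * β * D⁻¹) (uH.ge (kH2 _ (by
      rw [← hy, cj_apply', map_sub, map_smul, map_sub, map_smul, k.symm_apply_apply, hB.2.1]
      simp [hβ]))) r1 (uX.ge ⟨by
        rw [SetLike.mem_coe, LinearMap.mem_ker, map_sub, map_smul, r2, r3, u1 _ (by omega)]
        simp, by
        rw [SetLike.mem_coe, LinearMap.mem_ker, map_sub, map_smul, r2, r4, pow_succ_apply]
        simp⟩)
  have e2 : (fun i : Fin (p + 3) => (R ^ (i : ℕ)) u) =
      R ∘ (Fin.cons y fun i : Fin (p + 2) => (R ^ (i : ℕ)) u : Fin (p + 3) → V) := by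
    ext i
    refine Fin.cases ?_ (fun i => ?_) i
    · simp [hy2]
    · simp [pow_succ_apply]
  rw [e2, a.det_comp, e1, ← hD]
  change _ = d * LinearMap.det R
  field_simp

theorem T0 (hn : 3 ≤ finrank K V) (hn0 : finrank K W = finrank K V) {g A : End K V} (hg : NS g)
    (dg : LinearMap.det g ≠ 0) {x : V} (hA : Cyc A x) (dA : LinearMap.det A ≠ 0)
    {B₀ : End K W} {θ₀ : Dual K W} {w₀ : W} {β : K} (hB : HC B₀ θ₀ w₀ β)
    (hd : LinearMap.det B₀ = LinearMap.det g * LinearMap.det A) :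
    ∃ A', SC A A' ∧ ∃ k : W ≃ₗ[K] V, (∀ v, θ₀ v = 0 → g (A' (k v)) = k (B₀ v)) ∧
      ∀ v, θ₀ (k.symm (g (A' (k v)))) = β * θ₀ v := by
  obtain ⟨p, hp⟩ : ∃ p, finrank K V = p + 3 := ⟨finrank K V - 3, by omega⟩
  obtain ⟨a, ha⟩ := Cyc.exists_basis hA hp
  have dB : LinearMap.det B₀ ≠ 0 := hd ▸ mul_ne_zero dg dA
  obtain ⟨k, u, h1, h2⟩ := T0_aux hp (hn0.trans hp) (eqv g dg) (by simpa using hg) a hB dB _
    (inv_ne_zero dA)
  set R : End K V := ((eqv g dg).symm : End K V) * cj k B₀ with hR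
  have gR : g * R = cj k B₀ := LinearMap.ext fun v => by
    rw [hR, End.mul_apply, End.mul_apply, ← eqv_apply g dg]
    simp
  have dR : LinearMap.det R = LinearMap.det A := by
    have := congrArg LinearMap.det gR
    rw [map_mul, ← (similar_cj k B₀).det_eq, hd] at this
    exact mul_left_cancel₀ dg this
  rw [dR, inv_mul_cancel₀ dA, ← det_constr] at h2
  set h := eqv _ (h2 ▸ one_ne_zero : LinearMap.det (a.constr K fun i => (R ^ (i : ℕ)) u) ≠ 0)
    with hh
  have eh : ∀ i < p + 3, h ((A ^ i) x) = (R ^ i) u := fun i hi => by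
    have := ha ⟨i, hi⟩
    rw [← this, hh, eqv_apply, a.constr_basis]
  have hθ : θ₀ ∘ₗ (k.symm : V →ₗ[K] W) ≠ 0 := fun h0 => hB.1 (LinearMap.ext fun v => by
    simpa using LinearMap.congr_fun h0 (k v))
  have i1 : LinearIndependent K fun i : Fin (p + 3) => (R ^ (i : ℕ)) u := by
    have := a.linearIndependent.map' (h : V →ₗ[K] V) h.ker
    have h3 : (h : V →ₗ[K] V) ∘ a = fun i : Fin (p + 3) => (R ^ (i : ℕ)) u := by
      ext i
      simp [ha, eh i i.2]
    rwa [h3] at this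
  have e1 := Fl_eq (e := fun i => (R ^ i) u) (indep_mono (e := fun i => (R ^ i) u) i1
    (Nat.le_succ _)) (H := LinearMap.ker (θ₀ ∘ₗ (k.symm : V →ₗ[K] W))) h1
    (by have := finrank_ker_dual hθ; omega)
  have e2 : ∀ v, θ₀ (k.symm v) = 0 → cj h A v = R v := fun v hv => by
    refine Fl_ind (fun i hi => ?_) v (e1.ge hv)
    rw [← eh i (by omega), cj_apply, ← pow_succ_apply, eh _ (by omega), eh _ (by omega),
      pow_succ_apply]
  have e3 : ∀ v, θ₀ v = 0 → g (cj h A (k v)) = k (B₀ v) := fun v hv => by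
    rw [e2 _ (by simpa using hv), ← End.mul_apply, gR, cj_apply]
  refine ⟨cj h A, ⟨h, by rw [hh, coe_eqv, h2], fun v => (cj_apply h A v).symm⟩, k, e3, fun v => ?_⟩
  set E : End K W := ((eqv B₀ dB).symm : End K W) * cj k.symm (g * cj h A) with hE
  have BE : B₀ * E = cj k.symm (g * cj h A) := LinearMap.ext fun v => by
    rw [hE, End.mul_apply, End.mul_apply, ← eqv_apply B₀ dB]
    simp
  have dE : LinearMap.det E = 1 := by
    have := congrArg LinearMap.det BE
    rw [map_mul, ← (similar_cj k.symm _).det_eq, map_mul _ g, ← (similar_cj h A).det_eq,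
      ← hd] at this
    exact mul_left_cancel₀ dB (this.trans (mul_one _).symm)
  have e4 := fix_hyp (E := E) (θ := θ₀) (fun v hv => inj_of_det dB (by
    rw [← End.mul_apply, BE, cj_apply']
    simp [e3 v hv])) v
  have e5 := LinearMap.congr_fun BE v
  rw [cj_apply'] at e5
  rw [dE, one_mul] at e4
  rw [← e4, ← hB.2.1]
  exact congrArg θ₀ e5.symm

end H64.Lev
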