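import Mathlib
import Cfsg.Agent.Lib.Lev.T0

/-! Cyclic elements with a simple eigenvalue, and the covering principle. -/

set_option autoImplicit false
open Module Polynomial
open scoped Pointwise

namespace H64.Lev
open H64.Sour
variable {K : Type*} [Field K]
variable {V W : Type*} [AddCommGroup V] [Module K V] [AddCommGroup W] [Module K W]

/-- cyclic with a simple eigenvalue -/
def CS (B : End K V) : Prop := ∃ θ w β, HC B θ w β ∧ ∀ v, θ v = 0 → B v = β • v → v = 0

theorem HC.exists_eig {B : End K V} {θ : Dual K V} {w : V} {β : K} (h : HC B θ w β) :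
    ∃ (e : V) (a : K), θ e = 1 ∧ B e - β • e = a • w := by
  obtain ⟨e, he⟩ := exists_one h.1
  have h1 := h.2.2.2 ((K ∙ w) ⊔ (LinearMap.ker θ).map (B - β • 1))
    (Submodule.mem_sup_left (Submodule.mem_span_singleton_self _)) (fun v hv => by
      have h2 : θ v = 0 := by
        obtain ⟨_, h3, _, ⟨u, h4, rfl⟩, rfl⟩ := Submodule.mem_sup.1 hv
        obtain ⟨s, rfl⟩ := Submodule.mem_span_singleton.1 h3
        simp [h.2.2.1, h.2.1]
      rw [show B v = β • v + (B - β • (1 : End K V)) v by simp]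
      exact Submodule.add_mem _ (Submodule.smul_mem _ _ hv) (Submodule.mem_sup_right ⟨v, h2, rfl⟩))
  obtain ⟨_, h3, _, ⟨u, h4, rfl⟩, h5⟩ := Submodule.mem_sup.1
    (h1 (show B e - β • e ∈ LinearMap.ker θ by simp [h.2.1]))
  obtain ⟨s, rfl⟩ := Submodule.mem_span_singleton.1 h3
  refine ⟨e - u, s, by simp [he, LinearMap.mem_ker.1 h4], ?_⟩
  simp only [LinearMap.sub_apply, LinearMap.smul_apply, End.one_apply] at h5
  rw [map_sub]
  linear_combination (norm := module) -h5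

theorem HC.cyc_of {B : End K V} {θ : Dual K V} {w : V} {β : K} (h : HC B θ w β) {e : V}
    (he : θ e = 1) {p : Submodule K V} (h1 : e ∈ p) (h2 : w ∈ p) (h3 : ∀ v ∈ p, B v ∈ p) :
    p = ⊤ := Submodule.eq_top_iff'.2 fun v => by
  rw [show v = θ v • e + (v - θ v • e) by abel]
  exact p.add_mem (p.smul_mem _ h1) (h.2.2.2 p h2 h3 (by simp [he]))

theorem HC.cyc_or {B : End K V} {θ : Dual K V} {w : V} {β : K} (h : HC B θ w β) :
    (∃ u, Cyc B u) ∨ ∃ e, θ e = 1 ∧ B e = β • e := by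
  obtain ⟨e, a, h1, h2⟩ := h.exists_eig
  by_cases ha : a = 0
  · exact Or.inr ⟨e, h1, by simpa [ha, sub_eq_zero] using h2⟩
  · exact Or.inl ⟨e, fun p h3 h4 => h.cyc_of h1 h3
      ((p.smul_mem_iff ha).1 (h2 ▸ p.sub_mem (h4 e h3) (p.smul_mem _ h3))) h4⟩

theorem Gen.map_comm {B : End K V} {w : V} {H : Submodule K V} (h : Gen B w H) {c : End K V}
    (hc : ∀ v, c (B v) = B (c v)) : Gen B (c w) (H.map c) := fun p h1 h2 =>
  Submodule.map_le_iff_le_comap.2 (h (p.comap c) h1 fun v hv => by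
    rw [Submodule.mem_comap, hc]; exact h2 _ hv)

theorem HC.of_equiv {B : End K V} {θ : Dual K V} {w : V} {β : K} (h : HC B θ w β) {B' : End K W}
    {e : V ≃ₗ[K] W} (he : ∀ v, e (B v) = B' (e v)) :
    HC B' (θ ∘ₗ (e.symm : W →ₗ[K] V)) (e w) β := by
  refine ⟨fun h0 => h.1 (LinearMap.ext fun v => by simpa using LinearMap.congr_fun h0 (e v)),
    fun v => by rw [eq_cj he]; simp [cj_apply', h.2.1], by simp [h.2.2.1], fun p h1 h2 v hv => ?_⟩
  have := h.2.2.2 (p.comap (e : V →ₗ[K] W)) h1 (fun v hv => by simpa [he] using h2 _ hv)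
    (show e.symm v ∈ LinearMap.ker θ from hv)
  simpa using this

theorem CS.of_similar {B : End K V} {B' : End K W} (h : CS B) (hs : H65.Similar B B') : CS B' := by
  obtain ⟨e, he⟩ := hs
  obtain ⟨θ, w, β, h1, h2⟩ := h
  refine ⟨_, _, β, h1.of_equiv he, fun v h3 h4 => ?_⟩
  have := h2 (e.symm v) h3 (e.injective (by simp [he, h4]))
  simpa using this

theorem cs_of {B : End K V} {B' : End K W} (ι : W →ₗ[K] V) (hι : ∀ v, B (ι v) = ι (B' v))
    {θ : Dual K V} (h0 : θ ≠ 0) (h1 : ∀ v, θ v = 0 ↔ ∃ u, ι u = v) {μ : K}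
    (h2 : ∀ v, θ (B v) = μ * θ v) {w : W} (h3 : Cyc B' w) (h4 : ∀ v, B' v = μ • v → v = 0)
    (h5 : Function.Injective ι) : CS B := by
  refine ⟨θ, ι w, μ, ⟨h0, h2, (h1 _).2 ⟨w, rfl⟩, fun p k1 k2 v hv => ?_⟩, fun v k1 k2 => ?_⟩
  · obtain ⟨u, rfl⟩ := (h1 v).1 hv
    have := h3 (p.comap ι) k1 fun v hv => by rw [Submodule.mem_comap, ← hι]; exact k2 _ hv
    exact (this ▸ Submodule.mem_top : u ∈ p.comap ι)
  · obtain ⟨u, rfl⟩ := (h1 v).1 k1
    rw [h4 u (h5 (by rw [← hι, k2, map_smul])), map_zero]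

variable [FiniteDimensional K V] [FiniteDimensional K W]

theorem surj_on {H : Submodule K V} {N : End K V} (h1 : ∀ v ∈ H, N v ∈ H)
    (h2 : ∀ v ∈ H, N v = 0 → v = 0) : H.map N = H :=
  Submodule.eq_of_le_of_finrank_eq (Submodule.map_le_iff_le_comap.2 h1) (finrank_map_of_inj h2)

theorem HC.surj {B : End K V} {θ : Dual K V} {w : V} {β : K} (h : HC B θ w β)
    (h2 : ∀ v, θ v = 0 → B v = β • v → v = 0) :
    (LinearMap.ker θ).map (B - β • 1) = LinearMap.ker θ :=
  surj_on (fun v _ => by simp [h.2.1]) fun v hv h3 => h2 v hv (by simpa [sub_eq_zero] using h3)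

theorem HC.exists_eig' {B : End K V} {θ : Dual K V} {w : V} {β : K} (h : HC B θ w β)
    (h2 : ∀ v, θ v = 0 → B v = β • v → v = 0) : ∃ e, θ e = 1 ∧ B e = β • e := by
  obtain ⟨e, he⟩ := exists_one h.1
  obtain ⟨y, h3, h4⟩ := (h.surj h2).ge (show B e - β • e ∈ LinearMap.ker θ by simp [h.2.1])
  refine ⟨e - y, by simp [he, LinearMap.mem_ker.1 h3], ?_⟩
  simp only [LinearMap.sub_apply, LinearMap.smul_apply, End.one_apply] at h4
  rw [map_sub]
  linear_combination (norm := module) -h4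

theorem CS.full {B : End K V} (h : CS B) : Full B := by
  obtain ⟨θ, w, β, h1, h2⟩ := h
  obtain ⟨e, h3, h4⟩ := h1.exists_eig' h2
  exact full_of_eig h3 h4 h1.2.1

theorem CS.cyc {B : End K V} (h : CS B) : ∃ u, Cyc B u := by
  obtain ⟨θ, w, β, h1, h2⟩ := h
  obtain ⟨e, h3, h4⟩ := h1.exists_eig' h2
  refine ⟨w + e, fun p k1 k2 => ?_⟩
  have k3 := h1.2.2.2.map_comm (c := B - β • 1) (fun v => by simp) p (by
    have := p.sub_mem (k2 _ k1) (p.smul_mem β k1)
    rw [map_add, h4, smul_add, add_sub_add_right_eq_sub] at this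
    exact this) k2
  rw [h1.surj h2] at k3
  have k4 : w ∈ p := k3 h1.2.2.1
  exact h1.cyc_of h3 (by simpa using p.sub_mem k1 k4) k4 k2

theorem T2 (hn : 3 ≤ finrank K V) {g A B : End K V} (hg : NS g)
    (dg : LinearMap.det g ≠ 0) {x : V} (hA : Cyc A x) (dA : LinearMap.det A ≠ 0) (hB : CS B)
    (hd : LinearMap.det B = LinearMap.det g * LinearMap.det A) :
    ∃ A', SC A A' ∧ SC B (g * A') := by
  have hF := hB.full
  obtain ⟨θ, w, β, h1, h2⟩ := hB
  obtain ⟨A', h3, k, h4, h5⟩ := T0 hn rfl hg dg hA dA h1 hd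
  refine ⟨A', h3, hF.sc ?_⟩
  obtain ⟨e, he⟩ := exists_one h1.1
  obtain ⟨y, h6, h7⟩ := (h1.surj h2).ge
    (show k.symm (g (A' (k e))) - B e ∈ LinearMap.ker θ by simp [h5, h1.2.1])
  have h6' : θ y = 0 := h6
  refine ⟨(LinearEquiv.transvection h6').symm.trans k, fun v => ?_⟩
  obtain ⟨u, rfl⟩ := (LinearEquiv.transvection h6').surjective v
  simp only [LinearEquiv.trans_apply, LinearEquiv.symm_apply_apply, End.mul_apply]
  rw [← LinearEquiv.eq_symm_apply, LinearEquiv.symm_apply_eq]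
  have h8 := h4 (u - θ u • e) (by simp [he])
  rw [← LinearEquiv.symm_apply_eq] at h8
  simp only [LinearMap.sub_apply, LinearMap.smul_apply, End.one_apply, map_sub, map_smul] at h7 h8
  simp only [LinearEquiv.transvection.apply, h5, map_add, map_smul]
  linear_combination (norm := module) θ u • h7 - h8

theorem exists_cyc {f : K[X]} (hf : f.Monic) (hn : finrank K V = f.natDegree) :
    ∃ (A : End K V) (a : V), Cyc A a ∧ A.charpoly = f := by
  have := hf.finite_adjoinRoot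
  obtain ⟨e⟩ := FiniteDimensional.nonempty_linearEquiv_of_finrank_eq
    ((AdjoinRoot.powerBasis hf.ne_zero).finrank.trans hn.symm)
  exact ⟨cj e (H65.cyc f), e 1, Cyc.of_equiv (fun v => (cj_apply e _ v).symm) (cyc_cyc f),
    (similar_cj e _).charpoly_eq.symm.trans (H65.charpoly_cyc hf)⟩

theorem inj_of_charpoly {A : End K V} {μ : K} (h : A.charpoly.eval μ ≠ 0) (v : V)
    (hv : A v = μ • v) : v = 0 := by
  by_contra h2
  exact h ((End.hasEigenvalue_iff_isRoot_charpoly A μ).1 (End.hasEigenvalue_of_hasEigenvector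
    ⟨End.mem_eigenspace_iff.2 hv, h2⟩))

/-- cyclic endomorphisms with characteristic polynomial `X ^ m + c X + c₀` -/
theorem exists_cyc_tri {m : ℕ} (hn : finrank K V = m) (hm : 2 ≤ m) (c d : K) :
    ∃ (A : End K V) (a : V), Cyc A a ∧ LinearMap.det A = d ∧
      ∀ μ, μ ^ m + (c * μ + (-1) ^ m * d) ≠ 0 → ∀ v, A v = μ • v → v = 0 := by
  have h1 : (C c * X + C ((-1) ^ m * d)).degree < ((m : ℕ) : WithBot ℕ) :=
    lt_of_le_of_lt degree_linear_le (by exact_mod_cast hm)
  have h2 : (X ^ m + (C c * X + C ((-1) ^ m * d))).natDegree = m := by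
    rw [natDegree_add_eq_left_of_degree_lt (by rwa [degree_X_pow]), natDegree_X_pow]
  obtain ⟨A, a, h3, h4⟩ := exists_cyc (V := V) (monic_X_pow_add h1) (hn.trans h2.symm)
  refine ⟨A, a, h3, ?_, fun μ h => inj_of_charpoly (by simpa [h4] using h)⟩
  rw [LinearMap.det_eq_sign_charpoly_coeff, h4, hn, coeff_zero_eq_eval_zero]
  simp [show m ≠ 0 by omega, ← mul_assoc, ← mul_pow]

end H64.Lev
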