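import Mathlib
import Cfsg.Agent.Lib.Lev.CS

/-! The covering principle for powers of a conjugacy class. -/

set_option autoImplicit false
open Module Polynomial
open scoped Pointwise

namespace H64.Lev
open H64.Sour
variable {K : Type*} [Field K]
variable {V W : Type*} [AddCommGroup V] [Module K V] [AddCommGroup W] [Module K W]

/-- a product of `k` conjugates is cyclic -/
def Cy (x : End K V) (k : ℕ) : Prop := ∃ P ∈ cls x ^ k, ∃ w, Cyc P w

/-- a product of `k` conjugates is cyclic with a simple eigenvalue -/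
def CSk (x : End K V) (k : ℕ) : Prop := ∃ P ∈ cls x ^ k, CS P

/-- all nonscalar elements of the right determinant are products of `k` conjugates -/
def Cov (x : End K V) (k : ℕ) : Prop :=
  ∀ g, NS g → LinearMap.det g = LinearMap.det x ^ k → g ∈ cls x ^ k

theorem Cy.of_similar {x : End K V} {y : End K W} {k : ℕ} (h : Cy x k) (hs : H65.Similar x y) :
    Cy y k := by
  obtain ⟨e, he⟩ := hs
  obtain ⟨P, h1, w, h2⟩ := h
  exact ⟨_, cj_mem_pow he h1, e w, Cyc.of_equiv (fun v => (cj_apply e _ v).symm) h2⟩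

theorem CSk.of_similar {x : End K V} {y : End K W} {k : ℕ} (h : CSk x k) (hs : H65.Similar x y) :
    CSk y k := by
  obtain ⟨e, he⟩ := hs
  obtain ⟨P, h1, h2⟩ := h
  exact ⟨_, cj_mem_pow he h1, h2.of_similar (similar_cj e P)⟩

theorem Cyc.smul {x : End K V} {w : V} (h : Cyc x w) {c : K} (hc : c ≠ 0) : Cyc (c • x) w :=
  fun p h1 h2 => h p h1 fun v hv => (p.smul_mem_iff hc).1 (h2 v hv)

theorem CS.smul {x : End K V} (h : CS x) {c : K} (hc : c ≠ 0) : CS (c • x) := by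
  obtain ⟨θ, w, β, h1, h2⟩ := h
  refine ⟨θ, w, c * β, ⟨h1.1, fun v => by simp [h1.2.1, mul_assoc], h1.2.2.1, fun p k1 k2 =>
    h1.2.2.2 p k1 fun v hv => (p.smul_mem_iff hc).1 (k2 v hv)⟩, fun v k1 k2 => h2 v k1 ?_⟩
  rw [mul_smul] at k2
  exact smul_right_injective V hc k2

theorem Cy.smul {x : End K V} {k : ℕ} (h : Cy x k) {c : K} (hc : c ≠ 0) : Cy (c • x) k := by
  obtain ⟨P, h1, w, h2⟩ := h
  exact ⟨_, smul_mem_pow c k P h1, w, Cyc.smul h2 (pow_ne_zero _ hc)⟩

theorem CSk.smul {x : End K V} {k : ℕ} (h : CSk x k) {c : K} (hc : c ≠ 0) : CSk (c • x) k := by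
  obtain ⟨P, h1, h2⟩ := h
  exact ⟨_, smul_mem_pow c k P h1, h2.smul (pow_ne_zero _ hc)⟩

theorem NS.smul {x : End K V} (h : NS x) {c : K} (hc : c ≠ 0) : NS (c • x) := fun μ => by
  obtain ⟨v, hv⟩ := h (c⁻¹ * μ)
  refine ⟨v, fun h1 => hv ?_⟩
  rw [mul_smul, ← h1, LinearMap.smul_apply, smul_smul, inv_mul_cancel₀ hc, one_smul]

variable [FiniteDimensional K V] [FiniteDimensional K W]

@[simp] theorem eqv_symm_apply (c : End K V) (h : LinearMap.det c ≠ 0) (v : V) :
    (eqv c h).symm (c v) = v := by rw [← eqv_apply c h, LinearEquiv.symm_apply_apply]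

@[simp] theorem apply_eqv_symm (c : End K V) (h : LinearMap.det c ≠ 0) (v : V) :
    c ((eqv c h).symm v) = v := by rw [← eqv_apply c h, LinearEquiv.apply_symm_apply]

theorem Cov.smul {x : End K V} {k : ℕ} (h : Cov x k) {c : K} (hc : c ≠ 0) : Cov (c • x) k := by
  intro g h1 h2
  have hc' := pow_ne_zero k hc
  have := smul_mem_pow c k _ (h ((c ^ k)⁻¹ • g) (NS.smul h1 (inv_ne_zero hc')) (by
    rw [LinearMap.det_smul, h2, LinearMap.det_smul, mul_pow, ← pow_mul, mul_comm _ k, pow_mul,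
      inv_pow, ← mul_assoc, inv_mul_cancel₀ (pow_ne_zero _ hc'), one_mul]))
  rwa [smul_smul, mul_inv_cancel₀ hc', one_smul] at this

theorem CSk.cy {x : End K V} {k : ℕ} (h : CSk x k) : Cy x k := by
  obtain ⟨P, h1, h2⟩ := h
  exact ⟨P, h1, h2.cyc⟩

theorem exists_CS (hK : Big K) (hn : 3 ≤ finrank K V) {d : K} (hd : d ≠ 0) (μ : K) :
    ∃ B : End K V, CS B ∧ LinearMap.det B = d ∧ ∀ v, B v = μ • v → v = 0 := by
  obtain ⟨m, hm⟩ : ∃ m, finrank K V = m + 1 := ⟨finrank K V - 1, by omega⟩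
  obtain ⟨β, hβ0, hβ, -⟩ := hK 0 μ 0
  obtain ⟨c, h1, h2, -⟩ := hK (-(β ^ m + (-1) ^ m * (d / β)) / β)
    (-(μ ^ m + (-1) ^ m * (d / β)) / μ) 0
  obtain ⟨A, a, h3, h4, h5⟩ := exists_cyc_tri (K := K) (V := Fin m → K) (m := m) (by simp)
    (by omega) c (d / β)
  have k1 := h5 β fun h => h1 (by field_simp; field_simp at h; linear_combination h)
  have k2 := h5 μ fun h => by
    by_cases h0 : μ = 0
    · simp [h0, show m ≠ 0 by omega, hd, hβ0] at h
    · exact h2 (by field_simp; field_simp at h; linear_combination h)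
  obtain ⟨e⟩ := FiniteDimensional.nonempty_linearEquiv_of_finrank_eq (R := K)
    (M := (Fin m → K) × K) (M' := V) (by simp [hm])
  have k3 : CS (blk A 0 0 (β • (1 : End K K))) := cs_of (LinearMap.inl K _ K) (fun v => by simp)
    (θ := LinearMap.snd K _ K) (fun h => by simpa using LinearMap.congr_fun h (0, 1))
    (fun v => ⟨fun h => ⟨v.1, Prod.ext rfl h.symm⟩, by rintro ⟨u, rfl⟩; rfl⟩) (μ := β)
    (fun v => by simp) h3 k1 LinearMap.inl_injective
  refine ⟨cj e _, k3.of_similar (similar_cj e _), ?_, fun v hv => ?_⟩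
  · rw [← (similar_cj e _).det_eq, det_blk_upper, h4, det_smul_one_field, div_mul_cancel₀ _ hβ0]
  · obtain ⟨v, rfl⟩ := e.surjective v
    rw [cj_apply, ← map_smul, e.injective.eq_iff, Prod.ext_iff] at hv
    have k4 := k2 v.1 (by simpa using hv.1)
    have k5 : v.2 = 0 := by simpa [hβ] using hv.2
    rw [show v = 0 from Prod.ext k4 k5, map_zero]

theorem Cy.cs_mem (hn : 3 ≤ finrank K V) {x : End K V} (hx : NS x) (dx : LinearMap.det x ≠ 0)
    {k : ℕ} (h : Cy x k) {B : End K V} (hB : CS B)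
    (hd : LinearMap.det B = LinearMap.det x ^ (k + 1)) : B ∈ cls x ^ (k + 1) := by
  obtain ⟨P, h1, w, h2⟩ := h
  have h3 := det_of_mem_pow h1
  obtain ⟨P', h4, h5⟩ := T2 hn hx dx h2 (h3 ▸ pow_ne_zero _ dx) hB (by rw [hd, h3, pow_succ'])
  rw [add_comm]
  exact h5.symm.mem_pow (mul_mem_pow (mem_pow_one (SC.refl x)) (h4.mem_pow h1))

theorem Cy.csk (hK : Big K) (hn : 3 ≤ finrank K V) {x : End K V} (hx : NS x)
    (dx : LinearMap.det x ≠ 0) {k : ℕ} (h : Cy x k) : CSk x (k + 1) := by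
  obtain ⟨B, h1, h2, -⟩ := exists_CS hK hn (pow_ne_zero (k + 1) dx) 0
  exact ⟨B, h.cs_mem hn hx dx h1 h2, h1⟩

theorem Cy.mono (hK : Big K) (hn : 3 ≤ finrank K V) {x : End K V} (hx : NS x)
    (dx : LinearMap.det x ≠ 0) {k l : ℕ} (h : Cy x k) (hkl : k ≤ l) : Cy x l := by
  induction l, hkl using Nat.le_induction with
  | base => exact h
  | succ l _ ih => exact (ih.csk hK hn hx dx).cy

theorem Cyc.symm {C : V ≃ₗ[K] V} {w : V} (h : Cyc (C : End K V) w) :
    Cyc (C.symm : End K V) w := fun p h1 h2 => h p h1 fun v hv => by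
  obtain ⟨u, h3, rfl⟩ := (surj_on h2 fun v _ h => by simpa using h).ge hv
  simpa using h3

theorem cov_of (hn : 3 ≤ finrank K V) {x : End K V} (dx : LinearMap.det x ≠ 0) {a b : ℕ}
    (ha : Cy x a) (hb : CSk x b) : Cov x (b + a) := by
  intro g hg hd
  obtain ⟨C, h1, w, h2⟩ := ha
  obtain ⟨B, h3, h4⟩ := hb
  have h5 := det_of_mem_pow h1
  have dC : LinearMap.det C ≠ 0 := h5 ▸ pow_ne_zero _ dx
  have h6 := LinearEquiv.det_symm_mul_det (eqv C dC)
  rw [coe_eqv] at h6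
  obtain ⟨A', ⟨h, k1, k2⟩, k3⟩ := T2 hn hg (hd ▸ pow_ne_zero _ dx)
    (Cyc.symm (C := eqv C dC) (by rwa [coe_eqv])) (det_equiv_ne _) h4 (by
      rw [hd, det_of_mem_pow h3, pow_add, mul_assoc, ← h5, mul_comm (LinearMap.det C), h6, mul_one])
  have k4 : g = g * A' * cj h C := LinearMap.ext fun v => by
    rw [End.mul_apply, End.mul_apply, cj_apply', ← k2]
    simp
  rw [k4]
  exact mul_mem_pow (k3.mem_pow h3) (SC.mem_pow ⟨h, k1, fun v => (cj_apply h C v).symm⟩ h1)

theorem cov_of_le (hK : Big K) (hn : 3 ≤ finrank K V) {x : End K V} (hx : NS x)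
    (dx : LinearMap.det x ≠ 0) {a b k : ℕ} (ha : Cy x a) (hb : CSk x b) (h : b + a ≤ k) :
    Cov x k := by
  have := cov_of hn dx (ha.mono hK hn hx dx (l := k - b) (by omega)) hb
  rwa [show b + (k - b) = k by omega] at this

omit [FiniteDimensional K V] in
theorem NS.symm {C : V ≃ₗ[K] V} (h : NS (C : End K V)) : NS (C.symm : End K V) := fun μ => by
  by_contra! h1
  obtain ⟨v, hv⟩ := h μ⁻¹
  have h2 := h1 (C v)
  simp only [LinearEquiv.coe_coe, LinearEquiv.symm_apply_apply] at h2 hv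
  by_cases h0 : μ = 0
  · simp [h0] at h2
    simp [h2] at hv
  · refine hv ?_
    conv_rhs => rw [h2]
    rw [smul_smul, inv_mul_cancel₀ h0, one_smul]

theorem Cov.one_mem {x : End K V} (hx : NS x) (dx : LinearMap.det x = 1) {k : ℕ} (h : Cov x k) :
    1 ∈ cls x ^ (k + 1) := by
  have d0 : LinearMap.det x ≠ 0 := dx ▸ one_ne_zero
  have h6 := LinearEquiv.det_symm_mul_det (eqv x d0)
  rw [coe_eqv, dx, mul_one] at h6
  have h1 := mul_mem_pow (h _ (NS.symm (C := eqv x d0) (by rwa [coe_eqv])) (by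
    rw [h6, dx, one_pow])) (mem_pow_one (SC.refl x))
  have h2 : ((eqv x d0).symm : End K V) * x = 1 := LinearMap.ext fun v => by simp
  rwa [h2] at h1

end H64.Lev
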