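import Mathlib
import Cfsg.Agent.Lib.Lev.Lin

/-! Subspaces moved off themselves. -/

set_option autoImplicit false
open Module

namespace H64.Lev
open H64.Sour
variable {K : Type*} [Field K]
variable {V : Type*} [AddCommGroup V] [Module K V]

/-- a subspace of dimension `j` is moved off itself -/
def Sig (x : End K V) (j : ℕ) : Prop :=
  ∃ W : Submodule K V, finrank K W = j ∧ ∀ a ∈ W, ∀ b ∈ W, a = x b → a = 0

theorem mem_sup_singleton {U : Submodule K V} {w v : V} :
    v ∈ U ⊔ K ∙ w ↔ ∃ t : K, v - t • w ∈ U := by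
  constructor
  · intro h
    obtain ⟨a, h1, _, h2, rfl⟩ := Submodule.mem_sup.1 h
    obtain ⟨t, rfl⟩ := Submodule.mem_span_singleton.1 h2
    exact ⟨t, by simpa using h1⟩
  · rintro ⟨t, h⟩
    rw [← sub_add_cancel v (t • w)]
    exact Submodule.add_mem_sup h (Submodule.mem_span_singleton.2 ⟨t, rfl⟩)

theorem eq_zero_of_smul_mem {U : Submodule K V} {w : V} (hw : w ∉ U) {t : K} (h : t • w ∈ U) :
    t = 0 := by
  by_contra h0
  exact hw ((U.smul_mem_iff h0).1 h)

variable [FiniteDimensional K V]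

theorem finrank_sup_singleton_le (U : Submodule K V) (w : V) :
    finrank K (U ⊔ K ∙ w : Submodule K V) ≤ finrank K U + 1 :=
  (Submodule.finrank_add_le_finrank_add_finrank _ _).trans
    (Nat.add_le_add_left (finrank_span_singleton_le w) _)

theorem finrank_sup_singleton {U : Submodule K V} {w : V} (h : w ∉ U) :
    finrank K (U ⊔ K ∙ w : Submodule K V) = finrank K U + 1 :=
  le_antisymm (finrank_sup_singleton_le U w) (Submodule.finrank_lt_finrank_of_lt
    (lt_of_le_of_ne le_sup_left fun h1 => h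
      (h1 ▸ Submodule.mem_sup_right (Submodule.mem_span_singleton_self w))))

theorem ne_top_of_finrank {U : Submodule K V} (h : finrank K U < finrank K V) : U ≠ ⊤ := by
  rintro rfl
  simp at h

theorem exists_indep_mod {U : Submodule K V} {g : End K V} (h : ∀ μ : K, ∃ v, g v - μ • v ∉ U)
    (h2 : finrank K U + 2 ≤ finrank K V) : ∃ w, w ∉ U ∧ g w ∉ U ⊔ K ∙ w := by
  by_contra! h3
  obtain ⟨w₁, h4⟩ := exists_notMem (ne_top_of_finrank (U := U) (by omega))
  obtain ⟨μ, h5⟩ := mem_sup_singleton.1 (h3 w₁ h4)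
  obtain ⟨v, hv⟩ := h μ
  obtain ⟨w, h6, h7⟩ := avoid2 (p := U.comap (g - μ • 1)) (q := U ⊔ K ∙ w₁)
    (fun h => hv (by simpa using (h ▸ Submodule.mem_top : v ∈ U.comap (g - μ • 1))))
    (ne_top_of_finrank (lt_of_le_of_lt (finrank_sup_singleton_le _ _) (by omega)))
  obtain ⟨ν, h8⟩ := mem_sup_singleton.1 (h3 w fun h => h7 (Submodule.mem_sup_left h))
  obtain ⟨ρ, h9⟩ := mem_sup_singleton.1 (h3 (w + w₁) fun h =>
    h7 (mem_sup_singleton.2 ⟨-1, by simpa using h⟩))
  have k1 : (ν - ρ) • w + (μ - ρ) • w₁ ∈ U := by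
    convert U.sub_mem (U.sub_mem h9 h8) h5 using 1
    rw [map_add]
    module
  have k2 : ν - ρ = 0 := eq_zero_of_smul_mem h7 (mem_sup_singleton.2 ⟨-(μ - ρ), by
    rwa [neg_smul, sub_neg_eq_add]⟩)
  rw [k2, zero_smul, zero_add] at k1
  have k3 := eq_zero_of_smul_mem h4 k1
  refine h6 ?_
  rw [show μ = ν by linear_combination k3 - k2]
  simpa using h8

theorem finrank_sup_map_le (W : Submodule K V) (x : End K V) :
    finrank K (W ⊔ W.map x : Submodule K V) ≤ 2 * finrank K W :=
  (Submodule.finrank_add_le_finrank_add_finrank _ _).trans (by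
    have := Submodule.finrank_map_le x W
    omega)

theorem sig_step {x : End K V} {W : Submodule K V} (h : ∀ a ∈ W, ∀ b ∈ W, a = x b → a = 0)
    (h1 : ∀ μ : K, ∃ v, x v - μ • v ∉ W ⊔ W.map x) (h2 : 2 * finrank K W + 2 ≤ finrank K V) :
    Sig x (finrank K W + 1) := by
  obtain ⟨w, h3, h4⟩ := exists_indep_mod h1 (by have := finrank_sup_map_le W x; omega)
  refine ⟨W ⊔ K ∙ w, finrank_sup_singleton fun h => h3 (Submodule.mem_sup_left h), ?_⟩
  intro a ha b hb hab
  obtain ⟨s, ha⟩ := mem_sup_singleton.1 ha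
  obtain ⟨t, hb⟩ := mem_sup_singleton.1 hb
  have k1 : x (b - t • w) ∈ W ⊔ W.map x := Submodule.mem_sup_right ⟨_, hb, rfl⟩
  have k2 : a - s • w ∈ W ⊔ W.map x := Submodule.mem_sup_left ha
  have ht : t = 0 := eq_zero_of_smul_mem h4 (mem_sup_singleton.2 ⟨s, by
    convert Submodule.sub_mem _ k2 k1 using 1
    rw [map_sub, map_smul, hab]
    abel⟩)
  rw [ht, zero_smul, sub_zero] at k1 hb
  have hs : s = 0 := eq_zero_of_smul_mem h3 (by
    convert Submodule.sub_mem _ k1 k2 using 1
    rw [hab]
    abel)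
  rw [hs, zero_smul, sub_zero] at ha
  exact h a ha b hb hab

theorem sig_of_rank {x : End K V} (hx : Function.Injective x) (j : ℕ)
    (h1 : ∀ μ : K, j ≤ finrank K (LinearMap.range (x - μ • 1))) (h2 : 2 * j ≤ finrank K V) :
    Sig x j := by
  induction j with
  | zero => exact ⟨⊥, by simp, fun a ha _ _ _ => ha⟩
  | succ j ih =>
    obtain ⟨W, rfl, hW⟩ := ih (fun μ => (Nat.le_succ _).trans (h1 μ)) (by omega)
    by_cases h3 : ∀ μ : K, ∃ v, x v - μ • v ∉ W ⊔ W.map x
    · exact sig_step hW h3 (by omega)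
    push Not at h3
    obtain ⟨μ, h3⟩ := h3
    set U := W ⊔ W.map x with hU
    have dU : finrank K U ≤ 2 * finrank K W := finrank_sup_map_le W x
    have key : ∀ v, ∃ b ∈ W, v - b ∈ W.comap (x - μ • 1) := fun v => by
      obtain ⟨a, ha, _, ⟨b, hb, rfl⟩, h4⟩ := Submodule.mem_sup.1 (h3 v)
      refine ⟨b, hb, ?_⟩
      have : (x - μ • (1 : End K V)) (v - b) = a + μ • b := by
        simp only [LinearMap.sub_apply, LinearMap.smul_apply, End.one_apply, map_sub]
        linear_combination (norm := module) -h4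
      rw [Submodule.mem_comap, this]
      exact W.add_mem ha (W.smul_mem _ hb)
    obtain ⟨c, c1, c2, c3⟩ := avoid2_in (X := W.comap (x - μ • 1)) (p := U)
      (q := LinearMap.ker (x - μ • 1)) (fun h => ne_top_of_finrank (U := U) (by omega)
        (Submodule.eq_top_iff'.2 fun v => by
          obtain ⟨b, hb, h4⟩ := key v
          simpa using U.add_mem (h h4) (Submodule.mem_sup_left hb))) (fun h => by
        have : LinearMap.range (x - μ • 1) ≤ W.map (x - μ • 1) := by
          rintro _ ⟨v, rfl⟩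
          obtain ⟨b, hb, h4⟩ := key v
          have := h h4
          rw [LinearMap.mem_ker, map_sub, sub_eq_zero] at this
          exact ⟨b, hb, this.symm⟩
        have h5 := (Submodule.finrank_mono this).trans (Submodule.finrank_map_le _ _)
        have := h1 μ
        omega)
    set w := x c - μ • c with hw
    have w1 : w ∈ W := c1
    obtain ⟨φ, hφ⟩ := exists_dual_one (K := K) (show w ≠ 0 from c3)
    have xc : x c = w + μ • c := by rw [hw]; abel
    have lin : ∀ a ∈ W, ∀ b ∈ W, ∀ t : K, a + t • c = x b → a = 0 ∧ t = 0 ∧ b = 0 := by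
      intro a ha b hb t h
      have ht : t = 0 := eq_zero_of_smul_mem c2 (by
        rw [eq_sub_of_add_eq' h]
        exact U.sub_mem (Submodule.mem_sup_right ⟨b, hb, rfl⟩) (Submodule.mem_sup_left ha))
      rw [ht, zero_smul, add_zero] at h
      have := hW a ha b hb h
      exact ⟨this, ht, hx (by rw [← h, this, map_zero])⟩
    set W' := W.map (LinearMap.transvection φ c) with hW'
    have dW : finrank K W' = finrank K W := finrank_map_of_inj fun v hv h =>
      (lin v hv 0 W.zero_mem (φ v) (by rw [map_zero]; exact h)).1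
    rw [← dW]
    refine sig_step ?_ (fun ν => ?_) (by omega)
    · rintro _ ⟨a, ha, rfl⟩ _ ⟨b, hb, rfl⟩ h
      simp only [LinearMap.transvection.apply, map_add, map_smul, xc] at h ⊢
      obtain ⟨-, -, rfl⟩ := lin (a - φ b • w) (W.sub_mem ha (W.smul_mem _ w1)) b hb
        (φ a - φ b * μ) (by linear_combination (norm := module) h)
      simpa using h
    by_contra! h4
    by_cases h5 : ν = μ
    · obtain ⟨_, ⟨a, ha, rfl⟩, _, ⟨_, ⟨b, hb, rfl⟩, rfl⟩, h⟩ := Submodule.mem_sup.1 (h4 c)
      rw [h5, ← hw] at h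
      simp only [LinearMap.transvection.apply, map_add, map_smul, xc] at h
      obtain ⟨k1, k2, rfl⟩ := lin (w - a - φ b • w) (W.sub_mem (W.sub_mem w1 ha) (W.smul_mem _ w1))
        b hb (-(φ a + φ b * μ)) (by linear_combination (norm := module) -h)
      have k3 : a = w := (sub_eq_zero.1 (by simpa using k1)).symm
      simp [k3, hφ] at k2
    · have k1 : W' ⊔ W'.map x ≤ U ⊔ K ∙ c := by
        refine sup_le ?_ ?_
        · rintro _ ⟨a, ha, rfl⟩
          exact mem_sup_singleton.2 ⟨φ a, by
            simpa [LinearMap.transvection.apply] using Submodule.mem_sup_left ha⟩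
        · rintro _ ⟨_, ⟨b, hb, rfl⟩, rfl⟩
          refine mem_sup_singleton.2 ⟨φ b * μ, ?_⟩
          rw [show x (LinearMap.transvection φ c b) - (φ b * μ) • c = φ b • w + x b by
            simp only [LinearMap.transvection.apply, map_add, map_smul, xc]; module]
          exact Submodule.add_mem_sup (W.smul_mem _ w1) ⟨b, hb, rfl⟩
      refine ne_top_of_finrank (U := U ⊔ K ∙ c)
        (lt_of_le_of_lt (finrank_sup_singleton_le _ _) (by omega))
        (Submodule.eq_top_iff'.2 fun v => ((U ⊔ K ∙ c).smul_mem_iff (sub_ne_zero.2 h5)).1 ?_)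
      convert Submodule.sub_mem _ (Submodule.mem_sup_left (h3 v)) (k1 (h4 v)) using 1
      module

end H64.Lev
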