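import Mathlib
import Cfsg.Agent.Lib.Lev.Sig
import Cfsg.Agent.Lib.Lev.Cov

/-! Elements moving a flag to an opposite flag, and cyclic products of two of them. -/

set_option autoImplicit false
open Module

namespace H64.Lev
open H64.Sour
variable {K : Type*} [Field K]
variable {V : Type*} [AddCommGroup V] [Module K V]

theorem Fl_cons (e : ℕ → V) (i : ℕ) :
    Fl K e (i + 1) = (K ∙ e 0) ⊔ Fl K (fun k => e (k + 1)) i := by
  refine le_antisymm (Fl_le.2 fun j hj => ?_) (sup_le ((Submodule.span_singleton_le_iff_mem _ _).2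
    (mem_Fl e (by omega))) (Fl_le.2 fun j hj => mem_Fl e (by omega)))
  rcases j with _ | j
  · exact Submodule.mem_sup_left (Submodule.mem_span_singleton_self _)
  · exact Submodule.mem_sup_right (mem_Fl (fun k => e (k + 1)) (by omega))

theorem Fl_rev {e e' : ℕ → V} {n : ℕ} (h : ∀ k < n, e' k = e (n - 1 - k)) :
    Fl K e' n = Fl K e n :=
  le_antisymm (Fl_le.2 fun i hi => h i hi ▸ mem_Fl e (by omega)) (Fl_le.2 fun i hi => by
    have := mem_Fl (K := K) e' (show n - 1 - i < n by omega)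
    rwa [h _ (by omega), show n - 1 - (n - 1 - i) = i by omega] at this)

theorem sup_map_eq {Z : Submodule K V} {f g : End K V} {y : V} (h : ∀ v, f v - g v ∈ K ∙ y) :
    (K ∙ y) ⊔ Z.map f ≤ (K ∙ y) ⊔ Z.map g := by
  refine sup_le le_sup_left ?_
  rintro _ ⟨v, hv, rfl⟩
  rw [← sub_add_cancel (f v) (g v)]
  exact Submodule.add_mem_sup (h v) ⟨v, hv, rfl⟩

/-- `x` moves a flag of `Y` to an opposite one -/
def AT (x : End K V) (Y : Submodule K V) (n : ℕ) : Prop :=
  ∃ e e' : ℕ → V, (∀ k < n, e' k = e (n - 1 - k)) ∧ Fl K e n = Y ∧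
    ∀ i ≤ n, (Fl K e i).map x = Fl K e' i

variable [FiniteDimensional K V]

theorem at_of_sig (n : ℕ) : ∀ (Y : Submodule K V) (x : End K V), finrank K Y = n →
    (∀ v ∈ Y, x v ∈ Y) → (∀ v ∈ Y, x v = 0 → v = 0) →
    (∃ W ≤ Y, finrank K W = n / 2 ∧ ∀ a ∈ W, ∀ b ∈ W, a = x b → a = 0) → AT x Y n := by
  induction n using Nat.twoStepInduction with
  | zero =>
    intro Y x hY _ _ _
    refine ⟨0, 0, fun _ _ => rfl, by rw [Fl_zero, Submodule.finrank_eq_zero.1 hY], fun i hi => ?_⟩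
    rw [Nat.le_zero.1 hi, Fl_zero, Submodule.map_bot]
  | one =>
    intro Y x hY h1 h2 _
    obtain ⟨y, hy, hy0⟩ := Submodule.exists_mem_ne_zero_of_ne_bot (p := Y)
      (fun h => by rw [h, finrank_bot] at hY; omega)
    have h3 : Fl K (fun _ => y) 1 = Y := Fl_eq (indep_of_notMem (e := fun _ => y) fun i hi => by
      rw [show i = 0 by omega, Fl_zero]; exact hy0) (fun _ _ => hy) hY
    refine ⟨fun _ => y, fun _ => y, fun _ _ => rfl, h3, fun i hi => ?_⟩
    rcases Nat.le_one_iff_eq_zero_or_eq_one.1 hi with rfl | rfl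
    · rw [Fl_zero, Submodule.map_bot]
    · rw [h3, surj_on h1 h2]
  | more m ih _ =>
    rintro Y x hY h1 h2 ⟨W, hWY, dW, hW⟩
    obtain ⟨w, hw, hw0⟩ := Submodule.exists_mem_ne_zero_of_ne_bot (p := W)
      (fun h => by rw [h, finrank_bot] at dW; omega)
    have n1 : w ∉ W.map x := fun ⟨b, hb, h⟩ => hw0 (hW w hw b hb h.symm)
    have n2 : x (x w) ∉ W.map x := fun ⟨b, hb, h⟩ => by
      have h3 := h2 (b - x w) (Y.sub_mem (hWY hb) (h1 _ (hWY hw))) (by rw [map_sub, h, sub_self])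
      rw [sub_eq_zero] at h3
      exact hw0 (h2 w (hWY hw) (h3 ▸ hW b hb w hw h3))
    obtain ⟨φ, p1, p2, p3⟩ : ∃ φ : Dual K V, (∀ v ∈ W, φ (x v) = 0) ∧ φ w ≠ 0 ∧ φ (x (x w)) ≠ 0 := by
      obtain ⟨φ₁, a1, a2⟩ := exists_dual_notMem n1
      obtain ⟨φ₂, b1, b2⟩ := exists_dual_notMem n2
      obtain ⟨φ, c1, c2, c3⟩ := avoid2_in (X := (W.map x).dualAnnihilator)
        (p := LinearMap.ker (Dual.eval K V w)) (q := LinearMap.ker (Dual.eval K V (x (x w))))
        (fun h => by simpa [a1] using h ((Submodule.mem_dualAnnihilator φ₁).2 a2))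
        (fun h => by simpa [b1] using h ((Submodule.mem_dualAnnihilator φ₂).2 b2))
      exact ⟨φ, fun v hv => (Submodule.mem_dualAnnihilator φ).1 c1 _ ⟨v, hv, rfl⟩, c2, c3⟩
    set Y₀ := (Y ⊓ LinearMap.ker φ) ⊓ LinearMap.ker (φ ∘ₗ x) with hY₀
    have d1 := finrank_inf_ker (hWY hw) p2
    have d2 := finrank_inf_ker (X := Y ⊓ LinearMap.ker φ) (φ := φ ∘ₗ x) (a := x w)
      ⟨h1 _ (hWY hw), p1 w hw⟩ p3
    have d3 := finrank_inf_ker hw p2
    rw [← hY₀] at d2
    set x₀ : End K V := x - ((φ (x (x w)))⁻¹ • (φ ∘ₗ x ∘ₗ x)).smulRight (x w) with hx₀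
    have ex : ∀ v, x₀ v = x v - ((φ (x (x w)))⁻¹ * φ (x (x v))) • x w := fun v => rfl
    have mY : ∀ v, v ∈ Y₀ ↔ (v ∈ Y ∧ φ v = 0) ∧ φ (x v) = 0 := fun v => Iff.rfl
    obtain ⟨e, e', q1, q2, q3⟩ := ih Y₀ x₀ (by omega)
      (fun v hv => (mY _).2 ⟨⟨Y.sub_mem (h1 v hv.1.1) (Y.smul_mem _ (h1 _ (hWY hw))), by
        simp [ex, p1 w hw, ((mY v).1 hv).2]⟩, by simp [ex, mul_assoc, mul_comm, p3]⟩)
      (fun v hv h => by
        rw [ex, ← map_smul, ← map_sub] at h
        have h3 := sub_eq_zero.1 (h2 _ (Y.sub_mem hv.1.1 (Y.smul_mem _ (hWY hw))) h)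
        have h4 := congrArg φ h3
        rw [((mY v).1 hv).1.2, map_smul, smul_eq_mul, eq_comm, mul_eq_zero] at h4
        rw [h3, h4.resolve_right p2, zero_smul])
      ⟨W ⊓ LinearMap.ker φ, fun v hv => ⟨⟨hWY hv.1, hv.2⟩, p1 v hv.1⟩, by omega,
        fun a ha b hb h => hW a ha.1 _ (W.sub_mem hb.1 (W.smul_mem _ hw)) (h.trans (by
          rw [ex, map_sub, map_smul]))⟩
    set E : ℕ → V := fun k => if k = 0 then w else if k = m + 1 then x w else e (k - 1) with hE
    set E' : ℕ → V := fun k => if k = 0 then x w else if k = m + 1 then w else e' (k - 1) with hE'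
    have r1 : ∀ k < m + 2, E' k = E (m + 2 - 1 - k) := fun k hk => by
      simp only [hE, hE']
      split_ifs <;> first | rfl | omega | skip
      rw [q1 _ (by omega)]
      congr 1
      omega
    have r2 : ∀ i ≤ m, Fl K E (i + 1) = (K ∙ w) ⊔ Fl K e i := fun i hi => by
      rw [Fl_cons, Fl_congr (f := e) fun k hk => by simp [hE, show k ≠ m by omega]]
      rfl
    have r3 : ∀ i ≤ m, Fl K E' (i + 1) = (K ∙ x w) ⊔ Fl K e' i := fun i hi => by
      rw [Fl_cons, Fl_congr (f := e') fun k hk => by simp [hE', show k ≠ m by omega]]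
      rfl
    have r4 : Fl K E (m + 2) = Y := by
      rw [Fl_succ, r2 m le_rfl, q2, show E (m + 1) = x w by simp [hE]]
      refine le_antisymm (sup_le (sup_le ((Submodule.span_singleton_le_iff_mem _ _).2 (hWY hw))
        fun v hv => hv.1.1) ((Submodule.span_singleton_le_iff_mem _ _).2 (h1 _ (hWY hw))))
        fun v hv => mem_sup_singleton.2 ⟨φ (x v) / φ (x (x w)), ?_⟩
      rw [sup_comm]
      refine mem_sup_singleton.2 ⟨φ v / φ w, (mY _).2 ⟨⟨Y.sub_mem (Y.sub_mem hv
        (Y.smul_mem _ (h1 _ (hWY hw)))) (Y.smul_mem _ (hWY hw)), by simp [p1 w hw, p2]⟩, by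
          simp [p1 w hw, p3]⟩⟩
    refine ⟨E, E', r1, r4, fun i hi => ?_⟩
    rcases i with _ | i
    · rw [Fl_zero, Fl_zero, Submodule.map_bot]
    rcases Nat.lt_or_eq_of_le hi with h | h
    · rw [r2 i (by omega), r3 i (by omega), ← q3 i (by omega), Submodule.map_sup,
        Submodule.map_span, Set.image_singleton]
      exact le_antisymm (sup_map_eq fun v => by
        rw [ex, sub_sub_cancel]
        exact Submodule.smul_mem _ _ (Submodule.mem_span_singleton_self _)) (sup_map_eq fun v => by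
        rw [ex, sub_sub_cancel_left]
        exact Submodule.neg_mem _ (Submodule.smul_mem _ _ (Submodule.mem_span_singleton_self _)))
    · rw [h, Fl_rev r1, r4, surj_on h1 h2]

theorem big {x y : End K V} {m : ℕ} (hn : finrank K V = m + 1) (hx : AT x ⊤ (m + 1))
    (hy : AT y ⊤ (m + 1)) (dx : LinearMap.det x ≠ 0) : ∃ y', SC y y' ∧ ∃ w, Cyc (x * y') w := by
  obtain ⟨e, e', e1, e2, e3⟩ := hx
  obtain ⟨f, f', f1, f2, f3⟩ := hy
  have e4 : Fl K e' (m + 1) = ⊤ := (Fl_rev e1).trans e2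
  let b : Basis (Fin (m + 1)) K V := basisOfTopLeSpanOfCardEqFinrank (fun i => f i) f2.ge
    (by simp [hn])
  have hb : ∀ i, b i = f i := fun i => congrFun (coe_basisOfTopLeSpanOfCardEqFinrank _ _ _) i
  set g : K → ℕ → V := fun d j => if j = 0 then d • e' 0 else e' j + e' (j - 1) with hg
  have h1 : ∀ d, ∀ j < m + 1, b.constr K (fun i => g d i) (f j) = g d j := fun d j hj => by
    have := hb ⟨j, hj⟩
    rw [← this, b.constr_basis]
  have h2 : LinearMap.det (b.constr K fun i => g 1 i) ≠ 0 := by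
    refine det_of_inj (LinearMap.injective_iff_surjective.2 (LinearMap.range_eq_top.1
      (top_le_iff.1 (e4.ge.trans (Fl_le.2 fun j => ?_)))))
    induction j with
    | zero => exact fun h => ⟨f 0, by rw [h1 1 0 h]; simp [hg]⟩
    | succ j ih =>
      intro h
      have : g 1 (j + 1) ∈ LinearMap.range (b.constr K fun i => g 1 i) := ⟨_, h1 1 _ h⟩
      simpa [hg] using Submodule.sub_mem _ this (ih (by omega))
  set d := (LinearMap.det (b.constr K fun i => g 1 i))⁻¹ with hd
  have h3 : LinearMap.det (b.constr K fun i => g d i) = 1 := by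
    have : (fun i : Fin (m + 1) => g d i) =
        Function.update (fun i : Fin (m + 1) => g 1 i) 0 (d • g 1 (0 : Fin (m + 1))) := by
      ext i
      refine Fin.cases ?_ (fun i => ?_) i
      · simp [hg]
      · simp [hg]
    rw [det_constr, this, AlternatingMap.map_update_smul, Function.update_eq_self, ← det_constr,
      smul_eq_mul, inv_mul_cancel₀ h2]
  set h := eqv _ (h3 ▸ one_ne_zero : LinearMap.det (b.constr K fun i => g d i) ≠ 0) with hh
  have h4 : ∀ j < m + 1, h (f j) = g d j := fun j hj => by rw [hh, eqv_apply, h1 d j hj]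
  refine ⟨cj h y, ⟨h, by rw [hh, coe_eqv, h3], fun v => (cj_apply h y v).symm⟩, e' 0,
    fun p p1 p2 => top_le_iff.1 (e4.ge.trans ?_)⟩
  have key : ∀ i ≤ m, Fl K e' (i + 1) ≤ p := by
    intro i
    induction i with
    | zero => exact fun _ => Fl_le.2 fun j hj => by rwa [show j = 0 by omega]
    | succ i ih =>
      intro hi
      have k1 := ih (by omega)
      obtain ⟨u, k2, k3⟩ := (f3 (i + 1) (by omega)).ge (mem_Fl f' (Nat.lt_succ_self i))
      have k4 : Fl K f (i + 1) ≤ p.comap (h : End K V) := Fl_le.2 fun j hj => k1 (by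
        rw [LinearEquiv.coe_coe, h4 j (by omega), hg]
        dsimp only
        split_ifs
        · exact Submodule.smul_mem _ _ (mem_Fl e' (by omega))
        · exact Submodule.add_mem _ (mem_Fl e' hj) (mem_Fl e' (by omega)))
      have k5 := p2 _ (k4 k2)
      rw [End.mul_apply, LinearEquiv.coe_coe, cj_apply, k3, f1 i (by omega), h4 _ (by omega), hg]
        at k5
      dsimp only at k5
      rw [if_neg (by omega), e1 _ (by omega), e1 _ (by omega),
        show m + 1 - 1 - (m + 1 - 1 - i) = i by omega,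
        show m + 1 - 1 - (m + 1 - 1 - i - 1) = i + 1 by omega, map_add] at k5
      have k6 : (Fl K e (i + 1)).map x ≤ p := (e3 _ (by omega)).le.trans k1
      rw [← e3 _ (by omega), Fl_succ, Submodule.map_sup, Submodule.map_span, Set.image_singleton]
      exact sup_le k6 ((Submodule.span_singleton_le_iff_mem _ _).2 (by
        simpa using p.sub_mem k5 (k6 ⟨_, mem_Fl e (Nat.lt_succ_self i), rfl⟩)))
  exact key m le_rfl

theorem cy_two {x : End K V} (hn : 1 ≤ finrank K V) (dx : LinearMap.det x ≠ 0)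
    (h : ∀ μ : K, finrank K V / 2 ≤ finrank K (LinearMap.range (x - μ • 1))) : Cy x 2 := by
  obtain ⟨m, hm⟩ : ∃ m, finrank K V = m + 1 := ⟨finrank K V - 1, by omega⟩
  obtain ⟨W, h1, h2⟩ := sig_of_rank (inj_of_det dx) _ h (by omega)
  have h3 := at_of_sig (m + 1) ⊤ x (by rw [finrank_top, hm]) (fun _ _ => trivial)
    (fun v _ hv => inj_of_det dx (by simpa using hv)) ⟨W, le_top, by rw [h1, hm], h2⟩
  obtain ⟨y, h4, h5⟩ := big hm h3 h3 dx
  exact ⟨_, mul_mem_pow (mem_pow_one (SC.refl x)) (mem_pow_one h4), h5⟩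

end H64.Lev
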