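import Mathlib
import Cfsg.Agent.Lib.Lev.Cov

/-! The identity is a product of `n` conjugates; direct sums with trivial summands. -/

set_option autoImplicit false
open Module Polynomial
open scoped Pointwise

namespace H64.Lev
open H64.Sour
variable {K : Type*} [Field K]
variable {V W : Type*} [AddCommGroup V] [Module K V] [AddCommGroup W] [Module K W]

theorem coe_equiv_pow (A : V ≃ₗ[K] V) (k : ℕ) :
    ((A ^ k : V ≃ₗ[K] V) : End K V) = (A : End K V) ^ k := by
  induction k with
  | zero => rfl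
  | succ k ih => rw [pow_succ, pow_succ, ← ih]; rfl

theorem pow_mul_eq {x : End K V} (A : V ≃ₗ[K] V) (h : ∀ k : ℕ, SC x (cj (A ^ k) x)) (k : ℕ) :
    ∃ P ∈ cls x ^ k, (x * (A : End K V)) ^ k = P * (A : End K V) ^ k := by
  induction k with
  | zero => exact ⟨1, by simp, by simp⟩
  | succ k ih =>
    obtain ⟨P, h1, h2⟩ := ih
    refine ⟨_, mul_mem_pow h1 (mem_pow_one (h k)), ?_⟩
    rw [pow_succ, h2, pow_succ]
    refine LinearMap.ext fun v => ?_
    have := cj_apply (A ^ k) x (A v)
    simp only [End.mul_apply, LinearEquiv.coe_coe, ← coe_equiv_pow] at this ⊢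
    rw [this]

variable [FiniteDimensional K V] [FiniteDimensional K W]

theorem one_mem_trick (hn : 3 ≤ finrank K V) {x : End K V} (hx : NS x) (dx : LinearMap.det x = 1)
    (h : Odd (finrank K V) ∨ Full x) : 1 ∈ cls x ^ finrank K V := by
  obtain ⟨m, hm⟩ : ∃ m, finrank K V = m + 1 := ⟨finrank K V - 1, by omega⟩
  obtain ⟨A, a, a1, a2⟩ := exists_cyc (V := V) (monic_X_pow_sub_C (1 : K) (n := m + 1) (by omega))
    (by rw [natDegree_X_pow_sub_C, hm])
  have a3 : A ^ (m + 1) = 1 := by
    have := A.aeval_self_charpoly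
    simpa [a2, sub_eq_zero] using this
  have a4 : LinearMap.det A = (-1) ^ m := by
    rw [LinearMap.det_eq_sign_charpoly_coeff, a2, hm, coeff_zero_eq_eval_zero]
    simp [pow_succ]
  have hΦ := monic_geom_sum_X (R := K) (n := m + 1) (by omega)
  have hΦ2 : (∑ i ∈ Finset.range (m + 1), (X : K[X]) ^ i).natDegree = m := by
    have := congrArg natDegree (geom_sum_mul (X : K[X]) (m + 1))
    rw [← C_1, hΦ.natDegree_mul (monic_X_sub_C 1), natDegree_X_sub_C, natDegree_X_pow_sub_C] at this
    omega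
  obtain ⟨B, w, b1, b2⟩ := exists_cyc (V := Fin m → K) hΦ (by simp [hΦ2])
  have b3 : ∑ i ∈ Finset.range (m + 1), B ^ i = 0 := by
    have := B.aeval_self_charpoly
    simpa [b2] using this
  have b4 : LinearMap.det B = (-1) ^ m := by
    rw [LinearMap.det_eq_sign_charpoly_coeff, b2, coeff_zero_eq_eval_zero]
    simp [eval_finset_sum, Finset.sum_range_succ']
  have hB : HC (blk B 0 0 (1 : End K K)) (LinearMap.snd K _ K) (w, 0) 1 :=
    ⟨fun h => by simpa using LinearMap.congr_fun h (0, 1), fun v => by simp, rfl,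
      fun p k1 k2 v hv => by
        have := b1 (p.comap (LinearMap.inl K _ K)) k1 fun v hv => by simpa using k2 _ hv
        have k3 : v.1 ∈ p.comap (LinearMap.inl K _ K) := this ▸ Submodule.mem_top
        rwa [show v = (v.1, 0) from Prod.ext rfl hv]⟩
  have dA : LinearMap.det A ≠ 0 := by simp [a4]
  obtain ⟨A', h1, k, h2, h3⟩ := T0 hn (by simp [hm]) hx (by simp [dx]) a1 dA hB (by
    rw [det_blk_upper, b4, a4, dx, map_one, one_mul, mul_one])
  have c1 : ∀ (i : ℕ) (u : Fin m → K), ((x * A') ^ i) (k (u, 0)) = k ((B ^ i) u, 0) := by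
    intro i u
    induction i with
    | zero => rfl
    | succ i ih => rw [pow_succ_apply, ih, End.mul_apply, h2 _ rfl, pow_succ_apply]; simp
  have c2 : (x * A') ^ (m + 1) = 1 := by
    rw [← sub_eq_zero, ← geom_sum_mul]
    refine LinearMap.ext fun v => ?_
    obtain ⟨v, rfl⟩ := k.surjective v
    obtain ⟨u, hu⟩ : ∃ u, (x * A' - 1) (k v) = k (u, 0) := by
      refine ⟨(k.symm ((x * A' - 1) (k v))).1, k.symm_apply_eq.1 (Prod.ext rfl ?_)⟩
      have := h3 v
      simp only [LinearMap.snd_apply] at this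
      simp [this]
    have := LinearMap.congr_fun b3 u
    rw [End.mul_apply, hu, LinearMap.sum_apply, Finset.sum_congr rfl fun i _ => c1 i u, ← map_sum,
      ← prod_mk_sum, ← LinearMap.sum_apply, this]
    simp
  have c3 : A' ^ (m + 1) = 1 := (h1.similar.pow _).eq_one_iff.1 a3
  have c4 : LinearMap.det A' = (-1) ^ m := h1.similar.det_eq ▸ a4
  have dA' : LinearMap.det A' ≠ 0 := by simp [c4]
  obtain ⟨P, p1, p2⟩ := pow_mul_eq (x := x) (eqv A' dA') (fun k => by
    rcases h with h | h
    · refine ⟨eqv A' dA' ^ k, ?_, fun v => (cj_apply _ _ v).symm⟩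
      have : Even m := by rwa [hm, Nat.odd_add_one, Nat.not_odd_iff_even] at h
      rw [coe_equiv_pow, map_pow, coe_eqv, c4, this.neg_one_pow, one_pow]
    · exact h.sc (similar_cj _ _)) (m + 1)
  rw [coe_eqv, c2, c3, mul_one] at p2
  rwa [hm, p2]

variable (W) in
/-- direct sum with the identity -/
def ds : End K V →* End K (V × W) where
  toFun P := P.prodMap 1
  map_one' := LinearMap.ext fun _ => rfl
  map_mul' _ _ := LinearMap.ext fun _ => rfl

omit [FiniteDimensional K V] [FiniteDimensional K W] in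
@[simp] theorem ds_apply (P : End K V) (v : V × W) : ds W P v = (P v.1, v.2) := rfl

theorem det_ds (P : End K V) : LinearMap.det (ds W P) = LinearMap.det P := by
  rw [show ds W P = P.prodMap 1 from rfl, LinearMap.det_prodMap, map_one, mul_one]

theorem ds_mem_pow {x P : End K V} {k : ℕ} (h : P ∈ cls x ^ k) : ds W P ∈ cls (ds W x) ^ k :=
  map_mem_pow (ds W) (fun s hs => by
    obtain ⟨e, h1, h2⟩ := hs
    exact ⟨e.prodCongr (LinearEquiv.refl K W),
      (det_ds (W := W) (e : End K V)).trans h1, fun v => by simp [h2]⟩) k P h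

theorem full_ds (x : End K V) : Full (ds K x) :=
  full_of_eig (e := (0, 1)) (ψ := LinearMap.snd K V K) (l := 1) rfl (by simp) (by simp)

theorem Cy.drop (hK : Big K) (hn : 3 ≤ finrank K V) {x : End K V} (hx : NS x)
    (dx : LinearMap.det x ≠ 0) {k : ℕ} (h : Cy x k) : CSk (ds K x) (k + 1) := by
  obtain ⟨B, h1, h2, h3⟩ := exists_CS hK hn (pow_ne_zero (k + 1) dx) 1
  obtain ⟨w, h4⟩ := h1.cyc
  exact ⟨_, ds_mem_pow (h.cs_mem hn hx dx h1 h2), cs_of (LinearMap.inl K _ K) (fun v => by simp)
    (θ := LinearMap.snd K _ K) (fun h => by simpa using LinearMap.congr_fun h (0, 1))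
    (fun v => ⟨fun h => ⟨v.1, Prod.ext rfl h.symm⟩, by rintro ⟨u, rfl⟩; rfl⟩) (μ := 1)
    (fun v => by simp) h4 h3 LinearMap.inl_injective⟩

/-- splitting off a fixed vector -/
theorem exists_ds {x : End K V} {e : V} {ψ : Dual K V} (h1 : ψ e = 1) (h2 : x e = e)
    (h3 : ∀ v, ψ (x v) = ψ v) : ∃ y : End K (LinearMap.ker ψ), H65.Similar (ds K y) x ∧
      ∀ v, (y v : V) = x v := by
  refine ⟨x.restrict (p := LinearMap.ker ψ) fun v hv => by simpa [h3] using hv,
    ⟨(LinearEquiv.prodComm K _ _).trans (split e ψ h1).symm, fun v => ?_⟩, fun v => rfl⟩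
  simp [split_symm_apply, h2]

end H64.Lev
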