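import Mathlib
import Cfsg.Agent.Lib.Lev.Big
import Cfsg.Agent.Lib.Lev.Trick

/-! Elements with a large eigenspace. -/

set_option autoImplicit false
open Module

namespace H64.Lev
open H64.Sour
universe u
variable {K : Type*} [Field K]
variable {V W : Type*} [AddCommGroup V] [Module K V] [AddCommGroup W] [Module K W]

/-- rank of `x - μ` -/
noncomputable def rk (x : End K V) (μ : K) : ℕ := finrank K (LinearMap.range (x - μ • 1))

theorem rk_similar {x : End K V} {y : End K W} (h : H65.Similar x y) (μ : K) : rk x μ = rk y μ := by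
  have := (h.add_smul_one (-μ)).finrank_range
  rwa [neg_smul, neg_smul, ← sub_eq_add_neg, ← sub_eq_add_neg] at this

theorem rk_smul (x : End K V) (μ : K) {c : K} (hc : c ≠ 0) : rk (c • x) (c * μ) = rk x μ := by
  rw [rk, mul_smul, ← smul_sub, LinearMap.range_smul _ _ hc, rk]

theorem rk_ds (x : End K V) : rk (ds W x) 1 = rk x 1 := by
  have : LinearMap.range (ds W x - (1 : K) • 1) =
      (LinearMap.range (x - (1 : K) • 1)).map (LinearMap.inl K V W) := by
    ext z
    constructor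
    · rintro ⟨v, rfl⟩
      exact ⟨_, ⟨v.1, rfl⟩, by ext <;> simp⟩
    · rintro ⟨_, ⟨v, rfl⟩, rfl⟩
      exact ⟨(v, 0), by ext <;> simp⟩
  rw [rk, this, rk]
  exact (Submodule.equivMapOfInjective _ LinearMap.inl_injective _).finrank_eq.symm

variable [FiniteDimensional K V] [FiniteDimensional K W]

theorem rk_add_ker (x : End K V) (μ : K) :
    rk x μ + finrank K (LinearMap.ker (x - μ • 1)) = finrank K V :=
  LinearMap.finrank_range_add_finrank_ker _

theorem le_rk_add {x : End K V} {μ ν : K} (h : μ ≠ ν) : finrank K V ≤ rk x μ + rk x ν := by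
  have h1 : LinearMap.ker (x - μ • 1) ≤ LinearMap.range (x - ν • 1) := fun v hv => by
    have h2 : x v = μ • v := by simpa [sub_eq_zero] using hv
    refine ⟨(μ - ν)⁻¹ • v, ?_⟩
    simp only [LinearMap.sub_apply, LinearMap.smul_apply, End.one_apply, map_smul, h2, ← sub_smul,
      smul_smul, inv_mul_cancel₀ (sub_ne_zero.2 h), one_smul]
  have := Submodule.finrank_mono h1
  have := rk_add_ker x μ
  rw [rk, rk] at *
  omega

theorem ns_iff {x : End K V} : NS x ↔ ∀ μ, 1 ≤ rk x μ := by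
  refine forall_congr' fun μ => ?_
  rw [rk, Nat.one_le_iff_ne_zero, ne_eq, Submodule.finrank_eq_zero, LinearMap.range_eq_bot,
    sub_eq_zero, LinearMap.ext_iff]
  simp

theorem ns_of_rk {x : End K V} {ν : K} (h1 : 1 ≤ rk x ν) (h2 : rk x ν < finrank K V) : NS x :=
  ns_iff.2 fun μ => by
    by_cases h : μ = ν
    · rwa [h]
    · have := le_rk_add (x := x) h
      omega

theorem exists_split {x : End K V} {μ : K} (h : 2 * rk x μ < finrank K V) :
    ∃ (e : V) (ψ : Dual K V), ψ e = 1 ∧ x e = μ • e ∧ ∀ v, ψ (x v) = μ * ψ v := by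
  obtain ⟨e, h1, h2⟩ := SetLike.not_le_iff_exists.1 (not_le_of_finrank
    (X := LinearMap.ker (x - μ • 1)) (Y := LinearMap.range (x - μ • 1)) (by
      have := rk_add_ker x μ
      rw [rk] at *
      omega))
  obtain ⟨ψ, h3, h4⟩ := exists_dual_notMem h2
  exact ⟨e, ψ, h3, by simpa [sub_eq_zero] using h1, fun v => by
    simpa [sub_eq_zero] using h4 _ ⟨v, rfl⟩⟩

theorem full_of_rk {x : End K V} {μ : K} (h : 2 * rk x μ < finrank K V) : Full x := by
  obtain ⟨e, ψ, h1, h2, h3⟩ := exists_split h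
  exact full_of_eig h1 h2 h3

theorem Cyc.le_rk {P : End K V} {w : V} (h : Cyc P w) (μ : K) : finrank K V ≤ rk P μ + 1 := by
  have := h (LinearMap.range (P - μ • 1) ⊔ K ∙ w)
    (Submodule.mem_sup_right (Submodule.mem_span_singleton_self w)) fun v hv => by
      rw [show P v = μ • v + (P - μ • (1 : End K V)) v by simp]
      exact Submodule.add_mem _ (Submodule.smul_mem _ _ hv) (Submodule.mem_sup_left ⟨v, rfl⟩)
  rw [← finrank_top, ← this]
  exact finrank_sup_singleton_le _ _

theorem Cyc.map_comm {B : End K V} {w : V} (h : Cyc B w) {c : End K V} (hc : ∀ v, c (B v) = B (c v))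
    (h2 : Function.Injective c) : Cyc B (c w) := by
  have := (Cyc.gen h).map_comm hc
  rw [Submodule.map_top, LinearMap.range_eq_top.2 (LinearMap.injective_iff_surjective.1 h2)] at this
  exact this.cyc

theorem range_le_of_cyc {Q : End K V} {B : End K W} {ι : W →ₗ[K] V} (hι : ∀ v, Q (ι v) = ι (B v))
    {w : W} (h : Cyc B w) {p : Submodule K V} (h1 : ι w ∈ p) (h2 : ∀ v ∈ p, Q v ∈ p) (v : W) :
    ι v ∈ p := by
  have := h (p.comap ι) h1 fun v hv => by rw [Submodule.mem_comap, ← hι]; exact h2 _ hv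
  exact (this ▸ Submodule.mem_top : v ∈ p.comap ι)

theorem Cy.glue (hK : Big K) (hn : 3 ≤ finrank K V) {x : End K V} (hx : NS x)
    (dx : LinearMap.det x ≠ 0) (hr : 2 ≤ rk x 1) {k : ℕ} (h : Cy x k) :
    Cy (ds K (ds K x)) (1 + k) := by
  obtain ⟨B₀, b1, b2, b3⟩ := exists_CS hK hn (pow_ne_zero (k + 1) dx) 1
  obtain ⟨P₀, h1, w₀, h2⟩ := h
  have h3 := det_of_mem_pow h1
  obtain ⟨P, h4, h5⟩ := T2 hn hx dx h2 (h3 ▸ pow_ne_zero _ dx) b1 (by rw [b2, h3, pow_succ'])
  obtain ⟨w, h6⟩ := (b1.of_similar h5.similar).cyc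
  have h7 : Function.Injective (x * P - 1 : End K V) := by
    obtain ⟨e, -, he⟩ := h5
    rw [injective_iff_map_eq_zero]
    intro v hv
    obtain ⟨v, rfl⟩ := e.surjective v
    rw [LinearMap.sub_apply, ← he, End.one_apply, sub_eq_zero, e.injective.eq_iff] at hv
    rw [b3 v (by simpa using hv), map_zero]
  set R := (eqv _ (det_of_inj h7)).symm with hR
  have r1 : ∀ v, x (P (R v)) = R v + v := fun v => by
    have := apply_eqv_symm _ (det_of_inj h7) v
    rwa [LinearMap.sub_apply, sub_eq_iff_eq_add'] at this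
  have r2 : ∀ v, R (x (P v)) = R v + v := fun v => by
    have := eqv_symm_apply _ (det_of_inj h7) v
    rwa [LinearMap.sub_apply, map_sub, sub_eq_iff_eq_add'] at this
  obtain ⟨_, ⟨_, ⟨u, rfl⟩, rfl⟩, h8⟩ := SetLike.not_le_iff_exists.1 (not_le_of_finrank
    (X := (LinearMap.range (x - (1 : K) • 1)).map (R : End K V))
    (Y := LinearMap.ker (P - (1 : K) • 1)) (by
      obtain ⟨e, -, he⟩ := h4
      have k1 := Cyc.le_rk (Cyc.of_equiv he h2) 1
      have k2 := rk_add_ker P 1
      rw [LinearEquiv.finrank_map_eq]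
      rw [rk] at hr
      omega))
  set c := x u - u with hc
  obtain ⟨ψ, hψ⟩ := exists_dual_one (K := K) (x := R c - P (R c)) fun h => h8 (by
    have : (x - (1 : K) • (1 : End K V)) u = c := by simp [hc]
    rw [this, LinearMap.mem_ker]
    simpa [sub_eq_zero] using (sub_eq_zero.1 h).symm)
  let U₁ : ((V × K) × K) ≃ₗ[K] ((V × K) × K) :=
    LinearEquiv.transvection (f := LinearMap.snd K _ K) (v := ((u, 0), 0)) rfl
  let U₂ : ((V × K) × K) ≃ₗ[K] ((V × K) × K) := LinearEquiv.transvection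
    (f := ψ ∘ₗ LinearMap.fst K _ _ ∘ₗ LinearMap.fst K _ _) (v := ((0, 1), 0)) (by simp)
  have eU : ∀ v s t, (U₂.trans U₁) ((v, s), t) = ((v + t • u, s + ψ v), t) := fun v s t => by
    have k1 : ∀ z, U₁ z = z + z.2 • ((u, 0), 0) := fun z => LinearEquiv.transvection.apply _ z
    have k2 : ∀ z, U₂ z = z + ψ z.1.1 • ((0, 1), 0) := fun z => LinearEquiv.transvection.apply _ z
    rw [LinearEquiv.trans_apply, k1, k2]
    simp
  set y := cj (U₂.trans U₁) (ds K (ds K x)) with hy
  have ey : ∀ v s t, y ((v, s), t) = ((x v - t • c, s + ψ (x v - v) - t * ψ c), t) := by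
    intro v s t
    have : ((v, s), t) = (U₂.trans U₁) ((v - t • u, s - ψ (v - t • u)), t) := by simp [eU]
    rw [this, hy, cj_apply, ds_apply, ds_apply, eU, hc]
    simp only [map_sub, map_smul, smul_eq_mul, Prod.mk.injEq, and_true]
    constructor
    · module
    · ring
  refine ⟨_, mul_mem_pow (mem_pow_one ((full_ds _).sc (similar_cj (U₂.trans U₁) _)))
    (ds_mem_pow (ds_mem_pow (h4.mem_pow h1))), ?_⟩
  rw [← hy]
  set Q := y * ds K (ds K P) with hQ
  let ι : V →ₗ[K] (V × K) × K := LinearMap.inl K _ K ∘ₗ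
    (LinearMap.id.prod (ψ ∘ₗ (x - 1) ∘ₗ P ∘ₗ (R : End K V)))
  have eι : ∀ v, ι v = ((v, ψ (x (P (R v)) - P (R v))), 0) := fun v => rfl
  have q1 : ∀ v, Q (ι v) = ι ((x * P) v) := fun v => by
    rw [eι, eι, hQ, End.mul_apply, ds_apply, ds_apply, ey, End.mul_apply, r2]
    simp only [map_sub, map_add, zero_smul, zero_mul, sub_zero, Prod.mk.injEq, and_true, true_and]
    ring
  have q2 : Q ((R c, 0), 1) = ((R c, 0), 1) + ((0, 1), 0) := by
    rw [hQ, End.mul_apply, ds_apply, ds_apply, ey, r1]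
    rw [map_sub] at hψ
    simp only [map_sub, map_add, Prod.mk_add_mk, Prod.mk.injEq]
    refine ⟨⟨by module, by linear_combination hψ⟩, by ring⟩
  have q3 : Q ((0, 1), 0) = ((0, 1), 0) := by simp [hQ, ey]
  refine ⟨ι w + ((R c, 0), 1), fun p p1 p2 => ?_⟩
  have k1 := p.sub_mem (p2 _ p1) p1
  rw [map_add, q1, q2, show ∀ a b c d : (V × K) × K, a + (b + c) - (d + b) = a - d + c from
    fun a b c d => by abel, ← map_sub] at k1
  have k2 := p.sub_mem (p2 _ k1) k1
  rw [map_add, q1, q3, add_sub_add_right_eq_sub, ← map_sub] at k2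
  have k3 := range_le_of_cyc q1 (Cyc.map_comm (Cyc.map_comm h6 (c := x * P - 1)
    (fun v => by simp) h7) (c := x * P - 1) (fun v => by simp) h7) k2 p2
  have k4 : ((R c, 0), 1) ∈ p := by simpa using p.sub_mem p1 (k3 w)
  have k5 : ((0, 1), 0) ∈ p := by simpa [q2] using p.sub_mem (p2 _ k4) k4
  refine Submodule.eq_top_iff'.2 fun ⟨⟨v, s⟩, t⟩ => ?_
  have k6 := p.add_mem (p.add_mem (k3 (v - t • R c)) (p.smul_mem t k4))
    (p.smul_mem (s - (ι (v - t • R c)).1.2) k5)
  convert k6 using 1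
  simp [eι]

theorem exists_ds_of_rk {x : End K V} (h : 2 * rk x 1 < finrank K V) :
    ∃ (p : Submodule K V) (y : End K p), H65.Similar (ds K y) x ∧ finrank K p + 1 = finrank K V ∧
      rk y 1 = rk x 1 ∧ LinearMap.det y = LinearMap.det x := by
  obtain ⟨e, ψ, h1, h2, h3⟩ := exists_split h
  obtain ⟨y, h4, -⟩ := exists_ds h1 (by simpa using h2) (by simpa using h3)
  exact ⟨_, y, h4, finrank_ker_add_one e ψ h1, by rw [← rk_similar h4, rk_ds],
    by rw [← h4.det_eq, det_ds]⟩

omit [FiniteDimensional K V] [FiniteDimensional K W] in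
theorem similar_ds {U : Type*} [AddCommGroup U] [Module K U] {x : End K V} {y : End K W}
    (h : H65.Similar x y) : H65.Similar (ds U x) (ds U y) := by
  obtain ⟨e, he⟩ := h
  exact ⟨e.prodCongr (LinearEquiv.refl K U), fun v => by simp [he]⟩

theorem cy_odd (hK : Big K) {r : ℕ} (hr : 2 ≤ r) (j : ℕ) :
    ∀ (V : Type u) [AddCommGroup V] [Module K V] [FiniteDimensional K V] (x : End K V),
      finrank K V = 2 * (r + j) + 1 → rk x 1 = r → LinearMap.det x ≠ 0 → Cy x (j + 2) := by
  induction j with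
  | zero =>
    intro V _ _ _ x h1 h2 h3
    refine cy_two (by omega) h3 fun μ => ?_
    change _ ≤ rk x μ
    by_cases h : μ = 1
    · rw [h]; omega
    · have := le_rk_add (x := x) h
      omega
  | succ j ih =>
    intro V _ _ _ x h1 h2 h3
    obtain ⟨p, y, a1, a2, a3, a4⟩ := exists_ds_of_rk (x := x) (by omega)
    obtain ⟨q, z, b1, b2, b3, b4⟩ := exists_ds_of_rk (x := y) (by omega)
    have dz : LinearMap.det z ≠ 0 := by rwa [b4, a4]
    have := (ih q z (by omega) (by omega) dz).glue hK (by omega)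
      (ns_of_rk (ν := 1) (by omega) (by omega)) dz (by omega)
    rw [show j + 1 + 2 = 1 + (j + 2) by omega]
    exact this.of_similar ((similar_ds b1).trans a1)

theorem cov_small (hK : Big K) {x : End K V} (dx : LinearMap.det x ≠ 0) (h1 : 2 ≤ rk x 1)
    (h2 : 2 * rk x 1 < finrank K V) : Cov x (finrank K V) := by
  have hx : NS x := ns_of_rk (ν := 1) (by omega) (by omega)
  rcases Nat.even_or_odd' (finrank K V) with ⟨a, ha | ha⟩
  · obtain ⟨p, y, a1, a2, a3, a4⟩ := exists_ds_of_rk h2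
    have dy : LinearMap.det y ≠ 0 := by rwa [a4]
    have := ((cy_odd hK h1 (a - 1 - rk x 1) p y (by omega) a3 dy).drop hK (by omega)
      (ns_of_rk (ν := 1) (by omega) (by omega)) dy).of_similar a1
    exact cov_of_le hK (by omega) hx dx this.cy this (by omega)
  · have := cy_odd hK h1 (a - rk x 1) V x (by omega) rfl dx
    exact cov_of_le hK (by omega) hx dx this (this.csk hK (by omega) hx dx) (by omega)

end H64.Lev
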