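import Mathlib
import Cfsg.Agent.Lib.Lev.Small

/-! Products of transvections and homologies. -/

set_option autoImplicit false
open Module
open scoped Pointwise

namespace H64.Lev
open H64.Sour
open LinearMap (transvection)
variable {K : Type*} [Field K]
variable {V : Type*} [AddCommGroup V] [Module K V]

variable (V) in
/-- rank one perturbations of the identity with determinant `δ` -/
def Ts (δ : K) : Set (End K V) := {T | ∃ (v : V) (φ : Dual K V), φ v = δ - 1 ∧ T = transvection φ v}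

variable (V) in
/-- the nontrivial ones -/
def Tn (δ : K) : Set (End K V) :=
  {T | ∃ (v : V) (φ : Dual K V), v ≠ 0 ∧ φ ≠ 0 ∧ φ v = δ - 1 ∧ T = transvection φ v}

theorem Tn_pad (hK : Big K) (j : ℕ) : Tn V (1 : K) ^ (j + 1) ⊆ Tn V (1 : K) ^ (j + 2) := by
  rw [pow_succ, pow_succ, pow_succ, mul_assoc]
  refine Set.mul_subset_mul_left ?_
  rintro _ ⟨v, φ, h1, h2, h3, rfl⟩
  obtain ⟨t, h4, h5, -⟩ := hK 0 1 0
  rw [sub_self] at h3
  refine ⟨_, ⟨t • v, φ, smul_ne_zero h4 h1, h2, by simp [h3], rfl⟩, _,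
    ⟨(1 - t) • v, φ, smul_ne_zero (sub_ne_zero.2 h5.symm) h1, h2, by simp [h3], rfl⟩,
    LinearMap.ext fun u => ?_⟩
  simp only [End.mul_apply, LinearMap.transvection.apply, map_add, map_smul, h3]
  module

theorem mem_Tn_pow (hK : Big K) {δ : K} (m : ℕ) : ∀ g ∈ Ts V δ ^ m, g ∈ Tn V δ ^ m ∨ g = 1 := by
  by_cases h : δ = 1
  swap
  · have : Ts V δ ⊆ Tn V δ := by
      rintro _ ⟨v, φ, h1, rfl⟩
      have h2 := h1 ▸ sub_ne_zero.2 h
      exact ⟨v, φ, by rintro rfl; simp at h2, by rintro rfl; simp at h2, h1, rfl⟩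
    exact fun g hg => Or.inl (Set.pow_subset_pow_left this hg)
  subst h
  have h1 : ∀ T ∈ Ts V (1 : K), T ∈ Tn V (1 : K) ∨ T = 1 := by
    rintro _ ⟨v, φ, h1, rfl⟩
    by_cases h2 : v = 0
    · exact Or.inr (by rw [h2, LinearMap.transvection.of_right_eq_zero]; rfl)
    by_cases h3 : φ = 0
    · exact Or.inr (by rw [h3, LinearMap.transvection.of_left_eq_zero]; rfl)
    exact Or.inl ⟨v, φ, h2, h3, h1, rfl⟩
  have h2 : ∀ j, Tn V (1 : K) ⊆ Tn V (1 : K) ^ (j + 1) := fun j => by
    induction j with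
    | zero => simp
    | succ j ih => exact ih.trans (Tn_pad hK j)
  induction m with
  | zero => exact fun g hg => Or.inl hg
  | succ m ih =>
    intro g hg
    rw [pow_succ] at hg
    obtain ⟨a, ha, b, hb, rfl⟩ := hg
    rcases ih a ha with h3 | rfl <;> rcases h1 b hb with h4 | rfl
    · exact Or.inl (pow_succ (Tn V (1 : K)) m ▸ Set.mul_mem_mul h3 h4)
    · rcases m with _ | m
      · exact Or.inr (by simpa using h3)
      · exact Or.inl (Tn_pad hK m (by simpa using h3))
    · exact Or.inl (h2 m (by simpa using h4))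
    · exact Or.inr (by simp)

variable [FiniteDimensional K V]

theorem similar_Tn {δ : K} {S T : End K V} (hS : S ∈ Tn V δ) (hT : T ∈ Tn V δ) :
    H65.Similar S T := by
  obtain ⟨v, φ, h1, h2, h3, rfl⟩ := hS
  obtain ⟨v', φ', h1', h2', h3', rfl⟩ := hT
  have hd : finrank K (LinearMap.ker φ) = finrank K (LinearMap.ker φ') := by
    have := finrank_ker_dual h2
    have := finrank_ker_dual h2'
    omega
  have key : ∀ (e e' : V) (he : φ e = 1) (he' : φ' e' = 1)
      (k : LinearMap.ker φ ≃ₗ[K] LinearMap.ker φ'),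
      (k ⟨v - φ v • e, by simp [he]⟩ : V) = v' - φ' v' • e' →
      H65.Similar (transvection φ v) (transvection φ' v') := fun e e' he he' k hk => by
    set h := (split e φ he).trans (((LinearEquiv.refl K K).prodCongr k).trans
      (split e' φ' he').symm) with hh
    have k1 : ∀ u, h u = φ u • e' + k ⟨u - φ u • e, by simp [he]⟩ := fun u => rfl
    have k2 : ∀ u, φ' (h u) = φ u := fun u => by
      rw [k1, map_add, map_smul, he', LinearMap.mem_ker.1 (k _).2]
      simp
    have k3 : h v = v' := by rw [k1, hk, h3, h3']; abel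
    exact ⟨h, fun u => by simp only [LinearMap.transvection.apply, map_add, map_smul, k2, k3]⟩
  by_cases hδ : δ - 1 = 0
  · obtain ⟨e, he⟩ := exists_one h2
    obtain ⟨e', he'⟩ := exists_one h2'
    rw [hδ] at h3 h3'
    obtain ⟨k, hk⟩ := exists_equiv (ι := Unit) hd (f := fun _ => ⟨v, h3⟩) (g := fun _ => ⟨v', h3'⟩)
      (linearIndependent_unique_iff.2 fun h => h1 (congrArg Subtype.val h))
      (linearIndependent_unique_iff.2 fun h => h1' (congrArg Subtype.val h))
    exact key e e' he he' k (by simpa [h3, h3'] using congrArg Subtype.val (hk ()))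
  · obtain ⟨k⟩ := FiniteDimensional.nonempty_linearEquiv_of_finrank_eq hd
    refine key ((δ - 1)⁻¹ • v) ((δ - 1)⁻¹ • v') (by simp [h3, hδ]) (by simp [h3', hδ]) k ?_
    have : (⟨v - φ v • (δ - 1)⁻¹ • v, by simp [h3, hδ]⟩ : LinearMap.ker φ) = 0 :=
      Subtype.ext (by simp [h3, smul_smul, hδ])
    rw [this]
    simp [h3', smul_smul, hδ]

theorem cater {δ : K} (hδ : δ ≠ 0) (m : ℕ) : ∀ (U : Submodule K V) (g : End K V),
    finrank K U + m = finrank K V → (∀ u ∈ U, g u = u) → LinearMap.det g = δ ^ m →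
    (m ≤ 1 ∨ ∀ μ : K, ∃ v, g v - μ • v ∉ U) → g ∈ Ts V δ ^ m := by
  induction m using Nat.twoStepInduction with
  | zero =>
    intro U g h1 h2 _ _
    have := Submodule.eq_top_of_finrank_eq h1
    exact Set.mem_one.2 (LinearMap.ext fun v => h2 v (this ▸ Submodule.mem_top))
  | one =>
    intro U g h1 h2 h3 _
    obtain ⟨e, he⟩ := exists_notMem (ne_top_of_finrank (U := U) (by omega))
    obtain ⟨θ, h4, h5⟩ := exists_dual_notMem he
    have h6 : U = LinearMap.ker θ := Submodule.eq_of_le_of_finrank_eq h5 (by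
      have := finrank_ker_add_one e θ h4
      omega)
    have h7 : ∀ v, θ v = 0 → g v = v := fun v hv => h2 v (h6 ▸ hv)
    rw [pow_one] at h3 ⊢
    refine ⟨g e - e, θ, by rw [map_sub, fix_hyp h7, h3, h4, mul_one], LinearMap.ext fun u => ?_⟩
    have := h7 (u - θ u • e) (by simp [h4])
    rw [map_sub, map_smul] at this
    rw [LinearMap.transvection.apply]
    linear_combination (norm := module) this
  | more m _ ih =>
    intro U g h1 h2 h3 h4
    obtain ⟨w, w1, w2⟩ := exists_indep_mod (h4.resolve_left (by omega)) (by omega)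
    have d1 := finrank_sup_singleton w1
    have hw : w ∈ U ⊔ K ∙ w := Submodule.mem_sup_right (Submodule.mem_span_singleton_self w)
    have key : ∀ φ : Dual K V, (∀ u ∈ U, φ u = 0) → φ w = 1 → φ (g w) = δ →
        (m + 1 ≤ 1 ∨ ∀ μ : K, ∃ v, g v - (φ (g v) * δ⁻¹) • (g w - w) - μ • v ∉ U ⊔ K ∙ w) →
        g ∈ Ts V δ ^ (m + 2) := fun φ k1 k2 k3 k4 => by
      have k5 : ∀ v, (transvection φ (-δ⁻¹ • (g w - w)) * g) v =
          g v - (φ (g v) * δ⁻¹) • (g w - w) := fun v => by
        rw [End.mul_apply, LinearMap.transvection.apply]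
        module
      have := ih (U ⊔ K ∙ w) (transvection φ (-δ⁻¹ • (g w - w)) * g) (by omega) (fun u hu => by
        obtain ⟨t, ht⟩ := mem_sup_singleton.1 hu
        rw [← sub_add_cancel u (t • w), map_add, map_smul, k5, k5, h2 _ ht, k1 _ ht, k3,
          mul_inv_cancel₀ hδ]
        simp) (by
        rw [map_mul, h3, LinearMap.transvection.det, map_smul, map_sub, k2, k3, smul_eq_mul]
        field_simp
        ring) (by simpa only [k5] using k4)
      rw [pow_succ']
      refine ⟨_, ⟨g w - w, φ, by rw [map_sub, k2, k3], rfl⟩, _, this, LinearMap.ext fun v => ?_⟩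
      change transvection φ (g w - w) ((transvection φ (-δ⁻¹ • (g w - w)) * g) v) = _
      rw [k5, LinearMap.transvection.apply]
      simp only [map_sub, map_smul, k2, k3, smul_eq_mul]
      match_scalars <;> field_simp <;> ring
    obtain ⟨φ₁, a1, a2⟩ := exists_dual_notMem w1
    obtain ⟨φ₂, b1, b2⟩ := exists_dual_notMem w2
    set φ := φ₁ + (δ - φ₁ (g w)) • φ₂ with hφ
    have p1 : ∀ u ∈ U, φ u = 0 := fun u hu => by
      simp [hφ, a2 u hu, b2 u (Submodule.mem_sup_left hu)]
    have p2 : φ w = 1 := by simp [hφ, a1, b2 w hw]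
    have p3 : φ (g w) = δ := by simp [hφ, b1]
    clear_value φ
    by_cases hm : m + 1 ≤ 1
    · exact key φ p1 p2 p3 (Or.inl hm)
    have n1 : (U ⊔ K ∙ w) ⊔ K ∙ g w ≠ ⊤ :=
      ne_top_of_finrank (lt_of_le_of_lt (finrank_sup_singleton_le _ _) (by omega))
    obtain ⟨z, hz⟩ := exists_notMem n1
    obtain ⟨χ, c1, c2⟩ := exists_dual_notMem hz
    by_contra hg
    have q1 := mt (fun h => key φ p1 p2 p3 (Or.inr h)) hg
    have q2 := mt (fun h => key (φ + χ) (fun u hu => by
      simp [p1 u hu, c2 u (Submodule.mem_sup_left (Submodule.mem_sup_left hu))])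
      (by simp [p2, c2 w (Submodule.mem_sup_left hw)])
      (by simp [p3, c2 _ (Submodule.mem_sup_right (Submodule.mem_span_singleton_self _))])
      (Or.inr h)) hg
    push Not at q1 q2
    obtain ⟨μ, q1⟩ := q1
    obtain ⟨ν, q2⟩ := q2
    have q3 : ∀ v, (ν - μ) • v - (-(χ (g v) * δ⁻¹)) • g w ∈ U ⊔ K ∙ w := fun v => by
      convert Submodule.add_mem _ (Submodule.sub_mem _ (q1 v) (q2 v))
        (Submodule.smul_mem _ (χ (g v) * δ⁻¹) hw) using 1
      rw [LinearMap.add_apply φ χ]
      module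
    by_cases h5 : ν - μ = 0
    · obtain ⟨v, rfl⟩ := surj_of_det (h3 ▸ pow_ne_zero _ hδ) z
      have := q3 v
      rw [h5, zero_smul, zero_sub, ← neg_smul] at this
      simpa [c1, hδ] using eq_zero_of_smul_mem w2 this
    · exact hz ((Submodule.smul_mem_iff _ h5).1 (mem_sup_singleton.2 ⟨_, q3 z⟩))

theorem cov_one (hK : Big K) (hn : 3 ≤ finrank K V) {x : End K V} (dx : LinearMap.det x ≠ 0)
    (h : rk x 1 = 1) : Cov x (finrank K V) := by
  obtain ⟨⟨v, hv⟩, h1, h2⟩ := finrank_eq_one_iff'.1 h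
  have h0 : v ≠ 0 := fun h => h1 (Subtype.ext h)
  obtain ⟨ψ, hψ⟩ := exists_dual_one (K := K) h0
  have h3 : x = transvection (ψ ∘ₗ (x - 1)) v := LinearMap.ext fun u => by
    obtain ⟨c, hc⟩ := h2 ⟨_, u, rfl⟩
    have hc' : c • v = x u - u := by simpa using congrArg Subtype.val hc
    rw [LinearMap.transvection.apply, LinearMap.comp_apply, LinearMap.sub_apply, End.one_apply,
      ← hc', map_smul, hψ, smul_eq_mul, mul_one, hc', add_sub_cancel]
  have h4 : x ∈ Tn V (LinearMap.det x) := ⟨v, _, h0, fun h5 => by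
    obtain ⟨u, hu⟩ := hv
    have := LinearMap.congr_fun h5 u
    rw [one_smul] at hu
    simp [hu, hψ] at this, by
      conv_rhs => rw [h3]
      simp, h3⟩
  have h5 : Tn V (LinearMap.det x) ⊆ cls x := fun T hT =>
    (full_of_rk (μ := 1) (by omega)).sc (similar_Tn h4 hT)
  intro g hg hd
  rcases mem_Tn_pow hK _ g (cater dx _ ⊥ g (by simp) (fun u hu => by
    rw [(Submodule.mem_bot K).1 hu, map_zero]) hd
    (Or.inr fun μ => by simpa [sub_eq_zero] using hg μ)) with h6 | rfl
  · exact Set.pow_subset_pow_left h5 h6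
  · obtain ⟨u, hu⟩ := hg 1
    simp at hu

end H64.Lev
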