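import Mathlib
import Cfsg.Agent.Lib.Lev.Small

/-! Dimensions three and four. -/

set_option autoImplicit false
open Module
open scoped Pointwise

namespace H64.Lev
open H64.Sour
variable {K : Type*} [Field K]
variable {V : Type*} [AddCommGroup V] [Module K V]

theorem pow_mem {x : End K V} {w : V} {p : Submodule K V} (h1 : w ∈ p) (h2 : ∀ v ∈ p, x v ∈ p)
    (i : ℕ) : (x ^ i) w ∈ p := by
  induction i with
  | zero => exact h1
  | succ i ih => rw [pow_succ_apply]; exact h2 _ ih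

theorem inj_two {M : Matrix (Fin 2) (Fin 2) K} {ν : K}
    (h : (M 0 0 - ν) * (M 1 1 - ν) - M 0 1 * M 1 0 ≠ 0) (v : Fin 2 → K)
    (hv : Matrix.toLin' M v = ν • v) : v = 0 := by
  have h0 := congrFun hv 0
  have h1 := congrFun hv 1
  simp [Matrix.mulVec, dotProduct, Fin.sum_univ_two] at h0 h1
  have h2 : v 0 = 0 := (mul_eq_zero.1 (by
    linear_combination (M 1 1 - ν) * h0 - M 0 1 * h1)).resolve_left h
  have h3 : v 1 = 0 := (mul_eq_zero.1 (by
    linear_combination (M 0 0 - ν) * h1 - M 1 0 * h0)).resolve_left h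
  ext i
  fin_cases i
  · exact h2
  · exact h3

theorem cyc_two {M : Matrix (Fin 2) (Fin 2) K} (h : M 1 0 ≠ 0) : Cyc (Matrix.toLin' M) ![1, 0] := by
  intro p h1 h2
  have h3 : ![0, 1] ∈ p := by
    refine (p.smul_mem_iff h).1 ?_
    convert p.sub_mem (h2 _ h1) (p.smul_mem (M 0 0) h1) using 1
    ext i
    fin_cases i <;> simp [Matrix.mulVec, dotProduct, Fin.sum_univ_two]
  refine Submodule.eq_top_iff'.2 fun v => ?_
  convert p.add_mem (p.smul_mem (v 0) h1) (p.smul_mem (v 1) h3) using 1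
  ext i
  fin_cases i <;> simp

theorem sc_mat {Y H₁ H₂ M₁ M₂ : Matrix (Fin 2) (Fin 2) K} (h1 : H₁ * Y = M₁ * H₁)
    (h2 : H₂ * Y = M₂ * H₂) (h3 : H₁.det * H₂.det = 1) :
    (Matrix.toLin' (Y * M₁)).prodMap (Matrix.toLin' (Y * M₂)) ∈
      cls ((Matrix.toLin' Y).prodMap (Matrix.toLin' Y)) ^ 2 := by
  have h4 : LinearMap.det ((Matrix.toLin' H₁).prodMap (Matrix.toLin' H₂)) = 1 := by
    rw [LinearMap.det_prodMap, LinearMap.det_toLin', LinearMap.det_toLin', h3]
  have h5 : SC ((Matrix.toLin' Y).prodMap (Matrix.toLin' Y))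
      ((Matrix.toLin' M₁).prodMap (Matrix.toLin' M₂)) :=
    ⟨eqv _ (h4 ▸ one_ne_zero), by rw [coe_eqv, h4], fun v => by
      simp only [eqv_apply, LinearMap.prodMap_apply, ← Matrix.toLin'_mul_apply, h1, h2]⟩
  have := mul_mem_pow (mem_pow_one (SC.refl _)) (mem_pow_one h5)
  convert this using 1
  exact LinearMap.ext fun v => by simp

theorem model_four (hK : Big K) {δ : K} (hδ : δ ≠ 0) (t : K) :
    CSk ((Matrix.toLin' !![0, -δ; 1, t]).prodMap (Matrix.toLin' !![0, -δ; 1, t])) 2 ∧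
    δ • (1 : End K _) ∈
      cls ((Matrix.toLin' !![0, -δ; 1, t]).prodMap (Matrix.toLin' !![0, -δ; 1, t])) ^ 2 := by
  constructor
  swap
  · have h1 : !![1, t; 0, -1] * !![0, -δ; 1, t] = !![t, δ; -1, 0] * !![1, t; 0, -1] := by
      ext i j
      fin_cases i <;> fin_cases j <;> simp [Matrix.mul_apply, Fin.sum_univ_two]
      ring
    have h2 : !![0, -δ; 1, t] * !![t, δ; -1, 0] = δ • (1 : Matrix (Fin 2) (Fin 2) K) := by
      ext i j
      fin_cases i <;> fin_cases j <;> simp [Matrix.mul_apply, Fin.sum_univ_two]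
    have := sc_mat h1 h1 (by simp [Matrix.det_fin_two])
    rw [h2] at this
    convert this using 1
    exact LinearMap.ext fun v => by simp [Prod.ext_iff]
  obtain ⟨c, c0, c1, c2⟩ := hK 0 1 (-1)
  obtain ⟨a, a1, a2, -⟩ := hK t (-(c * t)) 0
  have a3 : a + t * c ≠ 0 := fun h => a2 (by linear_combination h)
  have c3 : -(δ * c) ≠ -(δ / c) := fun h => by
    field_simp at h
    have : (c - 1) * (c + 1) = 0 := by linear_combination -h
    rcases mul_eq_zero.1 this with h | h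
    · exact c1 (by linear_combination h)
    · exact c2 (by linear_combination h)
  have h1 : !![1, -(c * t); 0, c] * !![0, -δ; 1, t] =
      !![-(c * t), -(c * t ^ 2 + δ / c + t ^ 2); c, t + c * t] * !![1, -(c * t); 0, c] := by
    ext i j
    fin_cases i <;> fin_cases j <;> simp [Matrix.mul_apply, Fin.sum_univ_two] <;> field_simp <;> ring
  have h2 : !![c⁻¹, a / c; 0, 1] * !![0, -δ; 1, t] =
      !![a, (a * t - a ^ 2 - δ) / c; c, t - a] * !![c⁻¹, a / c; 0, 1] := by
    ext i j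
    fin_cases i <;> fin_cases j <;> simp [Matrix.mul_apply, Fin.sum_univ_two] <;> field_simp <;> ring
  have h3 : !![0, -δ; 1, t] * !![-(c * t), -(c * t ^ 2 + δ / c + t ^ 2); c, t + c * t] =
      !![-(δ * c), -(δ * (t + c * t)); 0, -(δ / c)] := by
    ext i j
    fin_cases i <;> fin_cases j <;> simp [Matrix.mul_apply, Fin.sum_univ_two] <;> ring
  have h4 : !![0, -δ; 1, t] * !![a, (a * t - a ^ 2 - δ) / c; c, t - a] =
      !![-(δ * c), -(δ * (t - a)); a + t * c, (a * t - a ^ 2 - δ) / c + t * (t - a)] := by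
    ext i j
    fin_cases i <;> fin_cases j <;> simp [Matrix.mul_apply, Fin.sum_univ_two]
  have h5 := sc_mat h1 h2 (by simp [Matrix.det_fin_two, c0])
  rw [h3, h4] at h5
  refine ⟨_, h5, ?_⟩
  set N := !![-(δ * c), -(δ * (t - a)); a + t * c, (a * t - a ^ 2 - δ) / c + t * (t - a)] with hN
  have n1 := inj_two (M := N) (ν := -(δ * c)) (by
    simp [hN, hδ, a3, sub_eq_zero, a1.symm])
  have n2 := inj_two (M := N) (ν := -(δ / c)) (fun h => by
    simp only [hN, Matrix.of_apply, Matrix.cons_val', Matrix.cons_val_zero, Matrix.cons_val_one,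
      Matrix.cons_val_fin_one] at h
    field_simp at h
    have : δ * (t - a) * (a + t * c) = 0 := by linear_combination h
    simp [hδ, a3, sub_eq_zero, a1.symm] at this)
  obtain ⟨w, hw⟩ := (cs_of (B := blk (Matrix.toLin' N) 0 0 ((-(δ * c)) • (1 : End K K)))
    (LinearMap.inl K _ K) (fun v => by simp)
    (θ := LinearMap.snd K _ K) (fun h => by simpa using LinearMap.congr_fun h (0, 1))
    (fun v => ⟨fun h => ⟨v.1, Prod.ext rfl h.symm⟩, by rintro ⟨u, rfl⟩; rfl⟩) (μ := -(δ * c))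
    (fun v => by simp) (cyc_two (by simpa [hN] using a3)) n1 LinearMap.inl_injective).cyc
  let ι : (Fin 2 → K) × K →ₗ[K] (Fin 2 → K) × (Fin 2 → K) :=
    ((LinearMap.snd K _ K).smulRight ![1, 0]).prod (LinearMap.fst K _ K)
  have eι : ∀ v, ι v = (v.2 • ![1, 0], v.1) := fun v => rfl
  refine cs_of ι (fun v => ?_) (θ := LinearMap.proj 1 ∘ₗ LinearMap.fst K _ _)
    (fun h => by simpa using LinearMap.congr_fun h (![0, 1], 0)) (fun v => ⟨fun h => ⟨(v.2, v.1 0),
      Prod.ext ?_ rfl⟩, by rintro ⟨u, rfl⟩; simp [eι]⟩) (μ := -(δ / c)) (fun v => ?_) hw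
    (fun v hv => ?_) fun u v h => ?_
  · rw [eι, eι]
    refine Prod.ext ?_ (by simp)
    ext i
    fin_cases i <;> simp [Matrix.mulVec, dotProduct, Fin.sum_univ_two, mul_comm]
  · ext i
    fin_cases i
    · simp [eι]
    · simpa [eι, eq_comm] using h
  · simp [Matrix.mulVec, dotProduct, Fin.sum_univ_two]
  · rw [Prod.ext_iff] at hv
    refine Prod.ext (n2 _ (by simpa using hv.1)) ?_
    have := hv.2
    simp only [blk_apply, LinearMap.zero_apply, zero_add, LinearMap.smul_apply, End.one_apply,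
      Prod.smul_snd, smul_eq_mul] at this
    exact (mul_eq_mul_right_iff.1 this).resolve_left c3
  · rw [eι, eι, Prod.ext_iff] at h
    exact Prod.ext h.2 (by simpa using congrFun h.1 0)

variable [FiniteDimensional K V]

theorem cyc_or_hc {x : End K V} {w : V} {m : ℕ} (hn : finrank K V = m + 1) (hm : 1 ≤ m)
    (h : ∀ i < m, (x ^ i) w ∉ Fl K (fun i => (x ^ i) w) i) :
    Cyc x w ∨ ∃ θ β, HC x θ w β := by
  by_cases h1 : (x ^ m) w ∈ Fl K (fun i => (x ^ i) w) m
  · have h2 := finrank_Fl (e := fun i => (x ^ i) w) (indep_of_notMem (e := fun i => (x ^ i) w) h)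
    obtain ⟨e, he⟩ := exists_notMem (ne_top_of_finrank (U := Fl K (fun i => (x ^ i) w) m) (by omega))
    obtain ⟨θ, h4, h5⟩ := exists_dual_notMem he
    have h6 : Fl K (fun i => (x ^ i) w) m = LinearMap.ker θ :=
      Submodule.eq_of_le_of_finrank_eq h5 (by
        have := finrank_ker_add_one e θ h4
        omega)
    refine Or.inr ⟨θ, θ (x e), fun h => by simp [h] at h4, fun v => ?_,
      h5 _ (mem_Fl (fun i => (x ^ i) w) hm), fun p p1 p2 =>
        h6.ge.trans (Fl_le.2 fun i _ => pow_mem p1 p2 i)⟩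
    have := h5 _ (kry_inv h1 _ (h6.ge (show v - θ v • e ∈ LinearMap.ker θ by simp [h4])))
    simp only [map_sub, map_smul, smul_eq_mul] at this
    linear_combination this
  · have h2 := Fl_eq (K := K) (e := fun i => (x ^ i) w)
      (indep_of_notMem (e := fun i => (x ^ i) w) (j := m + 1) fun i hi => by
      rcases Nat.lt_succ_iff_lt_or_eq.1 hi with h3 | rfl
      exacts [h i h3, h1]) (H := ⊤) (fun _ _ => Submodule.mem_top) (by rw [finrank_top, hn])
    exact Or.inl fun p p1 p2 => top_le_iff.1 (h2.ge.trans (Fl_le.2 fun i _ => pow_mem p1 p2 i))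

omit [FiniteDimensional K V] in
theorem notMem_two {x : End K V} {w : V} (h : x w ∉ K ∙ w) :
    ∀ i < 2, (x ^ i) w ∉ Fl K (fun i => (x ^ i) w) i := by
  intro i hi
  interval_cases i
  · rw [Fl_zero]
    exact fun h1 => h (by simp [show w = 0 from h1])
  · rw [Fl_succ, Fl_zero, bot_sup_eq]
    simpa using h

theorem cyc_three {x : End K V} (hn : finrank K V = 3) (h : ∀ μ, 2 ≤ rk x μ) : ∃ w, Cyc x w := by
  obtain ⟨w, hw⟩ := NS.exists_noneig (ns_iff.2 fun μ => (h μ).trans' (by omega))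
  rcases cyc_or_hc hn (by omega) (notMem_two hw) with h1 | ⟨θ, β, h1⟩
  · exact ⟨w, h1⟩
  rcases h1.cyc_or with h2 | ⟨e, h2, h3⟩
  · exact h2
  refine CS.cyc ⟨θ, w, β, h1, fun v h4 h5 => ?_⟩
  by_contra h6
  have h7 := finrank_inf_ker (X := LinearMap.ker (x - β • 1)) (φ := θ) (a := e) (by simp [h3])
    (by simp [h2])
  have h8 := rk_add_ker x β
  have h9 := h β
  have : v ∈ LinearMap.ker (x - β • 1) ⊓ LinearMap.ker θ := ⟨by simp [h5], h4⟩
  rw [Submodule.finrank_eq_zero.1 (show finrank K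
    (LinearMap.ker (x - β • 1) ⊓ LinearMap.ker θ : Submodule K V) = 0 by omega)] at this
  exact h6 this

theorem four_cases (hK : Big K) {x : End K V} (hn : finrank K V = 4) (dx : LinearMap.det x ≠ 0)
    (h : ∀ μ, 2 ≤ rk x μ) : Cy x 1 ∨ (CSk x 2 ∧ (Full x ∨ ∃ δ : K, δ • 1 ∈ cls x ^ 2)) := by
  by_cases h1 : ∃ w, ∀ i < 3, (x ^ i) w ∉ Fl K (fun i => (x ^ i) w) i
  · obtain ⟨w, hw⟩ := h1
    rcases cyc_or_hc hn (by omega) hw with h1 | ⟨θ, β, h1⟩
    · exact Or.inl ⟨x, mem_pow_one (SC.refl x), w, h1⟩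
    rcases h1.cyc_or with h2 | ⟨e, h2, h3⟩
    · exact Or.inl ⟨x, mem_pow_one (SC.refl x), h2⟩
    have hβ := h1.ne_zero dx
    obtain ⟨y, h4, h5⟩ := exists_ds (x := β⁻¹ • x) h2 (by simp [h3, smul_smul, hβ])
      (fun v => by simp [h1.2.1, hβ])
    have h6 : Cyc y ⟨w, h1.2.2.1⟩ := fun p p1 p2 => Submodule.eq_top_iff'.2 fun v => by
      obtain ⟨u, h7, h8⟩ := h1.2.2.2 (p.map (LinearMap.ker θ).subtype) ⟨_, p1, rfl⟩ (by
        rintro _ ⟨u, hu, rfl⟩
        exact ⟨_, p.smul_mem β (p2 u hu), by simp [h5, smul_smul, hβ]⟩) v.2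
      rwa [← show u = v from Subtype.ext h8]
    have h7 := finrank_ker_add_one e θ h2
    have h8 := ((Cy.drop hK (by omega) (fun μ => ⟨_, h6.noneig (by omega) μ⟩) (by
      rw [← det_ds (W := K), h4.det_eq, LinearMap.det_smul]
      simp [hβ, dx]) ⟨y, mem_pow_one (SC.refl y), _, h6⟩).of_similar h4).smul hβ
    rw [smul_smul, mul_inv_cancel₀ hβ, one_smul] at h8
    exact Or.inr ⟨h8, Or.inl (full_of_eig h2 h3 h1.2.1)⟩
  push Not at h1
  obtain ⟨W, dW, hW⟩ := sig_of_rank (inj_of_det dx) 2 h (by omega)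
  have q : ∀ w ∈ W, w ≠ 0 → ∃ a b : K, x (x w) = a • w + b • x w := fun w hw h0 => by
    have h2 : x w ∉ K ∙ w := fun h2 => h0 (inj_of_det dx (by
      rw [hW _ ((Submodule.span_singleton_le_iff_mem _ _).2 hw h2) w hw rfl, map_zero]))
    obtain ⟨i, h3, h4⟩ := h1 w
    have h5 : i = 2 := by
      by_contra h5
      exact notMem_two h2 i (by omega) h4
    rw [h5, Fl_succ, Fl_succ, Fl_zero, bot_sup_eq] at h4
    obtain ⟨b, h4⟩ := mem_sup_singleton.1 h4
    obtain ⟨a, h4⟩ := Submodule.mem_span_singleton.1 h4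
    exact ⟨a, b, by simpa [pow_succ, eq_sub_iff_add_eq, eq_comm] using h4⟩
  obtain ⟨u, w, hu, hw, k0⟩ : ∃ u w : V, u ∈ W ∧ w ∈ W ∧
      ∀ s t : K, s • u + t • w = 0 → s = 0 ∧ t = 0 := by
    let b := Module.finBasisOfFinrankEq K W dW
    refine ⟨b 0, b 1, (b 0).2, (b 1).2, fun s t h => ?_⟩
    exact LinearIndependent.pair_iff.1 (show LinearIndependent K ![b 0, b 1] by
      convert b.linearIndependent using 1
      ext i
      fin_cases i <;> rfl) s t (Subtype.ext h)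
  have ind : ∀ a₁ a₂ a₃ a₄ : K, a₁ • u + a₂ • x u + (a₃ • w + a₄ • x w) = 0 →
      a₁ = 0 ∧ a₂ = 0 ∧ a₃ = 0 ∧ a₄ = 0 := fun a₁ a₂ a₃ a₄ h2 => by
    have k1 : a₁ • u + a₃ • w = x (-(a₂ • u + a₄ • w)) := by
      simp only [map_neg, map_add, map_smul]
      linear_combination (norm := module) h2
    have k2 := hW _ (W.add_mem (W.smul_mem _ hu) (W.smul_mem _ hw)) _
      (W.neg_mem (W.add_mem (W.smul_mem _ hu) (W.smul_mem _ hw))) k1
    have k3 := k0 _ _ (neg_eq_zero.1 (inj_of_det dx (by rw [← k1, map_zero]; exact k2)))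
    exact ⟨(k0 _ _ k2).1, k3.1, (k0 _ _ k2).2, k3.2⟩
  obtain ⟨a₁, b₁, e₁⟩ := q u hu fun h => by simpa using (ind 1 0 0 0 (by simp [h])).1
  obtain ⟨a₂, b₂, e₂⟩ := q w hw fun h => by simpa using (ind 0 0 1 0 (by simp [h])).2.2.1
  obtain ⟨a, t, e₃⟩ := q (u + w) (W.add_mem hu hw) fun h => by
    simpa using (ind 1 0 1 0 (by simpa using h)).1
  simp only [map_add] at e₃
  obtain ⟨k1, k2, k3, k4⟩ := ind (a₁ - a) (b₁ - t) (a₂ - a) (b₂ - t) (by
    linear_combination (norm := module) e₃ - e₁ - e₂)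
  rw [sub_eq_zero] at k1 k2 k3 k4
  subst k1 k2 k3 k4
  have ha : a₂ ≠ 0 := by
    rintro rfl
    have := inj_of_det dx (show x (x u) = x (b₂ • u) by simp [e₁])
    simpa using (ind b₂ (-1) 0 0 (by simp [this])).2.1
  let p0 : Dual K (Fin 2 → K) := LinearMap.proj 0
  let p1 : Dual K (Fin 2 → K) := LinearMap.proj 1
  let f : (Fin 2 → K) × (Fin 2 → K) →ₗ[K] V :=
    (p0.smulRight u + p1.smulRight (x u)).coprod (p0.smulRight w + p1.smulRight (x w))
  have ef : ∀ v, f v = v.1 0 • u + v.1 1 • x u + (v.2 0 • w + v.2 1 • x w) := fun v => rfl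
  have hf : Function.Injective f := by
    rw [injective_iff_map_eq_zero]
    intro v hv
    obtain ⟨k1, k2, k3, k4⟩ := ind _ _ _ _ hv
    ext i <;> fin_cases i <;> assumption
  have hs : ∀ v, f.linearEquivOfInjective hf (by simp [hn]) (((Matrix.toLin' !![0, - -a₂; 1, b₂]).prodMap
      (Matrix.toLin' !![0, - -a₂; 1, b₂])) v) = x (f.linearEquivOfInjective hf (by simp [hn]) v) := by
    intro v
    simp only [LinearMap.linearEquivOfInjective_apply, ef, map_add, map_smul, e₁, e₂]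
    simp [Matrix.mulVec, dotProduct, Fin.sum_univ_two]
    module
  obtain ⟨m1, m2⟩ := model_four hK (neg_ne_zero.2 ha) b₂
  refine Or.inr ⟨m1.of_similar ⟨_, hs⟩, Or.inr ⟨-a₂, ?_⟩⟩
  convert cj_mem_pow hs m2 using 1
  exact LinearMap.ext fun v => by
    rw [cj_apply', LinearMap.smul_apply, LinearMap.smul_apply, End.one_apply, End.one_apply,
      map_smul, LinearEquiv.apply_symm_apply]

end H64.Lev
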