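import Mathlib
import Cfsg.Agent.Lib.Lev.Cater
import Cfsg.Agent.Lib.Lev.Four

/-! Lev's theorem on the covering number of `PSL(n, F)`. -/

set_option autoImplicit false
open Module
open scoped Pointwise

namespace H64.Lev
open H64.Sour
variable {K : Type*} [Field K]

theorem cov_main {V : Type*} [AddCommGroup V] [Module K V] [FiniteDimensional K V] (hK : Big K)
    (hn : 3 ≤ finrank K V) {x : End K V} (hx : NS x) (dx : LinearMap.det x = 1) :
    Cov x (finrank K V) ∧ ∃ z : K, z • 1 ∈ cls x ^ finrank K V := by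
  have d0 : LinearMap.det x ≠ 0 := dx ▸ one_ne_zero
  have tr : (Odd (finrank K V) ∨ Full x) → ∃ z : K, z • 1 ∈ cls x ^ finrank K V := fun h =>
    ⟨1, by simpa using one_mem_trick hn hx dx h⟩
  by_cases h : ∃ μ, 2 * rk x μ < finrank K V
  · obtain ⟨μ, h⟩ := h
    have hμ : μ ≠ 0 := by
      rintro rfl
      rw [rk, zero_smul, sub_zero, LinearMap.range_eq_top.2 (surj_of_det d0), finrank_top] at h
      omega
    have h1 : rk (μ⁻¹ • x) 1 = rk x μ := by
      rw [← rk_smul x μ (inv_ne_zero hμ), inv_mul_cancel₀ hμ]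
    have h2 : LinearMap.det (μ⁻¹ • x) ≠ 0 := by simp [hμ, d0]
    have h3 : Cov (μ⁻¹ • x) (finrank K V) := by
      have := ns_iff.1 hx μ
      by_cases h4 : rk x μ = 1
      · exact cov_one hK hn h2 (h1.trans h4)
      · exact cov_small hK h2 (by omega) (by omega)
    have h4 := h3.smul hμ
    rw [smul_smul, mul_inv_cancel₀ hμ, one_smul] at h4
    exact ⟨h4, tr (Or.inr (full_of_rk h))⟩
  push Not at h
  have one : Cy x 1 → ∀ k, 3 ≤ k → Cov x k := fun h k hk =>
    cov_of_le hK hn hx d0 h (h.csk hK hn hx d0) hk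
  by_cases h3 : finrank K V = 3
  · obtain ⟨w, hw⟩ := cyc_three (x := x) h3 fun μ => by have := h μ; omega
    exact ⟨one ⟨x, mem_pow_one (SC.refl x), w, hw⟩ _ hn, tr (Or.inl (by rw [h3]; decide))⟩
  by_cases h4 : finrank K V = 4
  · rcases four_cases hK h4 d0 (fun μ => by have := h μ; omega) with h5 | ⟨h5, h6⟩
    · exact ⟨one h5 _ hn, 1, by simpa [h4] using (one h5 3 le_rfl).one_mem hx dx⟩
    refine ⟨cov_of_le hK hn hx d0 h5.cy h5 h4.ge, ?_⟩
    rcases h6 with h6 | ⟨δ, h6⟩
    · exact tr (Or.inr h6)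
    · exact ⟨δ * δ, by simpa [h4, mul_smul] using mul_mem_pow h6 h6⟩
  have h5 := cy_two (by omega) d0 fun μ => (by have := h μ; omega : _ ≤ rk x μ)
  have two : ∀ k, 5 ≤ k → Cov x k := fun k hk => cov_of_le hK hn hx d0 h5 (h5.csk hK hn hx d0) hk
  refine ⟨two _ (by omega), ?_⟩
  by_cases h6 : finrank K V = 5
  · exact tr (Or.inl (by rw [h6]; decide))
  · have := (two (finrank K V - 1) (by omega)).one_mem hx dx
    rw [show finrank K V - 1 + 1 = finrank K V by omega] at this
    exact ⟨1, by simpa using this⟩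

variable {n : Type*} [Fintype n] [DecidableEq n]

/-- the action on column vectors -/
noncomputable def act : Matrix.SpecialLinearGroup n K →* End K (n → K) where
  toFun A := Matrix.toLin' A.1
  map_one' := Matrix.toLin'_one
  map_mul' A B := Matrix.toLin'_mul A.1 B.1

theorem act_apply (A : Matrix.SpecialLinearGroup n K) : act A = Matrix.toLin' A.1 := rfl

theorem det_act (A : Matrix.SpecialLinearGroup n K) : LinearMap.det (act A) = 1 := by
  rw [act_apply, LinearMap.det_toLin', A.2]

theorem exists_act {h : End K (n → K)} (hd : LinearMap.det h = 1) :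
    ∃ A : Matrix.SpecialLinearGroup n K, act A = h :=
  ⟨⟨LinearMap.toMatrix' h, by rw [LinearMap.det_toMatrix', hd]⟩, Matrix.toLin'_toMatrix' h⟩

theorem act_injective : Function.Injective (act : Matrix.SpecialLinearGroup n K → _) :=
  fun _ _ h => Subtype.ext (Matrix.toLin'.injective h)

theorem exists_prod {X : Matrix.SpecialLinearGroup n K} {k : ℕ} {P : End K (n → K)}
    (h : P ∈ cls (act X) ^ k) : ∃ f : Fin k → Matrix.SpecialLinearGroup n K,
      act (List.ofFn fun i => f i * X * (f i)⁻¹).prod = P := by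
  obtain ⟨s, rfl⟩ := Set.mem_pow.1 h
  have : ∀ i, ∃ H, act (H * X * H⁻¹) = s i := fun i => by
    obtain ⟨e, h1, h2⟩ := (s i).2
    obtain ⟨H, h3⟩ := exists_act h1
    refine ⟨H, ?_⟩
    have h4 : act H * act X = s i * act H := by
      rw [h3]
      exact LinearMap.ext h2
    rw [map_mul, map_mul, h4, mul_assoc, ← map_mul, mul_inv_cancel, map_one, mul_one]
  choose f hf using this
  refine ⟨f, ?_⟩
  rw [map_list_prod, List.map_ofFn]
  exact congrArg (fun s => (List.ofFn s).prod) (funext hf)

theorem mk_eq_one_iff {A : Matrix.SpecialLinearGroup n K} :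
    (A : Matrix.ProjectiveSpecialLinearGroup n K) = 1 ↔ ¬ NS (act A) := by
  rw [QuotientGroup.eq_one_iff]
  constructor
  · intro h h1
    obtain ⟨r, -, h2⟩ := Matrix.SpecialLinearGroup.mem_center_iff.1 h
    obtain ⟨v, hv⟩ := h1 r
    exact hv (by rw [act_apply, ← h2]; simp)
  · intro h
    simp only [NS, not_forall, not_exists, not_not] at h
    obtain ⟨μ, h⟩ := h
    have h1 : act A = μ • 1 := LinearMap.ext h
    exact Subgroup.mem_center_iff.2 fun g => act_injective (by simp [h1])

theorem mk_prod {k : ℕ} (f : Fin k → Matrix.SpecialLinearGroup n K)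
    (X : Matrix.SpecialLinearGroup n K) :
    (((List.ofFn fun i => f i * X * (f i)⁻¹).prod : Matrix.SpecialLinearGroup n K) :
      Matrix.ProjectiveSpecialLinearGroup n K) =
      (List.ofFn fun i => (f i : Matrix.ProjectiveSpecialLinearGroup n K) * X *
        (f i : Matrix.ProjectiveSpecialLinearGroup n K)⁻¹).prod := by
  rw [← QuotientGroup.mk'_apply, map_list_prod, List.map_ofFn]
  rfl

theorem upper (hK : Big K) (hn : 3 ≤ Fintype.card n) (x : Matrix.ProjectiveSpecialLinearGroup n K)
    (hx : x ≠ 1) (g : Matrix.ProjectiveSpecialLinearGroup n K) :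
    ∃ f : Fin (Fintype.card n) → Matrix.ProjectiveSpecialLinearGroup n K,
      g = (List.ofFn fun i => f i * x * (f i)⁻¹).prod := by
  obtain ⟨X, rfl⟩ := QuotientGroup.mk_surjective x
  obtain ⟨G, rfl⟩ := QuotientGroup.mk_surjective g
  obtain ⟨h1, z, h2⟩ := cov_main (V := n → K) hK (by simpa using hn)
    (not_not.1 (mt mk_eq_one_iff.2 hx)) (det_act X)
  rw [finrank_fintype_fun_eq_card] at h1 h2
  by_cases h : NS (act G)
  · obtain ⟨f, hf⟩ := exists_prod (h1 _ h (by simp [det_act]))
    exact ⟨fun i => f i, by rw [← act_injective hf, mk_prod]⟩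
  · obtain ⟨f, hf⟩ := exists_prod h2
    refine ⟨fun i => f i, ?_⟩
    refine Eq.trans ?_ (mk_prod f X)
    rw [mk_eq_one_iff.2 h, eq_comm, mk_eq_one_iff, hf]
    intro h3
    obtain ⟨v, hv⟩ := h3 z
    exact hv rfl

theorem prod_fix {M : Type*} [AddCommGroup M] [Module K M] (l : List (End K M)) (v : M)
    (h : ∀ t ∈ l, t v = v) : l.prod v = v := by
  induction l with
  | nil => rfl
  | cons a l ih =>
    rw [List.prod_cons, End.mul_apply, ih fun t ht => h t (List.mem_cons_of_mem _ ht),
      h a List.mem_cons_self]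

theorem lower [Finite K] (hn : 3 ≤ Fintype.card n) :
    ∃ x : Matrix.ProjectiveSpecialLinearGroup n K, x ≠ 1 ∧
      ∃ g : Matrix.ProjectiveSpecialLinearGroup n K,
        ∀ f : Fin (Fintype.card n - 1) → Matrix.ProjectiveSpecialLinearGroup n K,
          g ≠ (List.ofFn fun i => f i * x * (f i)⁻¹).prod := by
  classical
  obtain ⟨i, j, hij⟩ := Fintype.exists_pair_of_one_lt_card (α := n) (by omega)
  obtain ⟨X, hX⟩ := exists_act (h := LinearMap.transvection (LinearMap.proj i : Dual K (n → K))
    (Pi.single j 1)) (by simp [hij])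
  obtain ⟨c, hc⟩ : ∃ c : K, ∀ μ : K,
      μ ^ Fintype.card n + (c * μ + (-1) ^ Fintype.card n * 1) ≠ 0 := by
    by_contra! h
    choose r hr using h
    have h0 : ∀ c, r c ≠ 0 := fun c h => by
      simpa [h, show Fintype.card n ≠ 0 by omega] using hr c
    have h1 : Function.Injective r := fun a b h => by
      have h2 := hr a
      rw [h] at h2
      exact mul_right_cancel₀ (h0 b) (by linear_combination h2 - hr b)
    obtain ⟨a, ha⟩ := Finite.surjective_of_injective h1 0
    exact h0 a ha
  obtain ⟨A, -, -, a1, a2⟩ := exists_cyc_tri (K := K) (V := n → K)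
    (finrank_fintype_fun_eq_card K) (by omega) c 1
  obtain ⟨G, rfl⟩ := exists_act a1
  refine ⟨X, fun h => mk_eq_one_iff.1 h fun μ => ?_, G, fun f hf => ?_⟩
  · by_contra! h1
    have h2 := congrFun (h1 (Pi.single i 1)) j
    simp [hX, LinearMap.transvection.apply, hij.symm] at h2
  choose F hF using fun i => QuotientGroup.mk_surjective (f i)
  obtain rfl : f = fun i => (F i : Matrix.ProjectiveSpecialLinearGroup n K) :=
    (funext hF).symm
  replace hf := hf.trans (mk_prod F X).symm
  rw [← mul_inv_eq_one, ← QuotientGroup.mk_inv, ← QuotientGroup.mk_mul,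
    mk_eq_one_iff] at hf
  simp only [NS, not_forall, not_exists, not_not] at hf
  obtain ⟨μ, hf⟩ := hf
  obtain ⟨v, h1, h0⟩ := Submodule.exists_mem_ne_zero_of_ne_bot (LinearMap.ker_ne_bot_of_finrank_lt
    (f := LinearMap.pi fun k => (LinearMap.proj i : Dual K (n → K)) ∘ₗ act (F k)⁻¹)
    (by simp; omega))
  have h2 : act (List.ofFn fun k => F k * X * (F k)⁻¹).prod v = v := by
    rw [map_list_prod]
    refine prod_fix _ _ fun t ht => ?_
    obtain ⟨_, h3, rfl⟩ := List.mem_map.1 ht
    obtain ⟨k, rfl⟩ := List.mem_ofFn.1 h3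
    have h4 : act (F k)⁻¹ v i = 0 := congrFun h1 k
    rw [map_mul, map_mul, End.mul_apply, End.mul_apply, hX, LinearMap.transvection.apply,
      LinearMap.proj_apply, h4, zero_smul, add_zero, ← End.mul_apply, ← map_mul, mul_inv_cancel,
      map_one, End.one_apply]
  have h3 := hf v
  conv_lhs at h3 => rw [← h2]
  rw [← End.mul_apply, ← map_mul, inv_mul_cancel_right] at h3
  exact h0 (a2 μ (hc μ) v h3)

end H64.Lev
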